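import Cfsg.Agent.H87.Fi23A.Parity

/-!
An involution whose centralizer is a perfect double cover of a group of type M(22) and which is not
weakly closed there: its conjugates in the centralizer form one of the two classes over the members,
and the centralizer has odd index.
-/

set_option autoImplicit false
set_option linter.unusedSectionVars false
set_option linter.style.haveILetI false

namespace Cfsg.Agent.H87.Fi23A

open Cfsg

variable {H : Type*} [Group H] [Finite H] {Q : Type*} [Group Q] [Finite Q] {π : H →* Q} {z : H}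
  {E : Set Q}

/-- The other class has such a six as well. -/
theorem Cover.hexad_swap (hC : Cover π z E) {a : H} (hx : Hexad π E z a) :
    Hexad π E z (z * a) := by
  obtain ⟨ha, f, finj, fD, fc, fz⟩ := hx
  refine ⟨hC.pi_zconj ha, fun i => z * f i, (mul_right_injective z).comp finj, fun i => ?_,
    fun i j => (hC.zc _).mul_left ((hC.zc (f i)).symm.mul_right (fc i j)), ?_⟩
  · obtain ⟨c, hc⟩ := isConj_iff.1 (show IsConj a (f i) from fD i)
    refine isConj_iff.2 ⟨c, ?_⟩
    show _ = z * f i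
    rw [← hc, ← mul_assoc c, ← (hC.zc c).eq]
    simp only [mul_assoc]
  · have e : ∀ u v : H, z * u * (z * v) = u * v := fun u v => by
      rw [((hC.zc u).symm).mul_mul_mul_comm, hC.zz, one_mul]
    calc z * f 0 * (z * f 1) * (z * f 2) * (z * f 3 * (z * f 4) * (z * f 5))
        = (z * f 0 * (z * f 1)) * ((z * f 2) * (z * f 3)) * ((z * f 4) * (z * f 5)) := by
          simp only [mul_assoc]
      _ = z := by rw [e, e, e, ← fz]; simp only [mul_assoc]

/-- The orbit is `z` and one of the two classes of members. -/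
theorem Setup.orb_eq {A : Type*} [Group A] [Finite A] {R : Subgroup (MulAut A)} {w : A}
    {L1 L2 P1 P2 : Set A} (h : Setup R w L1 L2 P1 P2) (hx : ∃ x ∈ orb R w, x ≠ w) :
    orb R w = insert w L1 ∨ orb R w = insert w L2 := by
  have hc := h.orb_card hx
  have big : ∀ {S : Set A}, Trans R w S → 23 < S.ncard → ∀ x ∈ S, x ∉ orb R w := fun {S} hS hn =>
    (h.dichotomy hS).resolve_left fun e => by
      have := Set.ncard_le_ncard e (Set.toFinite _)
      omega
  have hT : ∀ x ∈ rest w L1 L2 P1 P2, x ∉ orb R w := by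
    rcases (rest w L1 L2 P1 P2).eq_empty_or_nonempty with he | ⟨t, ht⟩
    · rw [he]; exact fun x hx => hx.elim
    refine (h.dichotomy h.tT).resolve_left fun e => ?_
    have hu : (Set.univ : Set A) ⊆ {1, w} ∪ L1 ∪ L2 ∪ P1 ∪ P2 ∪ rest w L1 L2 P1 P2 := fun x _ => by
      simp only [rest, Set.mem_union, Set.mem_insert_iff, Set.mem_singleton_iff, Set.mem_ofPred_eq]
      tauto
    have h1 := Set.ncard_le_ncard hu (Set.toFinite _)
    rw [Set.ncard_univ, h.card] at h1
    have u1 := Set.ncard_union_le ({1, w} ∪ L1 ∪ L2 ∪ P1 ∪ P2) (rest w L1 L2 P1 P2)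
    have u2 := Set.ncard_union_le ({1, w} ∪ L1 ∪ L2 ∪ P1) P2
    have u3 := Set.ncard_union_le ({1, w} ∪ L1 ∪ L2) P1
    have u4 := Set.ncard_union_le ({1, w} ∪ L1) L2
    have u5 := Set.ncard_union_le ({1, w} : Set A) L1
    have u6 := Set.ncard_le_ncard e (Set.toFinite _)
    have u7 : ({1, w} : Set A).ncard ≤ 2 := (Set.ncard_insert_le _ _).trans (by simp)
    rw [h.card_L1] at u5
    rw [h.card_L2] at u4
    rw [h.card_P1] at u3
    rw [h.card_P2] at u2
    omega
  have h1 := big h.tP1 (by rw [h.card_P1]; norm_num)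
  have h2 := big h.tP2 (by rw [h.card_P2]; norm_num)
  have hsub : ∀ x ∈ orb R w, x = w ∨ x ∈ L1 ∨ x ∈ L2 := fun x hx => by
    by_contra hn
    simp only [not_or] at hn
    exact hT x ⟨fun e => h.one_notMem (e ▸ hx), hn.1, hn.2.1, hn.2.2, fun e => h1 x e hx,
      fun e => h2 x e hx⟩ hx
  rcases h.dichotomy h.tL1 with a1 | a1
  · refine Or.inl (Set.eq_of_subset_of_ncard_le (Set.insert_subset h.z_mem a1) ?_
      (Set.toFinite _)).symm
    rw [Set.ncard_insert_of_notMem h.z_out.1 (Set.toFinite _), h.card_L1, hc]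
  · have e : orb R w ⊆ insert w L2 := fun x hx => by
      rcases hsub x hx with rfl | e | e
      · exact Or.inl rfl
      · exact absurd hx (a1 x e)
      · exact Or.inr e
    refine Or.inr (Set.eq_of_subset_of_ncard_le e ?_ (Set.toFinite _))
    rw [Set.ncard_insert_of_notMem h.z_out.2.1 (Set.toFinite _), h.card_L2, hc]

variable {G : Type*} [Group G] [Finite G]

/-- The conjugates of the involution in its centralizer, and the index of the centralizer. -/
theorem fusion {d : G} {C : Subgroup G} (hCd : C = Subgroup.centralizer ({d} : Set G)) {π : ↥C →* Q}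
    {z : ↥C} (hz : (z : G) = d) (hcov : Cover π z E)
    (hnwc : ∃ g : G, g * d * g⁻¹ ∈ C ∧ g * d * g⁻¹ ≠ d) :
    (∃ a : ↥C, π a ∈ E ∧ Hexad π E z a ∧
      ∀ x : ↥C, IsConj d (x : G) ↔ x = z ∨ x ∈ conjugatesOf a) ∧
    (∀ P : Subgroup G, IsPGroup 2 P → ∃ g : G, ∀ x ∈ P, Commute x (g * d * g⁻¹)) := by
  classical
  haveI : Fact (Nat.Prime 2) := ⟨Nat.prime_two⟩
  have hdd : d * d = 1 := by rw [← hz]; exact congrArg Subtype.val hcov.zz
  have mC : ∀ {x : G}, x ∈ C ↔ x * d = d * x := fun {x} => by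
    rw [hCd, Subgroup.mem_centralizer_singleton_iff]
  obtain ⟨S⟩ : Nonempty (Sylow 2 ↥C) := inferInstance
  obtain ⟨B, AC, hblock, hAS, hmax, hth⟩ := hcov.sylow_block S
  obtain ⟨he2, hec⟩ := hcov.Block_elem hblock
  have hcard := hcov.Block_card hblock
  have hzA : z ∈ AC := by
    rw [hblock.eq, Subgroup.mem_comap, hcov.piz]
    exact one_mem _
  obtain ⟨zA, hzAe⟩ : ∃ w : ↥AC, (w : ↥C) = z := ⟨⟨z, hzA⟩, rfl⟩
  let R : Subgroup (MulAut ↥AC) :=
    { carrier := {r | ∃ g : G, ∀ x : ↥AC, ((r x : ↥C) : G) = g * ((x : ↥C) : G) * g⁻¹}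
      one_mem' := ⟨1, fun x => by simp⟩
      mul_mem' := by
        rintro r s ⟨g, hg⟩ ⟨h, hh⟩
        refine ⟨g * h, fun x => ?_⟩
        rw [MulAut.mul_apply, hg, hh]
        group
      inv_mem' := by
        rintro r ⟨g, hg⟩
        refine ⟨g⁻¹, fun x => ?_⟩
        have := hg (r⁻¹ x)
        rw [show r (r⁻¹ x) = x from r.apply_symm_apply x] at this
        rw [this]
        group }
  have hin : ∀ h ∈ Subgroup.normalizer (AC : Set ↥C), ∃ r ∈ R,
      ∀ x : ↥AC, ((r x : ↥AC) : ↥C) = h * x * h⁻¹ := fun h hh =>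
    ⟨AC.normalizerMonoidHom ⟨h, hh⟩, ⟨(h : G), fun x => rfl⟩, fun x => rfl⟩
  have hout : ∀ r ∈ R, r zA = zA → ∃ h : ↥C, ∀ x : ↥AC, ((r x : ↥AC) : ↥C) = h * x * h⁻¹ := by
    rintro r ⟨g, hg⟩ hr
    have e := hg zA
    rw [hr, hzAe, hz] at e
    exact ⟨⟨g, mC.2 (mul_inv_eq_iff_eq_mul.1 e.symm)⟩, fun x => Subtype.ext (hg x)⟩
  -- elements moving `d` into the subgroup can be taken in its normalizer
  have hnorm : ∀ x : ↥AC, IsConj d ((x : ↥C) : G) → ∃ r ∈ R, r zA = x := by
    intro x hc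
    obtain ⟨g, hg⟩ := isConj_iff.1 hc
    have hcen : ∀ y : ↥AC, g⁻¹ * ((y : ↥C) : G) * g ∈ C := fun y => mC.2 (by
      have : ((y : ↥C) : G) * (g * d * g⁻¹) = g * d * g⁻¹ * ((y : ↥C) : G) := by
        rw [hg]; exact congrArg Subtype.val (hec _ y.2 _ x.2).eq
      calc g⁻¹ * ((y : ↥C) : G) * g * d = g⁻¹ * (((y : ↥C) : G) * (g * d * g⁻¹)) * g := by group
        _ = d * (g⁻¹ * ((y : ↥C) : G) * g) := by rw [this]; group)
    let f : ↥AC →* ↥C := MonoidHom.mk' (fun y => ⟨_, hcen y⟩) fun u v => Subtype.ext (by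
      simp only [Subgroup.coe_mul]; group)
    have finj : Function.Injective f := fun u v e =>
      Subtype.ext (Subtype.ext (mul_left_cancel (mul_right_cancel (congrArg Subtype.val e))))
    obtain ⟨c, hc'⟩ := hcov.block_conj hblock (A' := f.range)
      (by
        rintro _ ⟨y, rfl⟩
        rw [← map_mul, show y * y = 1 from Subtype.ext (he2 _ y.2), map_one])
      (by
        rintro _ ⟨y, rfl⟩ _ ⟨y', rfl⟩
        exact (show Commute y y' from Subtype.ext (hec _ y.2 _ y'.2).eq).map f)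
      (by rw [← Nat.card_congr (MonoidHom.ofInjective finj).toEquiv, hcard])
    let φ : ↥AC →* ↥AC := MonoidHom.mk' (fun y => ⟨c * f y * c⁻¹, hc' _ ⟨y, rfl⟩⟩) fun u v =>
      Subtype.ext (by simp only [map_mul, Subgroup.coe_mul]; group)
    have φinj : Function.Injective φ := fun u v e =>
      finj (mul_left_cancel (mul_right_cancel (congrArg Subtype.val e)))
    obtain ⟨r, hr⟩ : ∃ r : MulAut ↥AC, ∀ y, r y = φ y :=
      ⟨MulEquiv.ofBijective φ ⟨φinj, Finite.surjective_of_injective φinj⟩, fun y => rfl⟩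
    have hrG : ∀ y : ↥AC, ((r y : ↥C) : G) = ((c : G) * g⁻¹) * ((y : ↥C) : G) * ((c : G) * g⁻¹)⁻¹ := by
      intro y
      rw [hr]
      show (c : G) * (g⁻¹ * ((y : ↥C) : G) * g) * (c : G)⁻¹ = _
      group
    have hrR : r ∈ R := ⟨_, hrG⟩
    refine ⟨r⁻¹, inv_mem hrR, r.injective ?_⟩
    rw [show r (r⁻¹ zA) = zA from r.apply_symm_apply zA]
    refine Subtype.ext (Subtype.ext ?_)
    rw [hrG, hzAe, hz]
    calc d = (c : G) * d * (c : G)⁻¹ := by rw [mC.1 c.2, mul_inv_cancel_right]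
      _ = _ := by rw [← hg]; group
  have horb : ∀ x : ↥AC, x ∈ orb R zA ↔ IsConj d ((x : ↥C) : G) := fun x => by
    refine ⟨?_, fun hc => hnorm x hc⟩
    rintro ⟨r, ⟨g, hg⟩, rfl⟩
    exact isConj_iff.2 ⟨g, by rw [hg, hzAe, hz]⟩
  have moved : ∀ x : ↥C, IsConj d (x : G) → ∃ (h : ↥C) (y : ↥AC), y ∈ orb R zA ∧
      h * x * h⁻¹ = y := by
    intro x hc
    obtain ⟨g, hg⟩ := isConj_iff.1 hc
    obtain ⟨h, hh⟩ := hcov.invol hblock (y := x) (Subtype.ext (by
      show (x : G) * x = 1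
      rw [← hg]
      calc g * d * g⁻¹ * (g * d * g⁻¹) = g * (d * d) * g⁻¹ := by group
        _ = 1 := by rw [hdd]; group))
    exact ⟨h, ⟨_, hh⟩, (horb _).2 (hc.trans (isConj_iff.2 ⟨(h : G), rfl⟩)), rfl⟩
  obtain ⟨g, hgC, hgne⟩ := hnwc
  have hne : ∃ x ∈ orb R zA, x ≠ zA := by
    obtain ⟨h, y, hy, e⟩ := moved ⟨g * d * g⁻¹, hgC⟩ (isConj_iff.2 ⟨g, rfl⟩)
    refine ⟨y, hy, fun e' => hgne ?_⟩
    rw [e', hzAe] at e
    have e2 : (⟨g * d * g⁻¹, hgC⟩ : ↥C) = z := by
      refine mul_left_cancel (a := h) (mul_right_cancel (b := h⁻¹) ?_)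
      rw [e, ← (hcov.zc h).eq, mul_inv_cancel_right]
    exact (congrArg Subtype.val e2).trans hz
  obtain ⟨a₀, hx₀⟩ := hcov.exists_hexad
  obtain ⟨L1, L2, P1, P2, hset, hL1⟩ := hcov.exists_setup hblock hx₀ zA hzAe R hin hout
  have hzswap : ∀ x : ↥C, z * x ∈ conjugatesOf a₀ ↔ x ∈ conjugatesOf (z * a₀) := by
    intro x
    constructor <;> intro hx <;> obtain ⟨c, hc⟩ := isConj_iff.1 hx <;>
      refine isConj_iff.2 ⟨c, ?_⟩
    · rw [← mul_assoc c, ← (hcov.zc c).eq, mul_assoc z c, mul_assoc z, hc, hcov.cancel]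
    · rw [← hc, ← mul_assoc c, ← (hcov.zc c).eq, mul_assoc z c, mul_assoc z, hcov.cancel]
  obtain ⟨a, hax, hLa⟩ : ∃ a, Hexad π E z a ∧
      ∀ y : ↥AC, y ∈ orb R zA ↔ y = zA ∨ (y : ↥C) ∈ conjugatesOf a := by
    rcases hset.orb_eq hne with e | e
    · exact ⟨a₀, hx₀, fun y => by rw [e, Set.mem_insert_iff, hL1]⟩
    · refine ⟨z * a₀, hcov.hexad_swap hx₀, fun y => ?_⟩
      rw [e, Set.mem_insert_iff, hset.mem_L2, hL1, Subgroup.coe_mul, hzAe, hzswap]
  refine ⟨⟨a, hax.1, hax, fun x => ⟨fun hc => ?_, fun hc => ?_⟩⟩, fun P hP => ?_⟩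
  · obtain ⟨h, y, hy, e⟩ := moved x hc
    rcases (hLa y).1 hy with e' | e'
    · refine Or.inl (mul_left_cancel (a := h) (mul_right_cancel (b := h⁻¹) ?_))
      rw [e, e', hzAe, ← (hcov.zc h).eq, mul_inv_cancel_right]
    · exact Or.inr ((show IsConj a (y : ↥C) from e').trans
        (isConj_iff.2 ⟨h⁻¹, by rw [← e]; group⟩))
  · rcases hc with rfl | hc
    · rw [hz]
    · obtain ⟨b, hb⟩ : ∃ b, b ∈ conjugatesOf a := ⟨a, mem_conjugatesOf_self⟩
      have hxx : x * x = 1 := hcov.sq (hcov.D_sq (hcov.mem_D hax.1 hc))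
      obtain ⟨h, hh⟩ := hcov.invol hblock hxx
      have := (horb ⟨_, hh⟩).1 ((hLa _).2 (Or.inr (hcov.conj_mem hc h)))
      exact this.trans (isConj_iff.2 ⟨(h : G)⁻¹, by simp [mul_assoc]⟩)
  -- odd index
  have hodd : ¬ 2 ∣ (C : Subgroup G).index := by
    intro h2
    -- a 2-subgroup of `G` properly containing `S`
    obtain ⟨S', hS'⟩ : ∃ S', S' = (S : Subgroup ↥C).map C.subtype := ⟨_, rfl⟩
    have hS'p : IsPGroup 2 ↥S' := hS' ▸ S.isPGroup'.map C.subtype
    obtain ⟨T, hT⟩ := hS'p.exists_le_sylow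
    have hlt : S' < (T : Subgroup G) := by
      refine lt_of_le_of_ne hT fun e => ?_
      have h1 := T.not_dvd_index
      rw [← e, hS', Subgroup.index_map_of_injective _ C.subtype_injective,
        Subgroup.range_subtype] at h1
      exact h1 (dvd_mul_of_dvd_right h2 _)
    haveI : Group.IsNilpotent ↥(T : Subgroup G) := T.isPGroup'.isNilpotent
    have hlt2 : S'.subgroupOf (T : Subgroup G) < ⊤ := by
      refine lt_top_iff_ne_top.2 fun e => hlt.ne (le_antisymm hT ?_)
      exact Subgroup.subgroupOf_eq_top.1 e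
    obtain ⟨t, htN, ht⟩ := SetLike.exists_of_lt
      (Group.normalizerCondition_of_isNilpotent (G := ↥(T : Subgroup G)) _ hlt2)
    rw [Subgroup.mem_subgroupOf] at ht
    obtain ⟨g₀, hg₀⟩ : ∃ g₀, g₀ = (t : G) := ⟨_, rfl⟩
    have hnS : ∀ w ∈ S', g₀ * w * g₀⁻¹ ∈ S' := fun w hw => by
      have := (Subgroup.mem_normalizer_iff.1 htN ⟨w, hT hw⟩).1 (Subgroup.mem_subgroupOf.2 hw)
      rw [Subgroup.mem_subgroupOf] at this
      rw [hg₀]
      simpa using this
    have hACS : ∀ y : ↥AC, ((y : ↥C) : G) ∈ S' := fun y => hS' ▸ ⟨_, hAS y.2, rfl⟩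
    have hg : ∀ y : ↥AC, ∃ y' : ↥AC, ((y' : ↥C) : G) = g₀ * ((y : ↥C) : G) * g₀⁻¹ := by
      let f : ↥AC →* G := MonoidHom.mk' (fun y => g₀ * ((y : ↥C) : G) * g₀⁻¹) fun u v => by
        simp only [Subgroup.coe_mul]; group
      have hfS : ∀ y, f y ∈ S' := fun y => hnS _ (hACS y)
      have hA' := hmax (f.range.comap C.subtype) (fun w hw => by
          obtain ⟨y, e⟩ := hw
          have h2 := hfS y
          rw [hS'] at h2
          obtain ⟨w', hw', e'⟩ := h2
          have : w' = w := Subtype.ext (e'.trans e)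
          exact this ▸ hw')
        (fun w hw => by
          obtain ⟨y, e⟩ := hw
          refine Subtype.ext ?_
          show C.subtype w * C.subtype w = 1
          rw [← e, ← map_mul, show y * y = 1 from Subtype.ext (he2 _ y.2), map_one])
        (fun v hv w hw => by
          obtain ⟨y, e⟩ := hv
          obtain ⟨y', e'⟩ := hw
          refine Subtype.ext ?_
          show C.subtype v * C.subtype w = C.subtype w * C.subtype v
          rw [← e, ← e', ← map_mul, ← map_mul,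
            show y * y' = y' * y from Subtype.ext (hec _ y.2 _ y'.2).eq])
        (by
          have hle : f.range ≤ C := by
            rintro _ ⟨y, rfl⟩
            have h2 := hfS y
            rw [hS'] at h2
            obtain ⟨w', -, e'⟩ := h2
            exact e' ▸ w'.2
          have finj : Function.Injective f := fun u v e =>
            Subtype.ext (Subtype.ext (mul_left_cancel (mul_right_cancel e)))
          have : f.range.comap C.subtype = f.range.subgroupOf C := rfl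
          rw [this, Nat.card_congr (Subgroup.subgroupOfEquivOfLe hle).toEquiv,
            ← Nat.card_congr (MonoidHom.ofInjective finj).toEquiv, hcard])
      intro y
      obtain ⟨w', hw', e'⟩ : ∃ w' : ↥C, w' ∈ AC ∧ (w' : G) = f y := by
        have h2 := hfS y
        rw [hS'] at h2
        obtain ⟨w', -, e'⟩ := h2
        exact ⟨w', hA' ▸ ⟨y, e'.symm⟩, e'⟩
      exact ⟨⟨w', hw'⟩, e'⟩
    choose f hf using hg
    let φ : ↥AC →* ↥AC := MonoidHom.mk' f fun u v => Subtype.ext (Subtype.ext (by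
      simp only [Subgroup.coe_mul, hf]; group))
    have φinj : Function.Injective φ := fun u v e => Subtype.ext (Subtype.ext (by
      have := congrArg (fun w : ↥AC => ((w : ↥C) : G)) e
      simpa [φ, hf] using this))
    obtain ⟨r, hr⟩ : ∃ r : MulAut ↥AC, ∀ y, r y = f y :=
      ⟨MulEquiv.ofBijective φ ⟨φinj, Finite.surjective_of_injective φinj⟩, fun y => rfl⟩
    have hrG : ∀ y : ↥AC, ((r y : ↥C) : G) = g₀ * ((y : ↥C) : G) * g₀⁻¹ := fun y => by rw [hr, hf]
    -- a group of order a power of two has a fixed point on the 23 conjugates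
    obtain ⟨k, hk⟩ := T.isPGroup' t
    have hfixgen : ∀ (s : MulAut ↥AC) (u : G), (∀ y : ↥AC, ((s y : ↥C) : G) = u * ((y : ↥C) : G) * u⁻¹) →
        ∀ n : ℕ, ∀ y : ↥AC, (((s ^ n) y : ↥C) : G) = u ^ n * ((y : ↥C) : G) * (u ^ n)⁻¹ := by
      intro s u hs n
      induction n with
      | zero => intro y; simp
      | succ n ih => intro y; rw [pow_succ', MulAut.mul_apply, hs, ih, pow_succ']; group
    -- the 2-group `S` together with `t` fixes a conjugate of `d` in the subgroup
    let U : Subgroup (MulAut ↥AC) :=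
      { carrier := {s | ∃ u ∈ S' ⊔ Subgroup.zpowers g₀,
          ∀ y : ↥AC, ((s y : ↥C) : G) = u * ((y : ↥C) : G) * u⁻¹}
        one_mem' := ⟨1, one_mem _, fun y => by simp⟩
        mul_mem' := by
          rintro r s ⟨u, hu, hu'⟩ ⟨v, hv, hv'⟩
          exact ⟨u * v, mul_mem hu hv, fun y => by rw [MulAut.mul_apply, hu', hv']; group⟩
        inv_mem' := by
          rintro r ⟨u, hu, hu'⟩
          refine ⟨u⁻¹, inv_mem hu, fun y => ?_⟩
          have := hu' (r⁻¹ y)
          rw [show r (r⁻¹ y) = y from r.apply_symm_apply y] at this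
          rw [this]
          group }
    have hUT : S' ⊔ Subgroup.zpowers g₀ ≤ (T : Subgroup G) :=
      sup_le hT (Subgroup.zpowers_le.2 (hg₀ ▸ t.2))
    have hUp : IsPGroup 2 ↥U := fun s => by
      obtain ⟨u, hu, hu'⟩ := s.2
      obtain ⟨n, hn⟩ := T.isPGroup' ⟨u, hUT hu⟩
      refine ⟨n, Subtype.ext (MulEquiv.ext fun y => Subtype.ext (Subtype.ext ?_))⟩
      rw [SubgroupClass.coe_pow, hfixgen _ u hu' _ y,
        show u ^ 2 ^ n = 1 from congrArg Subtype.val hn]
      simp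
    have hrU : r ∈ U := ⟨g₀, Subgroup.mem_sup_right (Subgroup.mem_zpowers g₀), hrG⟩
    have hinv : ∀ s ∈ U, ∀ y ∈ orb R zA, s y ∈ orb R zA := by
      rintro s ⟨u, -, hu⟩ y hy
      rw [horb, hu]
      exact ((horb y).1 hy).trans (isConj_iff.2 ⟨u, rfl⟩)
    let Δ : SubMulAction ↥U ↥AC := ⟨orb R zA, fun s y hy => hinv s.1 s.2 y hy⟩
    have h23 : Nat.card ↥Δ = 23 := by
      rw [← hset.orb_card hne, ← Nat.card_coe_set_eq]; rfl
    have hfp := hUp.card_modEq_card_fixedPoints ↥Δ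
    rw [h23] at hfp
    obtain ⟨⟨⟨w, hw⟩, hwf⟩⟩ : Nonempty (MulAction.fixedPoints ↥U ↥Δ) := by
      by_contra hn
      rw [not_nonempty_iff] at hn
      rw [Nat.card_of_isEmpty] at hfp
      exact absurd hfp (by decide)
    obtain ⟨e₀, he₀⟩ := isConj_iff.1 ((horb w).1 hw)
    -- so the larger group centralises a conjugate
    have hall : ∀ v ∈ S' ⊔ Subgroup.zpowers g₀, Commute v ((w : ↥C) : G) := by
      intro v hv
      have hle : S' ⊔ Subgroup.zpowers g₀ ≤ Subgroup.centralizer {((w : ↥C) : G)} := by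
        refine sup_le (fun v hv => ?_) (Subgroup.zpowers_le.2 ?_)
        · rw [hS'] at hv
          obtain ⟨v', hv', rfl⟩ := hv
          have hvn : v' ∈ Subgroup.normalizer (AC : Set ↥C) :=
            hcov.mem_normalizer hblock fun y hy => by
              obtain ⟨T', hT'⟩ : ∃ T', T' = AC.map (MulAut.conj v').toMonoidHom := ⟨_, rfl⟩
              have := hmax T' (hT' ▸ by
                  rintro _ ⟨u, hu, rfl⟩
                  exact mul_mem (mul_mem hv' (hAS hu)) (inv_mem hv'))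
                (hT' ▸ by
                  rintro _ ⟨u, hu, rfl⟩
                  rw [← map_mul, he2 u hu, map_one])
                (hT' ▸ by
                  rintro _ ⟨u, hu, rfl⟩ _ ⟨u', hu', rfl⟩
                  exact (hec u hu u' hu').map _)
                (by rw [hT', Subgroup.card_map_of_injective (MulAut.conj v').injective, hcard])
              exact this ▸ hT' ▸ ⟨y, hy, rfl⟩
          have hsU : AC.normalizerMonoidHom ⟨v', hvn⟩ ∈ U :=
            ⟨(v' : G), Subgroup.mem_sup_left (hS' ▸ ⟨v', hv', rfl⟩), fun y => rfl⟩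
          rw [Subgroup.mem_centralizer_singleton_iff]
          exact mul_inv_eq_iff_eq_mul.1 (congrArg (fun p : ↥Δ => (((p : ↥AC) : ↥C) : G))
            (hwf ⟨_, hsU⟩))
        · rw [Subgroup.mem_centralizer_singleton_iff]
          refine mul_inv_eq_iff_eq_mul.1 ?_
          rw [← hrG]
          exact congrArg (fun p : ↥Δ => (((p : ↥AC) : ↥C) : G)) (hwf ⟨r, hrU⟩)
      exact Subgroup.mem_centralizer_singleton_iff.1 (hle hv)
    -- its conjugate lies in `C`, contradicting maximality of `S`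
    obtain ⟨M, hM⟩ : ∃ M, M = (S' ⊔ Subgroup.zpowers g₀).map (MulAut.conj e₀⁻¹).toMonoidHom :=
      ⟨_, rfl⟩
    have hMC : M ≤ C := by
      rw [hM]
      rintro _ ⟨v, hv, rfl⟩
      show e₀⁻¹ * v * e₀⁻¹⁻¹ ∈ C
      rw [mC]
      have := (hall v hv).eq
      rw [← he₀] at this
      calc e₀⁻¹ * v * e₀⁻¹⁻¹ * d = e₀⁻¹ * (v * (e₀ * d * e₀⁻¹)) * e₀ := by group
        _ = d * (e₀⁻¹ * v * e₀⁻¹⁻¹) := by rw [this]; group
    have hMp : IsPGroup 2 ↥(M.subgroupOf C) :=
      ((hM ▸ ((T.isPGroup'.to_le hUT).map _) : IsPGroup 2 ↥M)).of_equiv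
        (Subgroup.subgroupOfEquivOfLe hMC).symm
    obtain ⟨S₂, hS₂⟩ := hMp.exists_le_sylow
    have h3 : Nat.card ↥M ≤ Nat.card ↥S' := by
      rw [← Nat.card_congr (Subgroup.subgroupOfEquivOfLe hMC).toEquiv, hS',
        Subgroup.card_map_of_injective C.subtype_injective]
      exact (Subgroup.card_le_of_le hS₂).trans_eq
        (by rw [Sylow.card_eq_multiplicity, Sylow.card_eq_multiplicity])
    rw [hM, Subgroup.card_map_of_injective (MulAut.conj e₀⁻¹).injective] at h3
    have heq := Subgroup.eq_of_le_of_card_ge (le_sup_left : S' ≤ S' ⊔ Subgroup.zpowers g₀) h3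
    exact ht (hg₀ ▸ heq ▸ Subgroup.mem_sup_right (Subgroup.mem_zpowers g₀))
  -- every 2-subgroup centralises a conjugate
  obtain ⟨SG, hSG⟩ : ∃ SG : Sylow 2 G, (SG : Subgroup G) = (S : Subgroup ↥C).map C.subtype := by
    obtain ⟨T, hT⟩ := (S.isPGroup'.map C.subtype).exists_le_sylow
    refine ⟨T, (Subgroup.eq_of_le_of_card_ge hT ?_).symm⟩
    rw [Subgroup.card_map_of_injective C.subtype_injective, Sylow.card_eq_multiplicity,
      Sylow.card_eq_multiplicity]
    refine Nat.pow_le_pow_right (by norm_num) (le_of_eq ?_)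
    rw [← C.card_mul_index, Nat.factorization_mul Nat.card_pos.ne' Subgroup.index_ne_zero_of_finite,
      Finsupp.add_apply, Nat.factorization_eq_zero_of_not_dvd hodd, add_zero]
  obtain ⟨T, hT⟩ := hP.exists_le_sylow
  obtain ⟨k, hk⟩ := MulAction.exists_smul_eq G SG T
  refine ⟨k, fun x hx => ?_⟩
  have hxT := hT hx
  rw [← hk, Sylow.coe_subgroup_smul, hSG] at hxT
  obtain ⟨w, ⟨v, -, rfl⟩, rfl⟩ := hxT
  exact (Commute.conj_iff k).2 (show Commute (v : G) d from mC.1 v.2)

end Cfsg.Agent.H87.Fi23A
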