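import Cfsg.Agent.H89.M23.Counts
import Cfsg.Agent.H43.M23Local
import Cfsg.Agent.H87.Fi23A.Variance
import Cfsg.Agent.H87.Fi23A.Twins23

/-! Classes of 3-transpositions with trivial centre around one member of which the quotient is of
type M(22): the local facts of type M(23), without using the reflection group of a non-commuting
pair. -/

set_option autoImplicit false

namespace Cfsg.Agent.H87.Fi23A

open Subgroup H43.FischerTwins H53
open H89.M23 (Sub FixProp SelfProd Rel sub_of_one m22_fix m22_self m22_simple fix_step rel_lift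
  center_le core_le param_check ncard_image_near)

variable {G : Type*} [Group G] [Finite G] {D : Set G}

omit [Finite G] in
theorem Near23.of_type (h : Cfsg.IsOfTypeM23 G D) : Near23 D :=
  ⟨h.1, let ⟨d, hd, _, _, _, h22, _⟩ := h.2; ⟨d, hd, h22⟩⟩

/-- The partners of the witness of type M(23). -/
theorem Near23.sub (hD : Cfsg.IsThreeTranspositionClass D) (hprim : Cfsg.IsPrimitiveUnderConj D)
    (h : Near23 D) :
    ∃ d ∈ D, Cfsg.IsThreeTranspositionClass (nearImage D d) ∧
      Cfsg.IsPrimitiveUnderConj (nearImage D d) ∧ Cfsg.IsOfTypeM22 (NearQuot D d) (nearImage D d) ∧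
      (∃ p ∈ Sset D d, ∃ q ∈ Sset D d, p ≠ q ∧ Commute p q) := by
  obtain ⟨d, hd, h22⟩ := h.near
  obtain ⟨a, ha, c, hc, g, hg, hac, hga, hgc⟩ := triple_lift (H17.class_group hD) (m22_triple h22)
  have hcl := nearImage_class hD hprim hd ha hc hac
  obtain ⟨-, hp⟩ := nearImage_primitive hD hprim hd ha hc hac hg hga hgc h22.1
    (m22_local (H17.class_group hcl) h22)
  exact ⟨d, hd, hcl, hp, h22, g, hg, a, ha, fun e => hac (e ▸ hgc), hga⟩

variable (hD : Cfsg.IsThreeTranspositionClass D) (hprim : Cfsg.IsPrimitiveUnderConj D)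
  (h23 : Near23 D)
include hD hprim h23

theorem Near23.subs : ∀ e ∈ D, Sub D e := by
  obtain ⟨d, hd, hcl, hp, h22, hpair⟩ := h23.sub hD hprim
  exact fun e he => sub_of_one hD hd ⟨hcl, hp, hpair, m22_fix hcl hp h22⟩ he

theorem Near23.fixProp : FixProp D := fix_step hD hprim (h23.subs hD hprim)

/-- Only the identity and the member are central among the products of its partners. -/
theorem Near23.centerNear {a : G} (ha : a ∈ D) :
    ∀ z ∈ center ↥(closure (Sset D a)), (z : G) = 1 ∨ (z : G) = a :=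
  center_le hD h23.cen (h23.fixProp hD hprim) ha

/-- In type M(23) no six commuting members have trivial product. -/
theorem Near23.no_six : ¬ Rel D 6 := by
  rintro ⟨l, hn, hlen, hl, hc, hp⟩
  obtain ⟨d, hd, hcl, hpr, h22, -⟩ := h23.sub hD hprim
  obtain ⟨hs, hna⟩ := m22_simple hcl hpr h22
  haveI : IsSimpleGroup (NearQuot D d) := hs
  obtain ⟨a, b, c, r, s, t, rfl⟩ : ∃ a b c r s t, l = [a, b, c, r, s, t] := by
    match l, hlen with
    | [a, b, c, r, s, t], _ => exact ⟨a, b, c, r, s, t, rfl⟩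
  simp only [List.nodup_cons, List.mem_cons, List.not_mem_nil, or_false, not_or] at hn
  obtain ⟨⟨ab, ac, ar, as, at'⟩, ⟨bc, -, -, -⟩, -, ⟨rs, rt⟩, st, -⟩ := hn
  have cm : ∀ x y, x ∈ [a, b, c, r, s, t] → y ∈ [a, b, c, r, s, t] → Commute x y :=
    fun x y hx hy => hc x hx y hy
  have hsq := fun x (hx : x ∈ [a, b, c, r, s, t]) => H17.sq_one hD.1 (hl x hx)
  have hrst : r * s * t * (r * s * t) = 1 := by
    rw [((cm r t (by simp) (by simp)).mul_left (cm s t (by simp) (by simp))).symm.mul_mul_mul_comm,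
      (cm r s (by simp) (by simp)).symm.mul_mul_mul_comm, hsq r (by simp), hsq s (by simp),
      hsq t (by simp), one_mul, one_mul]
  have heq : [a, b, c].prod = [r, s, t].prod := by
    simp only [List.prod_cons, List.prod_nil, mul_one, ← mul_assoc] at hp ⊢
    calc a * b * c = a * b * c * (r * s * t * (r * s * t)) := by rw [hrst, mul_one]
      _ = a * b * c * r * s * t * (r * s * t) := by simp only [mul_assoc]
      _ = r * s * t := by rw [hp, one_mul]
  have := factors_unique (H17.class_group hD) hprim hd (core_le hna) h23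
    (m := 3) le_rfl (j := [r, s, t].prod) [a, b, c] [r, s, t]
    ⟨by simp [ab, ac, bc], rfl, fun x hx => hl x (by simp at hx ⊢; tauto),
      fun x hx y hy => cm x y (by simp at hx ⊢; tauto) (by simp at hy ⊢; tauto), heq⟩
    ⟨by simp [rs, rt, st], rfl, fun x hx => hl x (by simp at hx ⊢; tauto),
      fun x hx y hy => cm x y (by simp at hx ⊢; tauto) (by simp at hy ⊢; tauto), rfl⟩ a (by simp)
  simp [ar, as, at'] at this

/-- In type M(23) every member is a product of six partners. -/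
theorem Near23.self {a : G} (ha : a ∈ D) : SelfProd D 6 a := by
  obtain ⟨d, hd, hcl, hpr, h22, -⟩ := h23.sub hD hprim
  obtain ⟨w, hw, -⟩ := hcl.2.1
  have hrel : Rel (nearImage D d) 6 := (m22_self hcl hpr h22 hw).rel hcl.1 hw
  rcases rel_lift hD h23.cen (h23.fixProp hD hprim) hd (h23.subs hD hprim d hd) hrel with h' | h'
  · obtain ⟨l, h1, h2, h3, h4, h5⟩ := h'
    exact absurd ⟨l, h1, h2, fun x hx => (h3 x hx).1, h4, h5⟩ (Near23.no_six hD hprim h23)
  · obtain ⟨g, rfl⟩ := H17.class_transitive hD hd ha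
    exact h'.conj (H17.class_conj hD) g

/-- Around every member the quotient is of type M(22). -/
theorem Near23.localAll {d : G} (hd : d ∈ D) : Cfsg.IsThreeTranspositionClass (nearImage D d) ∧
    Cfsg.IsPrimitiveUnderConj (nearImage D d) ∧
      Cfsg.IsOfTypeM22 (NearQuot D d) (nearImage D d) := by
  obtain ⟨a, ha, hcl, hp, h22, -⟩ := h23.sub hD hprim
  obtain ⟨g, hg⟩ := H17.class_transitive hD ha hd
  obtain ⟨ψ, -, himg⟩ := H89.M23.exists_near_iso (MulAut.conj g)
    (fun x hx => H17.class_conj hD g x hx) (show MulAut.conj g a = d from hg)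
  exact ⟨himg ▸ H89.M23.class_map ψ hcl, himg ▸ H89.M23.primitive_map ψ hp, himg ▸ H43.M23.m22_map ψ h22⟩

/-- Two different commuting members exist. -/
theorem width_pair : ∃ a ∈ D, ∃ b ∈ D, a ≠ b ∧ Commute a b := by
  obtain ⟨d, -, -, -, -, p, hp, q, hq, hne, hpq⟩ := h23.sub hD hprim
  exact ⟨p, hp.1, q, hq.1, hne, hpq⟩

/-- Every member has 3510 partners. -/
theorem sset_ncard {a : G} (ha : a ∈ D) : (Sset D a).ncard = 3510 := by
  obtain ⟨d, hd, hcl, hpr, h22, -⟩ := h23.sub hD hprim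
  obtain ⟨g, rfl⟩ := H17.class_transitive hD hd ha
  rw [show g * d * g⁻¹ = MulAut.conj g d from rfl,
    ← H89.M23.image_sset (MulAut.conj g) (fun x hx => H17.class_conj hD g x hx) d,
    Set.ncard_image_of_injective _ (MulAut.conj g).injective,
    ncard_image_near (H17.class_group hD) (h23.subs hD hprim d hd) subset_rfl]
  exact (H43.M22.counts hcl hpr h22).1

/-- Two commuting members have 693 further common partners. -/
theorem near_ncard {a b : G} (ha : a ∈ D) (hb : b ∈ Sset D a) :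
    ({x | x ∈ Sset D a ∧ x ≠ b ∧ Commute b x}).ncard = 693 := by
  obtain ⟨d, hd, hcl, hpr, h22, -⟩ := h23.sub hD hprim
  obtain ⟨g, rfl⟩ := H17.class_transitive hD hd ha
  obtain ⟨b, rfl⟩ : ∃ b', g * b' * g⁻¹ = b := ⟨g⁻¹ * b * g, by group⟩
  have hconj := H17.class_conj hD
  rw [sset_conj hconj] at hb
  have e : {x | x ∈ Sset D (g * d * g⁻¹) ∧ x ≠ g * b * g⁻¹ ∧ Commute (g * b * g⁻¹) x} =
      MulAut.conj g '' {x | x ∈ Sset D d ∧ x ≠ b ∧ Commute b x} := by
    ext x
    obtain ⟨x, rfl⟩ : ∃ x', g * x' * g⁻¹ = x := ⟨g⁻¹ * x * g, by group⟩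
    rw [show g * x * g⁻¹ = MulAut.conj g x from rfl, (MulAut.conj g).injective.mem_set_image]
    simp only [Set.mem_setOf_eq, MulAut.conj_apply, sset_conj hconj, H17.commute_conj, ne_eq,
      mul_left_inj, mul_right_inj]
  rw [e, Set.ncard_image_of_injective _ (MulAut.conj g).injective]
  have hG := H17.class_group hD
  have hS := h23.subs hD hprim d hd
  have hH := sub_group hG (Sset D d) (fun y hy => hy.1) (fun s hs t ht => sset_stable hG d hs ht)
  rw [ncard_image_near hG hS fun x hx => hx.1]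
  let b' : ↥(closure (Sset D d)) := ⟨b, subset_closure hb⟩
  rw [show (QuotientGroup.mk : ↥(closure (Sset D d)) → NearQuot D d) ''
      {y | (y : G) ∈ {x | x ∈ Sset D d ∧ x ≠ b ∧ Commute b x}} =
      Sset (nearImage D d) (QuotientGroup.mk b') from ?_]
  · exact H43.M22.sset_ncard hcl hpr h22 ⟨b', hb, rfl⟩
  ext z
  constructor
  · rintro ⟨y, ⟨hy, hne, hc⟩, rfl⟩
    exact ⟨⟨y, hy, rfl⟩, fun e => hne (congrArg Subtype.val (mk_inj hH hy hb (hS.nc hy) e)),
      (mk_commute hH (x := b') hb hy).2 (commute_coe.1 hc)⟩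
  · rintro ⟨⟨y, hy, rfl⟩, hne, hc⟩
    exact ⟨y, ⟨hy, fun e => hne (congrArg QuotientGroup.mk (Subtype.ext e)),
      commute_coe.2 ((mk_commute hH (x := b') hb hy).1 hc)⟩, rfl⟩

/-- Three members, two of them non-commuting partners of the third, have 126 common partners. -/
theorem far_ncard {a u v : G} (ha : a ∈ D) (hu : u ∈ Sset D a) (hv : v ∈ Sset D a)
    (huv : ¬ Commute u v) :
    ({y | y ∈ Sset D a ∧ Commute u y ∧ Commute v y}).ncard = 126 := by
  obtain ⟨d, hd, hcl, hpr, h22, -⟩ := h23.sub hD hprim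
  obtain ⟨g, rfl⟩ := H17.class_transitive hD hd ha
  obtain ⟨u, rfl⟩ : ∃ u', g * u' * g⁻¹ = u := ⟨g⁻¹ * u * g, by group⟩
  obtain ⟨v, rfl⟩ : ∃ v', g * v' * g⁻¹ = v := ⟨g⁻¹ * v * g, by group⟩
  have hconj := H17.class_conj hD
  rw [sset_conj hconj] at hu hv
  rw [H17.commute_conj] at huv
  have e : {y | y ∈ Sset D (g * d * g⁻¹) ∧ Commute (g * u * g⁻¹) y ∧ Commute (g * v * g⁻¹) y} =
      MulAut.conj g '' {y | y ∈ Sset D d ∧ Commute u y ∧ Commute v y} := by
    ext x
    obtain ⟨x, rfl⟩ : ∃ x', g * x' * g⁻¹ = x := ⟨g⁻¹ * x * g, by group⟩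
    rw [show g * x * g⁻¹ = MulAut.conj g x from rfl, (MulAut.conj g).injective.mem_set_image]
    simp only [Set.mem_setOf_eq, MulAut.conj_apply, sset_conj hconj, H17.commute_conj]
  rw [e, Set.ncard_image_of_injective _ (MulAut.conj g).injective]
  have hG := H17.class_group hD
  have hS := h23.subs hD hprim d hd
  have hH := sub_group hG (Sset D d) (fun y hy => hy.1) (fun s hs t ht => sset_stable hG d hs ht)
  rw [ncard_image_near hG hS fun x hx => hx.1]
  let u' : ↥(closure (Sset D d)) := ⟨u, subset_closure hu⟩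
  let v' : ↥(closure (Sset D d)) := ⟨v, subset_closure hv⟩
  rw [show (QuotientGroup.mk : ↥(closure (Sset D d)) → NearQuot D d) ''
      {y | (y : G) ∈ {x | x ∈ Sset D d ∧ Commute u x ∧ Commute v x}} =
      H17.common (nearImage D d) (QuotientGroup.mk u') (QuotientGroup.mk v') from ?_]
  · exact (H43.M22.counts hcl hpr h22).2 _ ⟨u', hu, rfl⟩ _ ⟨v', hv, rfl⟩
      fun h => huv (commute_coe.2 ((mk_commute hH (x := u') (y := v') hu hv).1 h))
  ext z
  constructor
  · rintro ⟨y, ⟨hy, h1, h2⟩, rfl⟩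
    exact ⟨⟨y, hy, rfl⟩, (mk_commute hH (x := u') hu hy).2 (commute_coe.1 h1),
      (mk_commute hH (x := v') hv hy).2 (commute_coe.1 h2)⟩
  · rintro ⟨⟨y, hy, rfl⟩, h1, h2⟩
    exact ⟨y, ⟨hy, commute_coe.2 ((mk_commute hH (x := u') hu hy).1 h1),
      commute_coe.2 ((mk_commute hH (x := v') hv hy).1 h2)⟩, rfl⟩

/-- The number of common partners does not depend on the non-commuting pair. -/
theorem mu_const {a b d c : G} (ha : a ∈ D) (hb : b ∈ D) (hab : ¬ Commute a b) (hd : d ∈ D)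
    (hc : c ∈ D) (hdc : ¬ Commute d c) :
    (H17.common D a b).ncard = (H17.common D d c).ncard := by
  have hconj := H17.class_conj hD
  obtain ⟨g, rfl⟩ := H17.class_transitive hD ha hd
  rw [← H17.common_ncard_conj hconj g a b]
  exact H17.common_ncard_eq hD hprim (width_pair hD hprim h23) hd (hconj g b hb) hc
    (fun h => hab ((H17.commute_conj g).1 h)) hdc

/-- The common partners are fewer than all partners. -/
theorem mu_lt {d c : G} (hd : d ∈ D) (hc : c ∈ D) (hdc : ¬ Commute d c) :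
    (H17.common D d c).ncard < 3510 := by
  have hw := width_pair hD hprim h23
  rw [H43.M22.common_far_eq hdc]
  by_contra hge
  push Not at hge
  have e1 := Set.eq_of_subset_of_ncard_le (Set.inter_subset_left (t := Sset D c))
    (by rw [sset_ncard hD hprim h23 hd]; exact hge) (Set.toFinite _)
  have e2 := Set.eq_of_subset_of_ncard_le (Set.inter_subset_right (s := Sset D d))
    (by rw [sset_ncard hD hprim h23 hc]; exact hge) (Set.toFinite _)
  have hW : H17.Wrel D d c := ⟨hd, hc, fun y hy => by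
    have h1 := Set.ext_iff.1 e1 y
    have h2 := Set.ext_iff.1 e2 y
    simp only [Sset, Set.mem_inter_iff, Set.mem_setOf_eq, hy, true_and] at h1 h2
    tauto⟩
  exact hdc (H17.wrel_eq hD hprim hw hW ▸ Commute.refl d)

/-- A non-commuting pair exists. -/
theorem far_pair : ∃ d ∈ D, ∃ c ∈ D, ¬ Commute d c := by
  obtain ⟨a, ha, b, hb, hne, -⟩ := width_pair hD hprim h23
  exact ⟨a, ha, H17.exists_not_commute hD ⟨a, ha, b, hb, hne⟩ ha⟩

/-- Two commuting partners of a member have 180 further common partners among its partners. -/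
theorem star_near {d x y : G} (hd : d ∈ D) (hx : x ∈ Sset D d) (hy : y ∈ Sset D d)
    (hxy : y ∈ Sset D x) :
    ({e | e ∈ Sset D d ∧ (e ≠ x ∧ Commute e x) ∧ e ≠ y ∧ Commute e y}).ncard = 180 := by
  have hG := H17.class_group hD
  have hS := h23.subs hD hprim d hd
  have hH := sub_group hG (Sset D d) (fun y hy => hy.1) (fun s hs t ht => sset_stable hG d hs ht)
  obtain ⟨h1, h2, h3⟩ := h23.localAll hD hprim hd
  let x' : ↥(closure (Sset D d)) := ⟨x, subset_closure hx⟩
  let y' : ↥(closure (Sset D d)) := ⟨y, subset_closure hy⟩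
  rw [ncard_image_near hG hS fun e he => he.1,
    ← H43.M22.near_ncard h1 h2 h3 (d := QuotientGroup.mk x') (b := QuotientGroup.mk y')
      ⟨x', hx, rfl⟩ ⟨⟨y', hy, rfl⟩, fun e => hxy.2.1 (congrArg Subtype.val
        (mk_inj hH (x := y') (y := x') hy hx (hS.nc (x := y') hy) e)),
        (mk_commute hH (x := x') (y := y') hx hy).2 (commute_coe.1 hxy.2.2)⟩]
  congr 1
  ext z
  constructor
  · rintro ⟨e, ⟨he, ⟨n1, c1⟩, n2, c2⟩, rfl⟩
    exact ⟨⟨⟨e, he, rfl⟩, fun q => n1 (congrArg Subtype.val (mk_inj hH he hx (hS.nc he) q)),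
      (mk_commute hH (x := x') hx he).2 (commute_coe.1 c1.symm)⟩,
      fun q => n2 (congrArg Subtype.val (mk_inj hH he hy (hS.nc he) q)),
      (mk_commute hH (x := y') hy he).2 (commute_coe.1 c2.symm)⟩
  · rintro ⟨⟨⟨e, he, rfl⟩, n1, c1⟩, n2, c2⟩
    exact ⟨e, ⟨he, ⟨fun q => n1 (congrArg QuotientGroup.mk (Subtype.ext q)),
      (commute_coe.2 ((mk_commute hH (x := x') hx he).1 c1)).symm⟩,
      fun q => n2 (congrArg QuotientGroup.mk (Subtype.ext q)),
      (commute_coe.2 ((mk_commute hH (x := y') hy he).1 c2)).symm⟩, rfl⟩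

/-- 715 common partners are impossible: in the graph around one of the pair their variance would be
negative. -/
theorem mu_ne {d c : G} (hd : d ∈ D) (hc : c ∈ D) (hdc : ¬ Commute d c) :
    (H17.common D d c).ncard ≠ 715 := by
  classical
  haveI : Fintype G := Fintype.ofFinite G
  rw [H43.M22.common_far_eq hdc]
  intro h715
  let r : G → G → Prop := fun a b => a ≠ b ∧ Commute a b
  have sym : ∀ x ∈ D, ∀ y ∈ Sset D x, x ∈ Sset D y := fun x hx y hy =>
    ⟨hx, hy.2.1.symm, hy.2.2.symm⟩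
  have h := variance_nonneg (Sset D d).toFinset (Sset D d ∩ Sset D c).toFinset
    (Set.toFinset_subset_toFinset.2 Set.inter_subset_left) r (n := 715) (K := 693) (k := 126)
    (l := 180) (μ := 126) (by rw [← Set.ncard_eq_toFinset_card']; exact h715)
    (fun x hx => by
      rw [← near_ncard hD hprim h23 hd (Set.mem_toFinset.1 hx).1, Set.ncard_eq_toFinset_card']
      congr 1; ext y
      simp only [r, Finset.mem_filter, Set.mem_toFinset, Set.mem_setOf_eq]
      exact ⟨fun h => ⟨h.1, h.2.1, h.2.2.symm⟩, fun h => ⟨h.1, h.2.1, h.2.2.symm⟩⟩)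
    (fun x hx => by
      obtain ⟨hxd, hxc⟩ := Set.mem_toFinset.1 hx
      rw [← far_ncard hD hprim h23 hxd.1 (sym d hd x hxd) (sym c hc x hxc) hdc,
        Set.ncard_eq_toFinset_card']
      congr 1; ext y
      simp only [r, Finset.mem_filter, Set.mem_toFinset, Set.mem_inter_iff, Set.mem_setOf_eq]
      exact ⟨fun h => ⟨⟨h.1.1.1, h.2.1, h.2.2.symm⟩, h.1.1.2.2, h.1.2.2.2⟩,
        fun h => ⟨⟨⟨h.1.1, fun q => hdc (q ▸ h.2.2).symm, h.2.1⟩, h.1.1,
          fun q => hdc (q ▸ h.2.1), h.2.2⟩, h.1.2.1, h.1.2.2.symm⟩⟩)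
    (fun x _ y _ h => ⟨h.1.symm, h.2.symm⟩) (fun x _ h => h.1 rfl)
    (fun x hx y hy hxy => by
      have ha := (Set.mem_toFinset.1 hx).1
      have hb := (Set.mem_toFinset.1 hy).1
      rw [← star_near hD hprim h23 hd ha hb ⟨hb.1, hxy.1.symm, hxy.2⟩,
        Set.ncard_eq_toFinset_card']
      congr 1; ext e
      simp only [r, Finset.mem_filter, Set.mem_toFinset, Set.mem_setOf_eq])
    (fun x hx y hy hne hxy => by
      have hnc : ¬ Commute x y := fun h => hxy ⟨hne, h⟩
      rw [← far_ncard hD hprim h23 hd (Set.mem_toFinset.1 hx).1 (Set.mem_toFinset.1 hy).1 hnc,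
        Set.ncard_eq_toFinset_card']
      congr 1; ext e'
      simp only [r, Finset.mem_filter, Set.mem_toFinset, Set.mem_setOf_eq]
      exact ⟨fun h => ⟨h.1, h.2.1.2.symm, h.2.2.2.symm⟩,
        fun h => ⟨h.1, ⟨fun q => hnc (q ▸ h.2.2).symm, h.2.1.symm⟩,
          fun q => hnc (q ▸ h.2.1), h.2.2.symm⟩⟩)
    145
  rw [← Set.ncard_eq_toFinset_card', sset_ncard hD hprim h23 hd] at h
  exact absurd h (not_le.2 variance_715)

/-- There are 31671 members and 351 common partners. -/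
theorem counts : D.ncard = 31671 ∧
    ∀ d ∈ D, ∀ c ∈ D, ¬ Commute d c → (H17.common D d c).ncard = 351 := by
  classical
  have hw := width_pair hD hprim h23
  obtain ⟨d₀, hd₀, c₀, hc₀, hdc₀⟩ := far_pair hD hprim h23
  set μ := (H17.common D d₀ c₀).ncard with hμ
  have hconst : ∀ d ∈ D, ∀ c ∈ D, ¬ Commute d c → (H17.common D d c).ncard = μ :=
    fun d hd c hc hdc => mu_const hD hprim h23 hd hc hdc hd₀ hc₀ hdc₀
  haveI : Fintype ↥D := Fintype.ofFinite _
  let Γ := Cfsg.commutingGraph D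
  have hadj : ∀ a b : ↥D, Γ.Adj a b ↔ ((b : G) ∈ Sset D (a : G)) := by
    intro a b
    show (Cfsg.commutingGraph D).Adj a b ↔ _
    rw [Cfsg.commutingGraph, SimpleGraph.fromRel_adj]
    constructor
    · rintro ⟨hne, h⟩
      exact ⟨b.2, fun e => hne (Subtype.ext e.symm), h.elim id Commute.symm⟩
    · rintro ⟨-, hne, h⟩
      exact ⟨fun e => hne (by rw [e]), Or.inl h⟩
  have hcount : ∀ S : Set ↥D, ∀ X : Set G, X ⊆ D → (∀ b : ↥D, b ∈ S ↔ (b : G) ∈ X) →
      Nat.card S = X.ncard := by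
    intro S X hX h
    rw [Nat.card_coe_set_eq, ← Set.ncard_image_of_injective _ Subtype.val_injective]
    congr 1
    ext x
    exact ⟨fun ⟨b, hb, e⟩ => e ▸ (h b).1 hb, fun hx => ⟨⟨x, hX hx⟩, (h _).2 hx, rfl⟩⟩
  have hsrg : Γ.IsSRGWith D.ncard 3510 693 μ := by
    refine ⟨by rw [← Nat.card_eq_fintype_card, Nat.card_coe_set_eq], fun v => ?_, fun v u h => ?_,
      fun v u hne h => ?_⟩
    · rw [← SimpleGraph.card_neighborSet_eq_degree, ← Nat.card_eq_fintype_card,
        hcount (Γ.neighborSet v) (Sset D (v : G)) (fun x hx => hx.1) fun b => hadj v b]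
      exact sset_ncard hD hprim h23 v.2
    · rw [← Nat.card_eq_fintype_card, hcount _
        {x | x ∈ Sset D (v : G) ∧ x ≠ (u : G) ∧ Commute (u : G) x} (fun x hx => hx.1.1) fun b => ?_]
      · exact near_ncard hD hprim h23 v.2 ((hadj v u).1 h)
      · rw [SimpleGraph.mem_commonNeighbors, hadj, hadj]
        exact ⟨fun h => ⟨h.1, h.2.2.1, h.2.2.2⟩, fun h => ⟨h.1, b.2, h.2.1, h.2.2⟩⟩
    · have hnc : ¬ Commute (v : G) (u : G) := fun hc =>
        h ((hadj v u).2 ⟨u.2, fun e => hne (Subtype.ext e.symm), hc⟩)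
      rw [← Nat.card_eq_fintype_card, hcount _ (Sset D (v : G) ∩ Sset D (u : G))
        (fun x hx => hx.1.1) fun b => ?_, ← H43.M22.common_far_eq hnc]
      · exact hconst v v.2 u u.2 hnc
      · rw [SimpleGraph.mem_commonNeighbors, hadj, hadj]; rfl
  have hn : 0 < D.ncard := (Set.ncard_pos (Set.toFinite _)).2 ⟨d₀, hd₀⟩
  have hp := hsrg.param_eq _ hn
  have hμlt : μ < 3510 := mu_lt hD hprim h23 hd₀ hc₀ hdc₀
  have hμ0 : μ ≠ 0 := fun h => by rw [h, mul_zero] at hp; norm_num at hp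
  have hn3511 : 3511 ≤ D.ncard := by
    by_contra hlt
    rw [show D.ncard - 3510 - 1 = 0 by omega, zero_mul] at hp
    norm_num at hp
  have hprod : (D.ncard - 3511) * μ = 9884160 := by
    rw [show D.ncard - 3510 - 1 = D.ncard - 3511 by omega] at hp
    rw [← hp]
  have hdiv : 9884160 % μ = 0 := Nat.mod_eq_zero_of_dvd ⟨D.ncard - 3511, by rw [mul_comm, hprod]⟩ |>.symm.symm
  have hquot : 9884160 / μ = D.ncard - 3511 :=
    Nat.div_eq_of_eq_mul_left (Nat.pos_of_ne_zero hμ0) hprod.symm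
  obtain ⟨j, hj⟩ := H9.srg_integrality Γ hsrg hn (by
    have : (μ : ℤ) < 3510 := by exact_mod_cast hμlt
    push_cast
    nlinarith [sq_nonneg ((693 : ℤ) - μ)])
  have hchk := param_check hμlt hdiv
  rcases hchk (by
    rw [hquot, show ((3511 : ℤ) + ((D.ncard - 3511 : ℕ) : ℤ)) = (D.ncard : ℤ) by omega]
    push_cast at hj
    have e := congrArg Int.natAbs hj
    rw [Int.natAbs_pow, Int.natAbs_mul _ (j ^ 2), Int.natAbs_pow, pow_two, pow_two j.natAbs] at e
    rw [show (2 : ℤ) * 3510 = 7020 by norm_num]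
    dsimp only
    rw [e]
    set A := (((693 : ℤ) - (μ : ℤ)) ^ 2 + 4 * (3510 - (μ : ℤ))).natAbs with hA
    rw [show A * (A * (j.natAbs * j.natAbs)) = (A * j.natAbs) * (A * j.natAbs) by ring,
      Nat.sqrt_eq]) with h | h | h
  · refine ⟨?_, fun d hd c hc hdc => (hconst d hd c hc hdc).trans h⟩
    replace h : μ = 351 := h
    rw [h] at hprod
    omega
  · exact absurd h (mu_ne hD hprim h23 hd₀ hc₀ hdc₀)
  · exact absurd h hμ0

end Cfsg.Agent.H87.Fi23A
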