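import Cfsg.Agent.H87.Fi23A.Class
import Cfsg.Agent.H87.Fi23A.Fusion
import Cfsg.Agent.H87.Fi23A.Near23

/-!
An involution whose centralizer is a perfect double cover of a group of type M(22) and is not weakly
closed there, whose conjugates form a set of 3-transpositions: the conjugates form a primitive
generating class with trivial centre and a quotient of type M(22) around every member.
-/

set_option autoImplicit false
set_option linter.unusedSectionVars false

namespace Cfsg.Agent.H87.Fi23A

open Cfsg.Agent.H43.FischerTwins Cfsg.Agent.H53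

variable {G : Type*} [Group G] [Finite G] {Q : Type*} [Group Q] [Finite Q] {E : Set Q}

/-- The class, its primitivity and the quotient around the member. -/
theorem near23_of_cover {d : G} {C : Subgroup G} (hCd : C = Subgroup.centralizer ({d} : Set G))
    {π : ↥C →* Q} {z : ↥C} (hz : (z : G) = d) (hcov : Cover π z E)
    (hnwc : ∃ g : G, g * d * g⁻¹ ∈ C ∧ g * d * g⁻¹ ≠ d)
    (hset : Cfsg.IsThreeTranspositionSet (conjugatesOf d)) :
    Cfsg.IsThreeTranspositionClass (conjugatesOf d) ∧
      Cfsg.IsPrimitiveUnderConj (conjugatesOf d) ∧ Near23 (conjugatesOf d) := by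
  classical
  obtain ⟨⟨a, haE, -, hiff⟩, -⟩ := fusion hCd hz hcov hnwc
  have mC : ∀ {u : G}, u ∈ C ↔ Commute u d := fun {u} => by
    rw [hCd, Subgroup.mem_centralizer_singleton_iff]; rfl
  have hzn : z ∉ conjugatesOf a := fun h => H17.ne_one_of_orderOf
    (hcov.cls.1.1 _ (hcov.mem_D haE h)) hcov.piz
  have hS : Sset (conjugatesOf d) d = Subtype.val '' conjugatesOf a := by
    ext y
    constructor
    · rintro ⟨hy, hne, hc⟩
      rcases (hiff ⟨y, mC.2 hc.symm⟩).1 hy with e | e
      · exact absurd ((congrArg Subtype.val e).trans hz) hne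
      · exact ⟨_, e, rfl⟩
    · rintro ⟨p, hp, rfl⟩
      refine ⟨(hiff p).2 (Or.inr hp), fun e => hzn ?_, (mC.1 p.2).symm⟩
      rwa [show z = p from Subtype.ext (hz.trans e.symm)]
  have hcl : Subgroup.closure (Sset (conjugatesOf d) d) = C := by
    rw [hS, ← Subgroup.coe_subtype, ← MonoidHom.map_closure, (hcov.cls_lift haE).2.2,
      ← MonoidHom.range_eq_map, Subgroup.range_subtype]
  obtain ⟨h1, h2, h3⟩ := class_of_star hset (hcl.trans hCd) (hCd ▸ hcov.perfect)
    (fun u hud hu => by
      have hcen : π ⟨u, mC.2 hud⟩ ∈ Subgroup.center Q := Subgroup.mem_center_iff.2 fun q => by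
        obtain ⟨v, rfl⟩ := hcov.surj q
        rw [← map_mul, ← map_mul]
        exact congrArg π (Subtype.ext (hu v (mC.1 v.2)).eq.symm)
      rw [hcov.h22.1, Subgroup.mem_bot, hcov.ker] at hcen
      exact hcen.imp (fun e => congrArg Subtype.val e)
        fun e => (congrArg Subtype.val e).trans hz)
    (fun x hx y hy => by
      rw [hS] at hx hy
      obtain ⟨p, hp, rfl⟩ := hx
      obtain ⟨q, hq, rfl⟩ := hy
      obtain ⟨g, rfl⟩ := isConj_iff.1 ((show IsConj a p from hp).symm.trans hq)
      exact ⟨g, mC.1 g.2, by simp⟩)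
    (by
      obtain ⟨-, u, hu, v, hv, huv, -⟩ := hcov.h22
      obtain ⟨p, hp, rfl⟩ := hcov.onto haE hu
      obtain ⟨q, hq, rfl⟩ := hcov.onto haE hv
      exact ⟨_, hS ▸ ⟨p, hp, rfl⟩, _, hS ▸ ⟨q, hq, rfl⟩,
        fun h => huv ((commute_coe.1 h).map π)⟩)
  refine ⟨h1, h2, h3, d, mem_conjugatesOf_self, ?_⟩
  obtain ⟨D, hD⟩ : ∃ D, D = conjugatesOf d := ⟨_, rfl⟩
  rw [← hD] at hS hcl ⊢
  let f : ↥(Subgroup.closure (Sset D d)) →* Q :=
    π.comp (MulEquiv.subgroupCongr hcl).toMonoidHom
  have hf : Function.Surjective f := hcov.surj.comp (MulEquiv.subgroupCongr hcl).surjective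
  have hker : f.ker = Subgroup.center ↥(Subgroup.closure (Sset D d)) := by
    ext u
    rw [MonoidHom.mem_ker]
    constructor
    · intro hu
      refine Subgroup.mem_center_iff.2 fun v => (MulEquiv.subgroupCongr hcl).injective ?_
      rw [map_mul, map_mul]
      rcases (hcov.ker _).1 hu with e | e
      · rw [show MulEquiv.subgroupCongr hcl u = 1 from e, mul_one, one_mul]
      · rw [show MulEquiv.subgroupCongr hcl u = z from e]
        exact (hcov.zc _).eq.symm
    · intro hu
      have : f u ∈ Subgroup.center Q := Subgroup.mem_center_iff.2 fun q => by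
        obtain ⟨v, rfl⟩ := hf q
        rw [← map_mul, ← map_mul, Subgroup.mem_center_iff.1 hu v]
      rwa [hcov.h22.1, Subgroup.mem_bot] at this
  obtain ⟨θ, hθ⟩ : ∃ θ : NearQuot D d ≃* Q, ∀ u, θ (QuotientGroup.mk u) = f u :=
    ⟨(QuotientGroup.quotientMulEquivOfEq hker.symm).trans
      (QuotientGroup.quotientKerEquivOfSurjective f hf), fun u => rfl⟩
  have himg : θ.symm '' E = nearImage D d := by
    ext x
    constructor
    · rintro ⟨e, he, rfl⟩
      obtain ⟨p, hp, rfl⟩ := hcov.onto haE he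
      have hps : (p : G) ∈ Sset D d := hS ▸ ⟨p, hp, rfl⟩
      refine ⟨⟨p, Subgroup.subset_closure hps⟩, hps, θ.injective ?_⟩
      rw [hθ, MulEquiv.apply_symm_apply]
      rfl
    · rintro ⟨u, hu, rfl⟩
      refine ⟨f u, ?_, by rw [← hθ, MulEquiv.symm_apply_apply]⟩
      have hu' : (u : G) ∈ Sset D d := hu
      obtain ⟨p, hp, e⟩ := Set.ext_iff.1 hS (u : G) |>.1 hu'
      have : (MulEquiv.subgroupCongr hcl) u = p := Subtype.ext e.symm
      show π ((MulEquiv.subgroupCongr hcl) u) ∈ E
      rw [this]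
      exact hcov.mem_D haE hp
  exact himg ▸ H43.M23.m22_map θ.symm hcov.h22

end Cfsg.Agent.H87.Fi23A
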