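import Cfsg.Agent.H87.Fi23A.Span
import Cfsg.Agent.H98.M22Lift
import Cfsg.Agent.H53.SylowThompson
import Cfsg.Agent.H43.M22Main
import Cfsg.Agent.H97.M22.Basic

/-!
Perfect double covers of a group of type M(22): the two classes over the members, and the
elementary abelian subgroup of order `2 ^ 11` of a Sylow 2-subgroup.
-/

set_option autoImplicit false
set_option linter.unusedSectionVars false
set_option linter.style.haveILetI false

namespace Cfsg.Agent.H87.Fi23A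

open Cfsg Cfsg.Agent.H17.UPoints Cfsg.Agent.H43.FischerTwins Cfsg.Agent.H89.M22

variable {H : Type*} [Group H] [Finite H] {Q : Type*} [Group Q] [Finite Q] {π : H →* Q} {z : H}
  {D : Set Q}

/-- A perfect double cover of a group of type M(22). -/
structure Cover (π : H →* Q) (z : H) (D : Set Q) : Prop where
  surj : Function.Surjective π
  ker : ∀ h, π h = 1 ↔ h = 1 ∨ h = z
  zc : ∀ h, Commute z h
  zz : z * z = 1
  z1 : z ≠ 1
  perfect : commutator H = ⊤
  cls : Cfsg.IsThreeTranspositionClass D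
  prim : Cfsg.IsPrimitiveUnderConj D
  h22 : Cfsg.IsOfTypeM22 Q D

namespace Cover

variable (hC : Cover π z D)
include hC

lemma exists_ctx' : ∃ (F : Type) (_ : Field F) (_ : Fintype F), Ctx D F :=
  exists_ctx (H17.class_group hC.cls) hC.prim hC.h22

lemma piz : π z = 1 := (hC.ker z).2 (Or.inr rfl)

lemma pi_zmul (h : H) : π (z * h) = π h := by rw [map_mul, hC.piz, one_mul]

lemma cancel (h : H) : z * (z * h) = h := by rw [← mul_assoc, hC.zz, one_mul]

lemma eq_or {p q : H} (h : π p = π q) : q = p ∨ q = z * p := by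
  rcases (hC.ker (q * p⁻¹)).1 (by rw [map_mul, map_inv, h, mul_inv_cancel]) with e | e
  · exact Or.inl (mul_inv_eq_one.1 e)
  · exact Or.inr (mul_inv_eq_iff_eq_mul.1 e)

lemma sq {y : H} (h : π y * π y = 1) : y * y = 1 := by
  classical
  obtain ⟨F, _, _, hCtx⟩ := hC.exists_ctx'
  exact H98.M22L.lift_sq_one hCtx.card hCtx hC.h22 hC.ker hC.zc hC.zz hC.surj
    (by rw [map_mul]; exact h)

lemma comm {p q : H} (hp : π p * π p = 1) (hq : π q * π q = 1) (h : Commute (π p) (π q)) :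
    Commute p q := by
  have h3 : p * q * (p * q) = 1 := hC.sq (by
    rw [map_mul, h.symm.mul_mul_mul_comm, hp, hq, one_mul])
  have e := eq_inv_of_mul_eq_one_left h3
  rw [mul_inv_rev, inv_eq_of_mul_eq_one_right (hC.sq hp),
    inv_eq_of_mul_eq_one_right (hC.sq hq)] at e
  exact e

lemma D_sq {x : Q} (hx : x ∈ D) : x * x = 1 := H17.sq_one hC.cls.1 hx

lemma comm_D {p q : H} (hp : π p ∈ D) (hq : π q ∈ D) (h : Commute (π p) (π q)) : Commute p q :=
  hC.comm (hC.D_sq hp) (hC.D_sq hq) h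

/-- The two elements over a member are not conjugate. -/
lemma not_conj {a : H} (ha : π a ∈ D) : ¬ IsConj a (z * a) := by
  intro hc
  obtain ⟨h, hh⟩ := isConj_iff.1 hc
  obtain ⟨U, hU⟩ : ∃ U : Subgroup H,
      U = Subgroup.closure {p : H | π p ∈ Sset D (π a)} := ⟨_, rfl⟩
  have hUm : U.map π = Subgroup.closure (Sset D (π a)) := by
    rw [hU, MonoidHom.map_closure]
    congr 1
    ext x
    refine ⟨?_, fun hx => ?_⟩
    · rintro ⟨p, hp, rfl⟩
      exact hp
    · obtain ⟨p, rfl⟩ := hC.surj x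
      exact ⟨p, hx, rfl⟩
  have hUc : U ≤ Subgroup.centralizer {a} := by
    rw [hU, Subgroup.closure_le]
    exact fun p hp => Subgroup.mem_centralizer_singleton_iff.2
      (hC.comm_D hp.1 ha hp.2.2.symm).eq
  have hm : π h ∈ Subgroup.centralizer ({π a} : Set Q) :=
    Subgroup.mem_centralizer_singleton_iff.2 (mul_inv_eq_iff_eq_mul.1 (by
      rw [← map_mul, ← map_inv, ← map_mul, hh, hC.pi_zmul]))
  rw [H43.M22.centralizer_partners hC.cls hC.prim hC.h22 ha, ← hUm] at hm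
  obtain ⟨u, hu, hue⟩ := hm
  have hua : u * a = a * u := Subgroup.mem_centralizer_singleton_iff.1 (hUc hu)
  have hha : h * a = a * h := by
    rcases hC.eq_or hue with rfl | rfl
    · exact hua
    · rw [mul_assoc, hua, ← mul_assoc, (hC.zc a).eq, mul_assoc]
  refine hC.z1 (mul_right_cancel (b := a) ?_)
  rw [← hh, hha, mul_inv_cancel_right, one_mul]

lemma mem_D {a p : H} (ha : π a ∈ D) (hp : p ∈ conjugatesOf a) : π p ∈ D := by
  obtain ⟨g, rfl⟩ := isConj_iff.1 (show IsConj a p from hp)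
  rw [map_mul, map_mul, map_inv]
  exact H17.class_conj hC.cls _ _ ha

lemma inj {a p q : H} (ha : π a ∈ D) (hp : p ∈ conjugatesOf a) (hq : q ∈ conjugatesOf a)
    (h : π p = π q) : p = q := by
  rcases hC.eq_or h with e | e
  · exact e.symm
  · exact absurd ((show IsConj a p from hp).symm.trans (e ▸ (show IsConj a q from hq)))
      (hC.not_conj (hC.mem_D ha hp))

lemma onto {a : H} (ha : π a ∈ D) {x : Q} (hx : x ∈ D) : ∃ p ∈ conjugatesOf a, π p = x := by
  obtain ⟨g, rfl⟩ := H17.class_transitive hC.cls ha hx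
  obtain ⟨g', rfl⟩ := hC.surj g
  exact ⟨g' * a * g'⁻¹, isConj_iff.2 ⟨g', rfl⟩, by rw [map_mul, map_mul, map_inv]⟩

lemma conj_mem {a p : H} (hp : p ∈ conjugatesOf a) (g : H) :
    g * p * g⁻¹ ∈ conjugatesOf a :=
  (show IsConj a p from hp).trans (isConj_iff.2 ⟨g, rfl⟩)

lemma pi_zconj {a : H} (ha : π a ∈ D) : π (z * a) ∈ D := by rwa [hC.pi_zmul]

/-- The lifts in one class form a class of 3-transpositions. -/
lemma cls_lift {a : H} (ha : π a ∈ D) : Cfsg.IsThreeTranspositionClass (conjugatesOf a) := by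
  have hord : ∀ p ∈ conjugatesOf a, orderOf p = 2 := fun p hp => by
    refine orderOf_eq_prime (by rw [pow_two]; exact hC.sq (hC.D_sq (hC.mem_D ha hp))) fun e => ?_
    exact H17.ne_one_of_orderOf (hC.cls.1.1 _ (hC.mem_D ha hp)) (by rw [e, map_one])
  refine ⟨⟨hord, fun p hp q hq => ?_⟩, ⟨a, mem_conjugatesOf_self, rfl⟩, ?_⟩
  · have hp2 := hC.sq (hC.D_sq (hC.mem_D ha hp))
    have hq2 := hC.sq (hC.D_sq (hC.mem_D ha hq))
    by_cases hc : Commute (π p) (π q)
    · refine Or.inl ?_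
      rw [pow_two, (hC.comm_D (hC.mem_D ha hp) (hC.mem_D ha hq) hc).symm.mul_mul_mul_comm, hp2,
        hq2, one_mul]
    · refine Or.inr ?_
      have hb := H17.braid hC.cls.1 (hC.mem_D ha hp) (hC.mem_D ha hq) hc
      have e : p * q * p = q * p * q := by
        refine hC.inj ha ?_ ?_ (by simp only [map_mul]; exact hb)
        · have := hC.conj_mem hq p
          rwa [inv_eq_of_mul_eq_one_right hp2] at this
        · have := hC.conj_mem hp q
          rwa [inv_eq_of_mul_eq_one_right hq2] at this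
      calc (p * q) ^ 3 = p * q * p * (q * p * q) := by simp [pow_succ, mul_assoc]
        _ = q * p * q * (q * p * q) := by rw [e]
        _ = q * p * (q * q) * p * q := by simp [mul_assoc]
        _ = 1 := by rw [hq2, mul_one, mul_assoc q p p, hp2, mul_one, hq2]
  · obtain ⟨K, hK⟩ : ∃ K, K = Subgroup.closure (conjugatesOf a) := ⟨_, rfl⟩
    rw [← hK]
    have hπ : K.map π = ⊤ := by
      rw [hK, MonoidHom.map_closure, eq_top_iff, ← hC.cls.2.2]
      exact Subgroup.closure_mono fun x hx =>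
        (hC.onto ha hx).imp fun p hp => ⟨hp.1, hp.2⟩
    have hdec : ∀ h, ∃ k ∈ K, ∃ c, (∀ u, Commute c u) ∧ h = c * k := fun h => by
      obtain ⟨k, hk, e⟩ := (hπ ▸ Subgroup.mem_top (π h) : π h ∈ K.map π)
      rcases hC.eq_or e with rfl | rfl
      · exact ⟨h, hk, 1, Commute.one_left, (one_mul h).symm⟩
      · exact ⟨k, hk, z, hC.zc, rfl⟩
    refine eq_top_iff.2 (hC.perfect ▸ ?_)
    rw [commutator_def, Subgroup.commutator_le]
    intro u _ v _
    obtain ⟨k, hk, c, hc, rfl⟩ := hdec u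
    obtain ⟨l, hl, c', hc', rfl⟩ := hdec v
    have e : c * k * (c' * l) * (c * k)⁻¹ * (c' * l)⁻¹ = k * l * k⁻¹ * l⁻¹ := by
      simp only [mul_inv_rev]
      calc c * k * (c' * l) * (k⁻¹ * c⁻¹) * (l⁻¹ * c'⁻¹)
          = c * (k * c') * l * k⁻¹ * (c⁻¹ * l⁻¹) * c'⁻¹ := by group
        _ = c * (c' * k) * l * k⁻¹ * (l⁻¹ * c⁻¹) * c'⁻¹ := by
          rw [(hc' k).eq, (hc l).inv_inv.eq]
        _ = (c * c') * (k * l * k⁻¹ * l⁻¹) * (c' * c)⁻¹ := by group
        _ = k * l * k⁻¹ * l⁻¹ := by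
          rw [(hc c').eq, ((hc' _).mul_left (hc _)).eq, mul_inv_cancel_right]
    rw [commutatorElement_def, e]
    exact mul_mem (mul_mem (mul_mem hk hl) (inv_mem hk)) (inv_mem hl)

lemma pair_eq' {p q b c : Q} (hp : p ∈ D) (hq : q ∈ D) (hb : b ∈ D) (hc : c ∈ D)
    (hpq : Commute p q) (hne : p ≠ q) (hbc : Commute b c) (h : p * q = b * c) :
    (p = b ∧ q = c) ∨ (p = c ∧ q = b) := by
  obtain ⟨F, _, _, hCtx⟩ := hC.exists_ctx'
  exact pair_eq hCtx hp hq hb hc hpq hne hbc h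

/-- Triples of commuting lifts in one class are conjugate. -/
lemma triple_conj {a : H} (ha : π a ∈ D) {p q r p' q' r' : H} (hp : p ∈ conjugatesOf a)
    (hq : q ∈ conjugatesOf a) (hr : r ∈ conjugatesOf a) (hp' : p' ∈ conjugatesOf a)
    (hq' : q' ∈ conjugatesOf a) (hr' : r' ∈ conjugatesOf a)
    (c1 : Commute (π p) (π q)) (c2 : Commute (π p) (π r)) (c3 : Commute (π q) (π r))
    (n1 : π p ≠ π q) (n2 : π p ≠ π r) (n3 : π q ≠ π r)
    (c1' : Commute (π p') (π q')) (c2' : Commute (π p') (π r')) (c3' : Commute (π q') (π r'))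
    (n1' : π p' ≠ π q') (n2' : π p' ≠ π r') (n3' : π q' ≠ π r') :
    ∃ g, g * p * g⁻¹ = p' ∧ g * q * g⁻¹ = q' ∧ g * r * g⁻¹ = r' := by
  obtain ⟨F, _, _, _, hF, hd⟩ := H97.M22.exists_data (H17.class_group hC.cls) hC.prim hC.h22
    (H43.M22.two_triples hC.cls hC.prim hC.h22)
  obtain ⟨g, g1, g2, g3⟩ := hd.exists_conj_triple (hC.mem_D ha hp)
    ⟨hC.mem_D ha hq, n1.symm, c1⟩ ⟨hC.mem_D ha hr, n2.symm, c2⟩ n3 c3 (hC.mem_D ha hp')
    ⟨hC.mem_D ha hq', n1'.symm, c1'⟩ ⟨hC.mem_D ha hr', n2'.symm, c2'⟩ n3' c3'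
  obtain ⟨g', rfl⟩ := hC.surj g
  have key : ∀ {s t : H}, s ∈ conjugatesOf a → t ∈ conjugatesOf a →
      π g' * π s * (π g')⁻¹ = π t → g' * s * g'⁻¹ = t := fun {s t} hs ht h =>
    hC.inj ha (hC.conj_mem hs g') ht (by rw [map_mul, map_mul, map_inv, h])
  exact ⟨g', key hp hp' g1, key hq hq' g2, key hr hr' g3⟩

/-- Pairs of commuting lifts in one class are conjugate. -/
lemma pair_conj {a : H} (ha : π a ∈ D) {p q p' q' : H} (hp : p ∈ conjugatesOf a)
    (hq : q ∈ conjugatesOf a) (hp' : p' ∈ conjugatesOf a) (hq' : q' ∈ conjugatesOf a)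
    (c1 : Commute (π p) (π q)) (n1 : π p ≠ π q)
    (c1' : Commute (π p') (π q')) (n1' : π p' ≠ π q') :
    ∃ g, g * p * g⁻¹ = p' ∧ g * q * g⁻¹ = q' := by
  obtain ⟨F, _, _, _, hF, hd⟩ := H97.M22.exists_data (H17.class_group hC.cls) hC.prim hC.h22
    (H43.M22.two_triples hC.cls hC.prim hC.h22)
  obtain ⟨b, hb, nb, cb⟩ := hd.exists_third (hC.mem_D ha hp) ⟨hC.mem_D ha hq, n1.symm, c1⟩
  obtain ⟨b', hb', nb', cb'⟩ := hd.exists_third (hC.mem_D ha hp') ⟨hC.mem_D ha hq', n1'.symm, c1'⟩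
  obtain ⟨r, hr, rfl⟩ := hC.onto ha hb.1
  obtain ⟨r', hr', rfl⟩ := hC.onto ha hb'.1
  obtain ⟨g, h1, h2, -⟩ := hC.triple_conj ha hp hq hr hp' hq' hr' c1 hb.2.2 cb n1 hb.2.1.symm nb
    c1' hb'.2.2 cb' n1' hb'.2.1.symm nb'
  exact ⟨g, h1, h2⟩

end Cover

/-- Transporting a base. -/
theorem Base.map {B : Set Q} (h : Base D B) (e : Q ≃* Q) (he : ∀ x ∈ D, e x ∈ D) :
    Base D (e '' B) := by
  have hcl : Subgroup.closure (e '' B) = (Subgroup.closure B).map e.toMonoidHom := by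
    rw [MonoidHom.map_closure]; rfl
  refine ⟨?_, ?_, ?_, ?_, ?_, ?_, ?_⟩
  · rintro _ ⟨x, hx, rfl⟩; exact he x (h.sub hx)
  · rintro _ ⟨x, hx, rfl⟩ _ ⟨y, hy, rfl⟩; exact (h.comm x hx y hy).map e
  · rw [Set.ncard_image_of_injective _ e.injective, h.ncard]
  · rw [hcl, Subgroup.card_map_of_injective e.injective, h.card]
  · intro x hx
    rw [hcl] at hx
    obtain ⟨y, hy, rfl⟩ := hx
    rcases h.cover y hy with rfl | hy | ⟨p, hp, q, hq, hne, rfl⟩ |
      ⟨p, hp, q, hq, r, hr, n1, n2, n3, rfl⟩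
    · exact Or.inl (map_one _)
    · exact Or.inr (Or.inl ⟨y, hy, rfl⟩)
    · exact Or.inr (Or.inr (Or.inl ⟨_, ⟨p, hp, rfl⟩, _, ⟨q, hq, rfl⟩, e.injective.ne hne,
        map_mul e p q⟩))
    · exact Or.inr (Or.inr (Or.inr ⟨_, ⟨p, hp, rfl⟩, _, ⟨q, hq, rfl⟩, _, ⟨r, hr, rfl⟩,
        e.injective.ne n1, e.injective.ne n2, e.injective.ne n3, by
          show e (p * q * r) = _
          rw [map_mul, map_mul]⟩))
  · rintro _ ⟨p, hp, rfl⟩ _ ⟨q, hq, rfl⟩ hne
    have := h.pair_out p hp q hq fun h' => hne (congrArg e h')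
    rw [← map_mul, e.injective.mem_set_image, Ne, EmbeddingLike.map_eq_one_iff]
    exact this
  · rintro _ ⟨p, hp, rfl⟩ _ ⟨q, hq, rfl⟩ _ ⟨r, hr, rfl⟩ n1 n2 n3
    obtain ⟨h1, h2, h3⟩ := h.triple_out p hp q hq r hr (fun h' => n1 (congrArg e h'))
      (fun h' => n2 (congrArg e h')) (fun h' => n3 (congrArg e h'))
    rw [← map_mul, ← map_mul, e.injective.mem_set_image, Ne, EmbeddingLike.map_eq_one_iff]
    refine ⟨h1, h2, ?_⟩
    rintro _ ⟨u, hu, rfl⟩ _ ⟨v, hv, rfl⟩ huv he'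
    rw [← map_mul] at he'
    exact h3 u hu v hv (fun h' => huv (congrArg e h')) (e.injective he')

/-- The members in a Sylow 2-subgroup form a base. -/
theorem base_sylow (hD : Cfsg.IsThreeTranspositionClass D) (hprim : Cfsg.IsPrimitiveUnderConj D)
    (h22 : Cfsg.IsOfTypeM22 Q D) (T : Sylow 2 Q) :
    Base D {x : Q | x ∈ D ∧ x ∈ (T : Subgroup Q)} := by
  classical
  obtain ⟨F, _, _, hCtx⟩ := exists_ctx (H17.class_group hD) hprim h22
  obtain ⟨P⟩ := exists_plane hCtx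
  have hb := P.base hCtx
  haveI : Fact (Nat.Prime 2) := ⟨Nat.prime_two⟩
  have h2 := (H53.closure_elementary (fun x hx => H17.sq_one hD.1 (hb.sub hx)) hb.comm).1
  obtain ⟨S, hS⟩ := (H53.isPGroup_of_sq h2).exists_le_sylow
  obtain ⟨g, hg⟩ := MulAction.exists_smul_eq Q S T
  have hsub : MulAut.conj g '' Set.range P.b ⊆ {x : Q | x ∈ D ∧ x ∈ (T : Subgroup Q)} := by
    rintro _ ⟨x, hx, rfl⟩
    refine ⟨H17.class_conj hD g x (hb.sub hx), ?_⟩
    rw [← hg, Sylow.coe_subgroup_smul]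
    exact ⟨x, hS (Subgroup.subset_closure hx), rfl⟩
  have hmap := hb.map (MulAut.conj g) fun x hx => H17.class_conj hD g x hx
  have heq := Set.eq_of_subset_of_ncard_le hsub
    (by rw [(H53.sylow_members hD hprim h22 T).2, hmap.ncard]) (Set.toFinite _)
  exact heq ▸ hmap

/-- An elementary abelian subgroup over the members of a Sylow 2-subgroup of the quotient. -/
structure Block (π : H →* Q) (D : Set Q) (B : Set Q) (A : Subgroup H) : Prop where
  base : Base D B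
  eq : A = (Subgroup.closure B).comap π
  conj : ∀ E : Set Q, (∀ x ∈ E, x ∈ D) → (∀ x ∈ E, ∀ y ∈ E, Commute x y) →
    ∃ g : Q, ∀ x ∈ E, g * x * g⁻¹ ∈ B

namespace Cover

variable (hC : Cover π z D)
include hC

lemma card_comap' (P : Subgroup Q) : Nat.card ↥(P.comap π) = 2 * Nat.card ↥P := by
  rw [H97.M22.card_comap hC.surj]
  congr 1
  have e : (π.ker : Set H) = {1, z} := by
    ext h
    simp [hC.ker]
  rw [show Nat.card ↥π.ker = Nat.card ↥(π.ker : Set H) from rfl, Nat.card_coe_set_eq, e,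
    Set.ncard_pair (Ne.symm hC.z1)]

lemma Block_card {B : Set Q} {A : Subgroup H} (h : Block π D B A) : Nat.card ↥A = 2 ^ 11 := by
  rw [h.eq, hC.card_comap', h.base.card]; norm_num

lemma Block_elem {B : Set Q} {A : Subgroup H} (h : Block π D B A) :
    (∀ x ∈ A, x * x = 1) ∧ ∀ x ∈ A, ∀ y ∈ A, Commute x y := by
  obtain ⟨h2, hc⟩ := H53.closure_elementary (fun x hx => hC.D_sq (h.base.sub hx)) h.base.comm
  rw [h.eq]
  exact ⟨fun x hx => hC.sq (h2 _ hx),
    fun x hx y hy => hC.comm (h2 _ hx) (h2 _ hy) (hc _ hx _ hy)⟩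

/-- A Sylow 2-subgroup contains one of them, which is its largest elementary abelian subgroup. -/
lemma sylow_block (S : Sylow 2 H) : ∃ (B : Set Q) (A : Subgroup H), Block π D B A ∧
    A ≤ (S : Subgroup H) ∧
    (∀ A' : Subgroup H, A' ≤ (S : Subgroup H) → (∀ x ∈ A', x * x = 1) →
      (∀ x ∈ A', ∀ y ∈ A', Commute x y) → 2 ^ 11 ≤ Nat.card ↥A' → A' = A) ∧
    Cfsg.thompsonSubgroupOf 2 (S : Subgroup H) = A := by
  haveI : Fact (Nat.Prime 2) := ⟨Nat.prime_two⟩
  let T : Sylow 2 Q := S.mapSurjective hC.surj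
  have hT : (T : Subgroup Q) = (S : Subgroup H).map π := rfl
  have hb := base_sylow hC.cls hC.prim hC.h22 T
  obtain ⟨B, hB⟩ : ∃ B, B = {x : Q | x ∈ D ∧ x ∈ (T : Subgroup Q)} := ⟨_, rfl⟩
  rw [← hB] at hb
  obtain ⟨A, hA⟩ : ∃ A, A = (Subgroup.closure B).comap π := ⟨_, rfl⟩
  have hblock : Block π D B A := ⟨hb, hA, fun E hE hEc => by
    obtain ⟨P, hP⟩ := (H53.isPGroup_of_sq (H53.closure_elementary
      (fun x hx => hC.D_sq (hE x hx)) hEc).1).exists_le_sylow
    obtain ⟨g, hg⟩ := MulAction.exists_smul_eq Q P T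
    refine ⟨g, fun x hx => hB ▸ ⟨H17.class_conj hC.cls g x (hE x hx), ?_⟩⟩
    rw [← hg, Sylow.coe_subgroup_smul]
    exact ⟨x, hP (Subgroup.subset_closure hx), rfl⟩⟩
  have hker : π.ker ≤ (S : Subgroup H) := by
    haveI : π.ker.Normal := π.normal_ker
    refine IsPGroup.le_sylow_of_normal (fun x => ⟨1, Subtype.ext ?_⟩) S
    rw [pow_one, pow_two]
    exact hC.sq (by rw [MonoidHom.mem_ker.1 x.2, mul_one])
  have hAS : A ≤ (S : Subgroup H) := by
    intro x hx
    rw [hA, Subgroup.mem_comap] at hx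
    have : π x ∈ (T : Subgroup Q) :=
      (Subgroup.closure_le _).2 (fun y hy => (hB ▸ hy : y ∈ _ ∧ _).2) hx
    rw [hT] at this
    obtain ⟨y, hy, e⟩ := this
    rcases hC.eq_or e with rfl | rfl
    · exact hy
    · exact mul_mem (hker hC.piz) hy
  have hcard := hC.Block_card hblock
  obtain ⟨he2, hec⟩ := hC.Block_elem hblock
  have hmax : ∀ A' : Subgroup H, A' ≤ (S : Subgroup H) → (∀ x ∈ A', x * x = 1) →
      (∀ x ∈ A', ∀ y ∈ A', Commute x y) → 2 ^ 11 ≤ Nat.card ↥A' → A' = A := by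
    intro A' hA' h2 hc hle
    have hle' : A' ≤ (A'.map π).comap π := Subgroup.le_comap_map π A'
    have hm : A'.map π = Subgroup.closure B := by
      rw [hB]
      refine H53.max_elementary hC.cls hC.prim hC.h22 T _ (hT ▸ Subgroup.map_mono hA') ?_ ?_ ?_
      · rintro _ ⟨x, hx, rfl⟩
        rw [← map_mul, h2 x hx, map_one]
      · rintro _ ⟨x, hx, rfl⟩ _ ⟨y, hy, rfl⟩
        exact (hc x hx y hy).map π
      · rw [← hB, hb.card]
        have := (Subgroup.card_le_of_le hle').trans_eq (hC.card_comap' (A'.map π))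
        omega
    refine Subgroup.eq_of_le_of_card_ge ?_ (hcard ▸ hle)
    rw [hA, ← hm]
    exact hle'
  refine ⟨B, A, hblock, hAS, hmax, ?_⟩
  have hel : Cfsg.IsElementaryAbelian 2 (A.subgroupOf (S : Subgroup H)) :=
    ⟨⟨⟨fun x y => Subtype.ext (Subtype.ext (hec _ x.2 _ y.2).eq)⟩⟩,
      fun x hx => Subtype.ext (by simpa [pow_two] using he2 _ hx)⟩
  have hcardA : Nat.card ↥(A.subgroupOf (S : Subgroup H)) = Nat.card A :=
    Nat.card_congr (Subgroup.subgroupOfEquivOfLe hAS).toEquiv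
  have hset : Cfsg.maxElementaryAbelianSubgroups 2 ↥(S : Subgroup H) =
      {A.subgroupOf (S : Subgroup H)} := by
    have key : ∀ C : Subgroup ↥(S : Subgroup H), Cfsg.IsElementaryAbelian 2 C →
        Nat.card A ≤ Nat.card C → C = A.subgroupOf (S : Subgroup H) := by
      intro C hCe hle
      have h := hmax (C.map (S : Subgroup H).subtype) (Subgroup.map_subtype_le C)
        (by
          rintro _ ⟨x, hx, rfl⟩
          have := congrArg Subtype.val (hCe.2 x hx)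
          simpa [pow_two] using this)
        (by
          rintro _ ⟨x, hx, rfl⟩ _ ⟨y, hy, rfl⟩
          exact congrArg (fun w : ↥C => ((w : ↥(S : Subgroup H)) : H))
            (hCe.1.is_comm.comm ⟨x, hx⟩ ⟨y, hy⟩))
        (by rw [Subgroup.card_map_of_injective (Subgroup.subtype_injective _)]; omega)
      exact (show (C.map (S : Subgroup H).subtype).subgroupOf (S : Subgroup H) = C from
        Subgroup.comap_map_eq_self_of_injective (Subgroup.subtype_injective _) C).symm.trans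
          (congrArg (fun C => Subgroup.subgroupOf C (S : Subgroup H)) h)
    ext C
    constructor
    · rintro ⟨hCe, hCmax⟩
      exact key C hCe (hcardA ▸ hCmax _ hel)
    · rintro rfl
      refine ⟨hel, fun C hCe => ?_⟩
      rcases le_total (Nat.card C) (Nat.card A) with h | h
      · exact hcardA.symm ▸ h
      · rw [key C hCe h]
  rw [Cfsg.thompsonSubgroupOf, Cfsg.thompsonSubgroup, hset, sSup_singleton,
    Subgroup.subgroupOf_map_subtype, inf_eq_left.2 hAS]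

variable {B : Set Q} {A : Subgroup H} (hA : Block π D B A)
include hA

/-- The other subgroups of this kind are conjugate to it. -/
lemma block_conj {A' : Subgroup H} (h2 : ∀ x ∈ A', x * x = 1)
    (hc : ∀ x ∈ A', ∀ y ∈ A', Commute x y) (hcard : 2 ^ 11 ≤ Nat.card ↥A') :
    ∃ g : H, ∀ x ∈ A', g * x * g⁻¹ ∈ A := by
  haveI : Fact (Nat.Prime 2) := ⟨Nat.prime_two⟩
  obtain ⟨S, hS⟩ := (H53.isPGroup_of_sq (hC.Block_elem hA).1).exists_le_sylow
  obtain ⟨S', hS'⟩ := (H53.isPGroup_of_sq h2).exists_le_sylow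
  obtain ⟨g, hg⟩ := MulAction.exists_smul_eq H S' S
  obtain ⟨-, A₀, -, -, hmax, -⟩ := hC.sylow_block S
  have e1 := hmax A hS (hC.Block_elem hA).1 (hC.Block_elem hA).2 (hC.Block_card hA).ge
  have e2 := hmax (A'.map (MulAut.conj g).toMonoidHom)
    (by rw [← hg, Sylow.coe_subgroup_smul]; exact Subgroup.map_mono hS')
    (by
      rintro _ ⟨x, hx, rfl⟩
      rw [← map_mul, h2 x hx, map_one])
    (by
      rintro _ ⟨x, hx, rfl⟩ _ ⟨y, hy, rfl⟩
      exact (hc x hx y hy).map _)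
    (by rw [Subgroup.card_map_of_injective (MulAut.conj g).injective]; exact hcard)
  refine ⟨g, fun x hx => ?_⟩
  rw [e1, ← e2]
  exact ⟨x, hx, rfl⟩

lemma mem_normalizer {n : H} (hn : ∀ x ∈ A, n * x * n⁻¹ ∈ A) :
    n ∈ Subgroup.normalizer (A : Set H) := by
  rw [Subgroup.mem_normalizer_iff_map_conj_eq]
  refine Subgroup.eq_of_le_of_card_ge ?_
    (Subgroup.card_map_of_injective (MulAut.conj n).injective).ge
  rintro _ ⟨x, hx, rfl⟩
  exact hn x hx

/-- Conjugate elements of the subgroup are conjugate in its normalizer. -/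
lemma fuse {x y : H} (hx : x ∈ A) (hy : y ∈ A) (hxy : IsConj x y) :
    ∃ n ∈ Subgroup.normalizer (A : Set H), n * x * n⁻¹ = y := by
  haveI : Fact (Nat.Prime 2) := ⟨Nat.prime_two⟩
  obtain ⟨g, rfl⟩ := isConj_iff.1 hxy
  obtain ⟨he2, hec⟩ := hC.Block_elem hA
  obtain ⟨A', hA'⟩ : ∃ A', A' = A.map (MulAut.conj g).toMonoidHom := ⟨_, rfl⟩
  obtain ⟨K, hK⟩ : ∃ K, K = Subgroup.centralizer ({g * x * g⁻¹} : Set H) := ⟨_, rfl⟩
  have h2' : ∀ w ∈ A', w * w = 1 := by
    rw [hA']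
    rintro _ ⟨w, hw, rfl⟩
    rw [← map_mul, he2 w hw, map_one]
  have hc' : ∀ v ∈ A', ∀ w ∈ A', Commute v w := by
    rw [hA']
    rintro _ ⟨v, hv, rfl⟩ _ ⟨w, hw, rfl⟩
    exact (hec v hv w hw).map _
  have hle : A ≤ K := fun w hw => hK ▸ Subgroup.mem_centralizer_singleton_iff.2 (hec w hw _ hy).eq
  have hle' : A' ≤ K := fun w hw => hK ▸ Subgroup.mem_centralizer_singleton_iff.2
    (hc' w hw _ (hA' ▸ ⟨x, hx, rfl⟩)).eq
  obtain ⟨S₁, hS₁⟩ := (IsPGroup.of_equiv (H53.isPGroup_of_sq he2)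
    (Subgroup.subgroupOfEquivOfLe hle).symm).exists_le_sylow
  obtain ⟨S₂, hS₂⟩ := (IsPGroup.of_equiv (H53.isPGroup_of_sq h2')
    (Subgroup.subgroupOfEquivOfLe hle').symm).exists_le_sylow
  obtain ⟨c, hc⟩ := MulAction.exists_smul_eq ↥K S₂ S₁
  obtain ⟨S, hS⟩ := (S₁.isPGroup'.map K.subtype).exists_le_sylow
  obtain ⟨-, A₀, -, -, hmax, -⟩ := hC.sylow_block S
  have e1 := hmax A (fun w hw => hS ⟨⟨w, hle hw⟩, hS₁ hw, rfl⟩) he2 hec (hC.Block_card hA).ge
  have e2 := hmax (A'.map (MulAut.conj (c : H)).toMonoidHom)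
    (by
      rintro _ ⟨w, hw, rfl⟩
      refine hS ⟨c * ⟨w, hle' hw⟩ * c⁻¹, ?_, rfl⟩
      rw [← hc, Sylow.coe_subgroup_smul]
      exact ⟨⟨w, hle' hw⟩, hS₂ hw, rfl⟩)
    (by
      rintro _ ⟨w, hw, rfl⟩
      rw [← map_mul, h2' w hw, map_one])
    (by
      rintro _ ⟨v, hv, rfl⟩ _ ⟨w, hw, rfl⟩
      exact (hc' v hv w hw).map _)
    (by
      rw [Subgroup.card_map_of_injective (MulAut.conj (c : H)).injective, hA',
        Subgroup.card_map_of_injective (MulAut.conj g).injective]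
      exact (hC.Block_card hA).ge)
  refine ⟨c * g, hC.mem_normalizer hA fun w hw => ?_, ?_⟩
  · have : MulAut.conj (c : H) (MulAut.conj g w) ∈ A := by
      rw [e1, ← e2]
      exact ⟨_, hA' ▸ ⟨w, hw, rfl⟩, rfl⟩
    simpa [mul_assoc] using this
  · have hcy : (c : H) * (g * x * g⁻¹) = g * x * g⁻¹ * c :=
      Subgroup.mem_centralizer_singleton_iff.1 (hK ▸ c.2)
    calc (c : H) * g * x * ((c : H) * g)⁻¹ = (c : H) * (g * x * g⁻¹) * (c : H)⁻¹ := by group
      _ = g * x * g⁻¹ := by rw [hcy, mul_inv_cancel_right]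

/-- Every involution has a conjugate in the subgroup. -/
lemma invol {y : H} (hy : y * y = 1) : ∃ g, g * y * g⁻¹ ∈ A := by
  classical
  obtain ⟨F, _, _, hCtx⟩ := hC.exists_ctx'
  obtain ⟨l, hl, hlc, hlp⟩ := H98.M22L.involution_prod hCtx.card hCtx hC.h22
    (x := π y) (by rw [← map_mul, hy, map_one])
  obtain ⟨g, hg⟩ := hA.conj {x | x ∈ l} hl hlc
  obtain ⟨g', rfl⟩ := hC.surj g
  refine ⟨g', ?_⟩
  rw [hA.eq, Subgroup.mem_comap, map_mul, map_mul, map_inv, ← hlp,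
    show π g' * l.prod * (π g')⁻¹ = MulAut.conj (π g') l.prod from rfl, map_list_prod]
  refine list_prod_mem fun x hx => ?_
  obtain ⟨w, hw, rfl⟩ := List.mem_map.1 hx
  exact Subgroup.subset_closure (hg w hw)

end Cover

end Cfsg.Agent.H87.Fi23A
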