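import Cfsg.Agent.H87.Fi23A.Cover
import Cfsg.Agent.H87.Fi23A.Orbit

/-!
The orbits of the normalizer on the elementary abelian subgroup of a double cover of a group of
type M(22).
-/

set_option autoImplicit false
set_option linter.unusedSectionVars false
set_option linter.style.haveILetI false

namespace Cfsg.Agent.H87.Fi23A

open Cfsg Cfsg.Agent.H17.UPoints Cfsg.Agent.H43.FischerTwins Cfsg.Agent.H89.M22

variable {H : Type*} [Group H] [Finite H] {Q : Type*} [Group Q] [Finite Q] {π : H →* Q} {z : H}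
  {D : Set Q}

/-- Six commuting members of one class with product `z`. -/
def Hexad (π : H →* Q) (D : Set Q) (z a : H) : Prop :=
  π a ∈ D ∧ ∃ f : Fin 6 → H, Function.Injective f ∧ (∀ i, f i ∈ conjugatesOf a) ∧
    (∀ i j, Commute (f i) (f j)) ∧ f 0 * f 1 * f 2 * (f 3 * f 4 * f 5) = z

/-- Pairs of different positions among 22. -/
theorem card_pairs : ((Finset.univ : Finset (Fin 22 × Fin 22)).filter fun p => p.1 < p.2).card = 231 := by
  decide +kernel

namespace Cover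

variable (hC : Cover π z D) {B : Set Q} {A : Subgroup H} (hA : Block π D B A) {a : H}
  (hx : Hexad π D z a)
include hC hA hx

/-- The setup on the subgroup for any group of automorphisms that agrees with the normalizer on
the stabiliser of `z`. -/
theorem exists_setup (zA : ↥A) (hzA : (zA : H) = z) (R : Subgroup (MulAut ↥A))
    (hin : ∀ h ∈ Subgroup.normalizer (A : Set H), ∃ r ∈ R,
      ∀ x : ↥A, ((r x : ↥A) : H) = h * x * h⁻¹)
    (hout : ∀ r ∈ R, r zA = zA → ∃ h : H, ∀ x : ↥A, ((r x : ↥A) : H) = h * x * h⁻¹) :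
    ∃ L1 L2 P1 P2 : Set ↥A, Setup R zA L1 L2 P1 P2 ∧
      ∀ x : ↥A, x ∈ L1 ↔ (x : H) ∈ conjugatesOf a := by
  obtain ⟨ha, f, finj, fD, fc, fz⟩ := hx
  obtain ⟨he2, hec⟩ := hC.Block_elem hA
  have hmemA : ∀ {x : H}, x ∈ A ↔ π x ∈ Subgroup.closure B := fun {x} => by
    rw [hA.eq, Subgroup.mem_comap]
  have hzm : z ∈ A := hmemA.2 (by rw [hC.piz]; exact one_mem _)
  have hbase := hA.base
  have h1B : (1 : Q) ∉ B := fun h =>
    H17.ne_one_of_orderOf (hC.cls.1.1 _ (hbase.sub h)) rfl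
  -- members of the class in the subgroup
  have inB : ∀ {x : H}, x ∈ A → x ∈ conjugatesOf a → π x ∈ B := fun {x} hx hxD => by
    have hD := hC.mem_D ha hxD
    rcases hbase.cover _ (hmemA.1 hx) with h | h | ⟨p, hp, q, hq, hne, h⟩ |
      ⟨p, hp, q, hq, r, hr, n1, n2, n3, h⟩
    · exact absurd h (H17.ne_one_of_orderOf (hC.cls.1.1 _ hD))
    · exact h
    all_goals
      by_contra hn
      obtain ⟨g, hg⟩ := hA.conj (insert (π x) B) (by rintro w (rfl | hw); exacts [hD, hbase.sub hw])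
        (by
          rintro u (rfl | hu) v (rfl | hv)
          · exact Commute.refl _
          · exact (H53.closure_elementary (fun y hy => hC.D_sq (hbase.sub hy)) hbase.comm).2 _
              (hmemA.1 hx) _ (Subgroup.subset_closure hv)
          · exact (H53.closure_elementary (fun y hy => hC.D_sq (hbase.sub hy)) hbase.comm).2 _
              (Subgroup.subset_closure hu) _ (hmemA.1 hx)
          · exact hbase.comm u hu v hv)
      have := Set.ncard_le_ncard (s := MulAut.conj g '' insert (π x) B) (t := B)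
        (by rintro _ ⟨y, hy, rfl⟩; exact hg y hy) (Set.toFinite _)
      rw [Set.ncard_image_of_injective _ (MulAut.conj g).injective,
        Set.ncard_insert_of_notMem hn (Set.toFinite _), hbase.ncard] at this
      omega
  have lift : ∀ b ∈ B, ∃ x : ↥A, (x : H) ∈ conjugatesOf a ∧ π x = b := fun b hb => by
    obtain ⟨p, hp, rfl⟩ := hC.onto ha (hbase.sub hb)
    exact ⟨⟨p, hmemA.2 (Subgroup.subset_closure hb)⟩, hp, rfl⟩
  obtain ⟨L1, hL1⟩ : ∃ L : Set ↥A, L = {x : ↥A | (x : H) ∈ conjugatesOf a} := ⟨_, rfl⟩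
  obtain ⟨P1, hP1⟩ : ∃ P : Set ↥A, P = {x | ∃ p ∈ L1, ∃ q ∈ L1, p ≠ q ∧ x = p * q} := ⟨_, rfl⟩
  have m1 : ∀ {x : ↥A}, x ∈ L1 ↔ (x : H) ∈ conjugatesOf a := fun {x} => by rw [hL1]; rfl
  have mP : ∀ {x : ↥A}, x ∈ P1 ↔ ∃ p ∈ L1, ∃ q ∈ L1, p ≠ q ∧ x = p * q := fun {x} => by
    rw [hP1]; rfl
  have pB : ∀ {x : ↥A}, x ∈ L1 → π x ∈ B := fun {x} hx => inB x.2 (m1.1 hx)
  have pD : ∀ {x : ↥A}, x ∈ L1 → π x ∈ D := fun {x} hx => hbase.sub (pB hx)
  have pinj : ∀ {p q : ↥A}, p ∈ L1 → q ∈ L1 → π p = π q → p = q := fun {p q} hp hq h =>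
    Subtype.ext (hC.inj ha (m1.1 hp) (m1.1 hq) h)
  have pne : ∀ {p q : ↥A}, p ∈ L1 → q ∈ L1 → p ≠ q → π p ≠ π q := fun {p q} hp hq h e =>
    h (pinj hp hq e)
  have pz : π (zA : H) = 1 := by rw [hzA, hC.piz]
  have pzm : ∀ x : ↥A, π ((zA * x : ↥A) : H) = π x := fun x => by
    rw [Subgroup.coe_mul, map_mul, pz, one_mul]
  have hcancel : ∀ x : ↥A, zA * (zA * x) = x := fun x => Subtype.ext (by
    rw [Subgroup.coe_mul, Subgroup.coe_mul, hzA, hC.cancel])
  have zne : zA ≠ 1 := fun h => hC.z1 (by rw [← hzA, h]; rfl)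
  have cm : ∀ x y : ↥A, Commute x y := fun x y => Subtype.ext (hec _ x.2 _ y.2).eq
  -- transitivity
  have trans : ∀ (S : Set ↥A), (∀ x ∈ S, ∀ y ∈ S, IsConj (x : H) y) → Trans R zA S := by
    intro S hS x hx y hy
    obtain ⟨n, hn, hne⟩ := hC.fuse hA x.2 y.2 (hS x hx y hy)
    obtain ⟨r, hr, hre⟩ := hin n hn
    refine ⟨r, hr, Subtype.ext ?_, Subtype.ext (by rw [hre, hne])⟩
    rw [hre, hzA, ← (hC.zc n).eq, mul_inv_cancel_right]
  have zconj : ∀ {u v : H}, IsConj u v → IsConj (z * u) (z * v) := fun {u v} h => by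
    obtain ⟨g, rfl⟩ := isConj_iff.1 h
    exact isConj_iff.2 ⟨g, by rw [← mul_assoc g, ← (hC.zc g).eq]; simp only [mul_assoc]⟩
  have cL : ∀ x ∈ L1, ∀ y ∈ L1, IsConj (x : H) y := fun x hx y hy =>
    (show IsConj a x from m1.1 hx).symm.trans (m1.1 hy)
  have cP : ∀ x ∈ P1, ∀ y ∈ P1, IsConj (x : H) y := by
    intro x hx y hy
    obtain ⟨p, hp, q, hq, hne, rfl⟩ := mP.1 hx
    obtain ⟨p', hp', q', hq', hne', rfl⟩ := mP.1 hy
    obtain ⟨g, g1, g2⟩ := hC.pair_conj ha (m1.1 hp) (m1.1 hq) (m1.1 hp') (m1.1 hq')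
      (((cm p q).map A.subtype).map π) (pne hp hq hne) (((cm p' q').map A.subtype).map π)
      (pne hp' hq' hne')
    refine isConj_iff.2 ⟨g, ?_⟩
    rw [Subgroup.coe_mul, Subgroup.coe_mul, ← g1, ← g2]
    group
  -- triples
  have f2 : ∀ i, π (f i) * π (f i) = 1 := fun i => hC.D_sq (hC.mem_D ha (fD i))
  have fne : ∀ i j, i ≠ j → π (f i) ≠ π (f j) := fun i j h e =>
    h (finj (hC.inj ha (fD i) (fD j) e))
  have fc' : ∀ i j, Commute (π (f i)) (π (f j)) := fun i j => (fc i j).map π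
  have tri : ∀ {p q r : ↥A}, p ∈ L1 → q ∈ L1 → r ∈ L1 → p ≠ q → p ≠ r → q ≠ r → ∀ {i j k : Fin 6},
      i ≠ j → i ≠ k → j ≠ k → IsConj ((p * q * r : ↥A) : H) (f i * f j * f k) := by
    intro p q r hp hq hr n1 n2 n3 i j k h1 h2 h3
    obtain ⟨g, g1, g2, g3⟩ := hC.triple_conj ha (m1.1 hp) (m1.1 hq) (m1.1 hr) (fD i) (fD j) (fD k)
      (((cm p q).map A.subtype).map π) (((cm p r).map A.subtype).map π)
      (((cm q r).map A.subtype).map π) (pne hp hq n1) (pne hp hr n2) (pne hq hr n3)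
      (fc' i j) (fc' i k) (fc' j k) (fne i j h1) (fne i k h2) (fne j k h3)
    refine isConj_iff.2 ⟨g, ?_⟩
    rw [Subgroup.coe_mul, Subgroup.coe_mul, ← g1, ← g2, ← g3]
    group
  have fflip : f 0 * f 1 * f 2 = z * (f 3 * f 4 * f 5) := by
    rw [← fz, mul_assoc (f 0 * f 1 * f 2) (f 3 * f 4 * f 5)]
    have : f 3 * f 4 * f 5 * (f 3 * f 4 * f 5) = 1 := hC.sq (by
      simp only [map_mul]
      rw [((fc' 5 3).mul_right (fc' 5 4)).mul_mul_mul_comm,
        (fc' 4 3).mul_mul_mul_comm, f2, f2, f2, one_mul, one_mul])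
    rw [this, mul_one]
  have restT : ∀ x ∈ rest zA L1 {x | zA * x ∈ L1} P1 {x | zA * x ∈ P1},
      IsConj (x : H) (f 0 * f 1 * f 2) := by
    rintro x ⟨x1, xz, xL1, xL2, xP1, xP2⟩
    rcases hbase.cover _ (hmemA.1 x.2) with h | h | ⟨b, hb, c, hc, hne, h⟩ |
      ⟨b, hb, c, hc, d, hd, n1, n2, n3, h⟩
    · rcases hC.eq_or ((map_one π).trans h.symm) with e | e
      · exact absurd (Subtype.ext e) x1
      · exact absurd (Subtype.ext (by rw [e, mul_one, hzA])) xz
    · obtain ⟨p, hp, hpe⟩ := lift _ h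
      rcases hC.eq_or hpe with e | e
      · exact absurd (Subtype.ext e ▸ m1.2 hp) xL1
      · refine absurd ?_ xL2
        show zA * x ∈ L1
        rw [show x = zA * p from Subtype.ext (by rw [e, Subgroup.coe_mul, hzA]), hcancel]
        exact m1.2 hp
    · obtain ⟨p, hp, rfl⟩ := lift b hb
      obtain ⟨q, hq, rfl⟩ := lift c hc
      have hpq : p * q ∈ P1 := mP.2 ⟨p, m1.2 hp, q, m1.2 hq, fun e => hne (by rw [e]), rfl⟩
      rcases hC.eq_or (p := ((p * q : ↥A) : H)) (q := (x : H))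
        (by rw [Subgroup.coe_mul, map_mul, h]) with e | e
      · exact absurd (Subtype.ext e ▸ hpq) xP1
      · refine absurd ?_ xP2
        show zA * x ∈ P1
        rw [show x = zA * (p * q) from Subtype.ext (by rw [e, ← hzA]; rfl), hcancel]
        exact hpq
    · obtain ⟨p, hp, rfl⟩ := lift b hb
      obtain ⟨q, hq, rfl⟩ := lift c hc
      obtain ⟨r, hr, rfl⟩ := lift d hd
      have k1 : p ≠ q := fun e => n1 (by rw [e])
      have k2 : p ≠ r := fun e => n2 (by rw [e])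
      have k3 : q ≠ r := fun e => n3 (by rw [e])
      rcases hC.eq_or (p := ((p * q * r : ↥A) : H)) (q := (x : H))
        (by simp only [Subgroup.coe_mul, map_mul, h]) with e | e
      · rw [e]
        exact tri (m1.2 hp) (m1.2 hq) (m1.2 hr) k1 k2 k3 (by decide) (by decide) (by decide)
      · rw [e, fflip]
        exact zconj (tri (m1.2 hp) (m1.2 hq) (m1.2 hr) k1 k2 k3 (by decide) (by decide) (by decide))
  -- generation
  obtain ⟨g, hg⟩ := hA.conj (Set.range fun i => π (f i))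
    (by rintro _ ⟨i, rfl⟩; exact hC.mem_D ha (fD i))
    (by rintro _ ⟨i, rfl⟩ _ ⟨j, rfl⟩; exact fc' i j)
  obtain ⟨g', rfl⟩ := hC.surj g
  obtain ⟨t, ht⟩ : ∃ t : Fin 6 → ↥A, ∀ i, (t i : H) = g' * f i * g'⁻¹ :=
    ⟨fun i => ⟨g' * f i * g'⁻¹, hmemA.2 (by
      rw [map_mul, map_mul, map_inv]
      exact Subgroup.subset_closure (hg _ ⟨i, rfl⟩))⟩, fun i => rfl⟩
  have tL : ∀ i, t i ∈ L1 := fun i => m1.2 (by rw [ht]; exact hC.conj_mem (fD i) g')
  have tprod : t 0 * t 1 * t 2 * (t 3 * t 4 * t 5) = zA := Subtype.ext (by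
    simp only [Subgroup.coe_mul, ht]
    calc _ = g' * (f 0 * f 1 * f 2 * (f 3 * f 4 * f 5)) * g'⁻¹ := by group
      _ = _ := by rw [fz, ← (hC.zc g').eq, mul_inv_cancel_right, hzA])
  have gen1 : Subgroup.closure L1 = ⊤ := by
    have zin : zA ∈ Subgroup.closure L1 := tprod ▸
      (have m := fun i => Subgroup.subset_closure (tL i)
       mul_mem (mul_mem (mul_mem (m 0) (m 1)) (m 2)) (mul_mem (mul_mem (m 3) (m 4)) (m 5)))
    refine eq_top_iff.2 fun x _ => ?_
    have hle : Subgroup.closure B ≤ (Subgroup.closure L1).map (π.comp A.subtype) := by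
      rw [Subgroup.closure_le]
      intro b hb
      obtain ⟨p, hp, rfl⟩ := lift b hb
      exact ⟨p, Subgroup.subset_closure (m1.2 hp), rfl⟩
    obtain ⟨w, hw, hwe⟩ := hle (hmemA.1 x.2)
    rcases hC.eq_or (p := (w : H)) (q := (x : H)) hwe with e | e
    · rwa [Subtype.ext e]
    · rw [show x = zA * w from Subtype.ext (by rw [e, Subgroup.coe_mul, hzA])]
      exact mul_mem zin hw
  have gen2 : Subgroup.closure {x | zA * x ∈ L1} = ⊤ := by
    have m : ∀ p ∈ L1, zA * p ∈ Subgroup.closure {x | zA * x ∈ L1} := fun p hp =>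
      Subgroup.subset_closure (show zA * (zA * p) ∈ L1 by rwa [hcancel])
    have zz : zA * zA = 1 := Subtype.ext (by rw [Subgroup.coe_mul, hzA, hC.zz]; rfl)
    have e2 : ∀ x y : ↥A, zA * x * (zA * y) = x * y := fun x y => by
      rw [(cm x zA).mul_mul_mul_comm, zz, one_mul]
    have zin : zA ∈ Subgroup.closure {x | zA * x ∈ L1} := by
      have := mul_mem (mul_mem (mul_mem (m _ (tL 0)) (m _ (tL 1))) (mul_mem (m _ (tL 2)) (m _ (tL 3))))
        (mul_mem (m _ (tL 4)) (m _ (tL 5)))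
      rw [e2, e2, e2] at this
      have h : t 0 * t 1 * t 2 * (t 3 * t 4 * t 5) ∈ Subgroup.closure {x | zA * x ∈ L1} := by
        simpa only [mul_assoc] using this
      rwa [tprod] at h
    rw [eq_top_iff, ← gen1, Subgroup.closure_le]
    intro p hp
    have := mul_mem zin (m p hp)
    rwa [hcancel] at this
  -- numbers
  have hn1 : L1.ncard = 22 := by
    rw [← hbase.ncard, ← Set.InjOn.ncard_image (f := fun x : ↥A => π x) fun p hp q hq h =>
      pinj hp hq h]
    congr 1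
    ext b
    exact ⟨fun ⟨p, hp, e⟩ => e ▸ pB hp, fun hb => (lift b hb).imp fun p hp => ⟨m1.2 hp.1, hp.2⟩⟩
  have pairs : ∀ p ∈ L1, ∀ q ∈ L1, ∀ u ∈ L1, ∀ v ∈ L1, p ≠ q →
      π (p : H) * π q = π (u : H) * π v → (p = u ∧ q = v) ∨ (p = v ∧ q = u) := by
    intro p hp q hq u hu v hv hne h
    rcases hC.pair_eq' (pD hp) (pD hq) (pD hu) (pD hv) (((cm p q).map A.subtype).map π)
      (pne hp hq hne) (((cm u v).map A.subtype).map π) h with ⟨e1, e2⟩ | ⟨e1, e2⟩
    · exact Or.inl ⟨pinj hp hu e1, pinj hq hv e2⟩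
    · exact Or.inr ⟨pinj hp hv e1, pinj hq hu e2⟩
  have hn2 : P1.ncard = 231 := by
    haveI : Finite L1 := Set.Finite.to_subtype (Set.toFinite _)
    obtain ⟨e⟩ : Nonempty (Fin 22 ≃ L1) :=
      ⟨((finCongr (by rw [Nat.card_coe_set_eq, hn1])).symm.trans (Finite.equivFin L1).symm)⟩
    have him : P1 = (fun p : Fin 22 × Fin 22 => (e p.1 : ↥A) * e p.2) ''
        ↑((Finset.univ : Finset (Fin 22 × Fin 22)).filter fun p => p.1 < p.2) := by
      ext x
      rw [mP]
      constructor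
      · rintro ⟨p, hp, q, hq, hne, rfl⟩
        obtain ⟨i, hi⟩ := e.surjective ⟨p, hp⟩
        obtain ⟨j, hj⟩ := e.surjective ⟨q, hq⟩
        have hij : i ≠ j := fun h => hne (congrArg Subtype.val (hi.symm.trans (h ▸ hj)))
        rcases lt_or_gt_of_ne hij with h | h
        · exact ⟨(i, j), by simpa using h, by simp [hi, hj]⟩
        · exact ⟨(j, i), by simpa using h, by simp only [hi, hj]; exact (cm q p).eq⟩
      · rintro ⟨⟨i, j⟩, hij, rfl⟩
        have hlt : i < j := by simpa using hij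
        exact ⟨_, (e i).2, _, (e j).2, fun h => hlt.ne (e.injective (Subtype.ext h)), rfl⟩
    rw [him, Set.InjOn.ncard_image, Set.ncard_coe_finset, card_pairs]
    rintro ⟨i, j⟩ hij ⟨k, l⟩ hkl h
    have h1 : i < j := by simpa using hij
    have h2 : k < l := by simpa using hkl
    have h' := congrArg (fun x : ↥A => π (x : H)) h
    simp only [Subgroup.coe_mul, map_mul] at h'
    rcases pairs _ (e i).2 _ (e j).2 _ (e k).2 _ (e l).2
      (fun q => h1.ne (e.injective (Subtype.ext q))) h' with ⟨r1, r2⟩ | ⟨r1, r2⟩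
    · rw [e.injective (Subtype.ext r1), e.injective (Subtype.ext r2)]
    · exact absurd (e.injective (Subtype.ext r1) ▸ e.injective (Subtype.ext r2) ▸ h1) h2.asymm
  -- separation
  have outP : ∀ {x : ↥A}, x ∈ P1 → π x ∉ B ∧ π x ≠ 1 := fun {x} hx => by
    obtain ⟨p, hp, q, hq, hne, rfl⟩ := mP.1 hx
    rw [Subgroup.coe_mul, map_mul]
    exact hbase.pair_out _ (pB hp) _ (pB hq) (pne hp hq hne)
  have nB : ∀ {x : ↥A}, π (x : H) = 1 → π (x : H) ∉ B := fun {x} h h' => h1B (h ▸ h')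
  refine ⟨L1, {x | zA * x ∈ L1}, P1, {x | zA * x ∈ P1}, ?_, fun x => m1⟩
  refine ⟨hC.Block_card hA, cm, fun x => Subtype.ext (he2 _ x.2), zne, ⟨?_, ?_, ?_, ?_⟩,
    ⟨?_, ?_, ?_, ?_⟩, ?_, trans _ cL, trans _ ?_, trans _ cP, trans _ ?_,
    trans _ fun x hx y hy => (restT x hx).trans (restT y hy).symm, fun x => Iff.rfl,
    fun x => mP, fun x => Iff.rfl, ?_, ?_, ?_, ?_, ?_, ?_, hn1, hn2, gen1, gen2, ?_⟩
  · exact fun h => nB pz (pB h)
  · exact fun (h : zA * zA ∈ L1) => nB (by rw [pzm, pz]) (pB h)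
  · exact fun h => (outP h).2 pz
  · exact fun (h : zA * zA ∈ P1) => (outP h).2 (by rw [pzm, pz])
  · exact fun h => nB (map_one π) (pB h)
  · exact fun (h : zA * 1 ∈ L1) => nB (by rw [pzm]; exact map_one π) (pB h)
  · exact fun h => (outP h).2 (map_one π)
  · exact fun (h : zA * 1 ∈ P1) => (outP h).2 (by rw [pzm]; exact map_one π)
  · intro r hr hrz x hx
    obtain ⟨h, hh⟩ := hout r hr hrz
    exact m1.2 (by rw [hh]; exact hC.conj_mem (m1.1 hx) h)
  · intro x hx y hy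
    have := zconj (cL _ hx _ hy)
    simpa only [Subgroup.coe_mul, hzA, hC.cancel] using this
  · intro x hx y hy
    have := zconj (cP _ hx _ hy)
    simpa only [Subgroup.coe_mul, hzA, hC.cancel] using this
  · exact Set.disjoint_left.2 fun x h (h' : zA * x ∈ L1) =>
      zne (mul_eq_right.1 (pinj h' h (pzm x)))
  · exact Set.disjoint_left.2 fun x h h' => (outP h').1 (pB h)
  · exact Set.disjoint_left.2 fun x h (h' : zA * x ∈ P1) => (outP h').1 (by rw [pzm]; exact pB h)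
  · exact Set.disjoint_left.2 fun x (h : zA * x ∈ L1) h' => (outP h').1 (pzm x ▸ pB h)
  · exact Set.disjoint_left.2 fun x (h : zA * x ∈ L1) (h' : zA * x ∈ P1) => (outP h').1 (pB h)
  · refine Set.disjoint_left.2 fun x h (h' : zA * x ∈ P1) => ?_
    obtain ⟨p, hp, q, hq, hne, rfl⟩ := mP.1 h
    obtain ⟨u, hu, v, hv, huv, e⟩ := mP.1 h'
    have e' := congrArg (fun w : ↥A => π (w : H)) e
    rw [pzm] at e'
    simp only [Subgroup.coe_mul, map_mul] at e'
    refine zne (mul_eq_right.1 (e.trans ?_))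
    rcases pairs p hp q hq u hu v hv hne e' with ⟨rfl, rfl⟩ | ⟨rfl, rfl⟩
    · rfl
    · exact (cm _ _).eq
  · intro p hp q hq r hr n1 n2 n3
    obtain ⟨t1, t2, t3⟩ := hbase.triple_out _ (pB hp) _ (pB hq) _ (pB hr) (pne hp hq n1)
      (pne hp hr n2) (pne hq hr n3)
    have e : π ((p * q * r : ↥A) : H) = π p * π q * π r := by simp only [Subgroup.coe_mul, map_mul]
    refine ⟨fun h => t1 (e ▸ pB h), fun (h : zA * (p * q * r) ∈ L1) => t1 ?_,
      fun (h : zA * (p * q * r) ∈ P1) => ?_, fun h => t2 (by rw [← e, h, pz])⟩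
    · have := pB h
      rwa [pzm, e] at this
    · obtain ⟨u, hu, v, hv, huv, e'⟩ := mP.1 h
      have := congrArg (fun w : ↥A => π (w : H)) e'
      rw [pzm, e] at this
      simp only [Subgroup.coe_mul, map_mul] at this
      exact t3 _ (pB hu) _ (pB hv) (pne hu hv huv) this

end Cover

end Cfsg.Agent.H87.Fi23A
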