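import Cfsg.Agent.H87.Fi23A.Orbits
import Cfsg.Agent.H87.M24.Main

/-!
In a perfect double cover of a group of type M(22) some six commuting members of a class over the
members have product the central involution.
-/

set_option autoImplicit false
set_option linter.unusedSectionVars false

namespace Cfsg.Agent.H87.Fi23A

open Cfsg Cfsg.Agent.H17.UPoints Cfsg.Agent.H43.FischerTwins Cfsg.Agent.H89.M22

/-- The positions in the relations are different. -/
theorem six_cert : steps.all (fun s => decide (Function.Injective ![s.2.1.castSucc,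
      s.2.2.1.castSucc, s.2.2.2.1.castSucc, s.2.2.2.2.castSucc, s.1.castSucc, (21 : Fin 22)])) = true ∧
    (∀ k : Fin 3, Function.Injective ![(rows (rowI k) 0).castSucc, (rows (rowI k) 1).castSucc,
      (rows (rowI k) 2).castSucc, (rows (rowJ k) 0).castSucc, (rows (rowJ k) 1).castSucc,
      (rows (rowJ k) 2).castSucc]) := by
  refine ⟨?_, ?_⟩ <;> decide +kernel

variable {H : Type*} [Group H] [Finite H] {Q : Type*} [Group Q] [Finite Q] {π : H →* Q} {z : H}
  {D : Set Q}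

namespace Cover

variable (hC : Cover π z D) {F : Type} [Field F] [Fintype F] [DecidableEq F]
  {hF : Fintype.card F = 4} (P : Plane D hF)
include hC

/-- Lifts of the 22 members in the class where the odd relation has product `z`. -/
theorem exists_odd (hctx : Ctx D F) {k : Fin 3} (hk : P.J k = P.a * P.J (rowI k)) :
    ∃ (a : H) (g : Fin 22 → H), π a ∈ D ∧ (∀ i, g i ∈ conjugatesOf a) ∧ (∀ i, π (g i) = P.b i) ∧
      g (rows k 0).castSucc * g (rows k 1).castSucc * g (rows k 2).castSucc *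
        (g 21 * (g (rows (rowI k) 0).castSucc * g (rows (rowI k) 1).castSucc *
          g (rows (rowI k) 2).castSucc)) = z := by
  obtain ⟨a, ha⟩ := hC.surj P.a
  have haD : π a ∈ D := ha ▸ P.ha
  choose g hg hgb using fun i => hC.onto haD (P.b_mem i)
  have h1 : π (g (rows k 0).castSucc * g (rows k 1).castSucc * g (rows k 2).castSucc *
      (g 21 * (g (rows (rowI k) 0).castSucc * g (rows (rowI k) 1).castSucc *
        g (rows (rowI k) 2).castSucc))) = 1 := by
    simp only [map_mul, hgb, P.b_cast, P.b_last]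
    show P.J k * (P.a * P.J (rowI k)) = 1
    rw [← hk, P.J_sq hctx]
  rcases (hC.ker _).1 h1 with h | h
  · refine ⟨z * a, fun i => z * g i, hC.pi_zconj haD, fun i => ?_,
      fun i => by rw [hC.pi_zmul, hgb], ?_⟩
    · obtain ⟨c, hc⟩ := isConj_iff.1 (show IsConj a (g i) from hg i)
      refine isConj_iff.2 ⟨c, ?_⟩
      show _ = z * g i
      rw [← hc, ← mul_assoc c, ← (hC.zc c).eq]
      simp only [mul_assoc]
    · calc _ = z * g (rows k 0).castSucc * (z * g (rows k 1).castSucc) *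
            (z * g (rows k 2).castSucc) * (z * g 21 * (z * g (rows (rowI k) 0).castSucc *
            (z * g (rows (rowI k) 1).castSucc) * (z * g (rows (rowI k) 2).castSucc))) := rfl
        _ = z * z * (z * z) * (z * z) * z * (g (rows k 0).castSucc * g (rows k 1).castSucc *
            g (rows k 2).castSucc * (g 21 * (g (rows (rowI k) 0).castSucc *
            g (rows (rowI k) 1).castSucc * g (rows (rowI k) 2).castSucc))) := by
          have h' : ∀ x y : H, x * (z * y) = z * (x * y) := fun x y => ((hC.zc x).left_comm y).symm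
          simp only [mul_assoc, h']
        _ = z := by rw [h, hC.zz, one_mul, one_mul, one_mul, mul_one]
  · exact ⟨a, g, haD, hg, hgb, h⟩

/-- If six commuting members of a class never have product `z`, a product of lifts of the plane
members is trivial only for an even number of factors. -/
theorem no_odd_list (hctx : Ctx D F) {k : Fin 3}
    (hk : P.J (rowI k) = P.J (rowJ k)) {a : H} (haD : π a ∈ D)
    (hne : ¬ Hexad π D z a) {g : Fin 22 → H} (hg : ∀ i, g i ∈ conjugatesOf a)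
    (hgb : ∀ i, π (g i) = P.b i) (hzg : z ∈ Subgroup.closure (Set.range g)) :
    ∀ l : List H, (∀ u ∈ l, u ∈ Set.range g) → l.prod = 1 → Even l.length := by
  have hG := H17.class_group hctx.cls
  have hcomm : ∀ i j, Commute (g i) (g j) := fun i j =>
    hC.comm_D (hC.mem_D haD (hg i)) (hC.mem_D haD (hg j)) (by rw [hgb, hgb]; exact P.b_commute i j)
  have hginj : Function.Injective g := fun i j e => P.b_injective (by rw [← hgb, ← hgb, e])
  have six : ∀ v : Fin 6 → Fin 22, Function.Injective v →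
      P.b (v 0) * P.b (v 1) * P.b (v 2) * (P.b (v 3) * P.b (v 4) * P.b (v 5)) = 1 →
      g (v 0) * g (v 1) * g (v 2) * (g (v 3) * g (v 4) * g (v 5)) = 1 := by
    intro v hv h
    refine ((hC.ker _).1 (by simp only [map_mul, hgb]; exact h)).resolve_right fun e => hne ?_
    exact ⟨haD, g ∘ v, hginj.comp hv, fun i => hg _, fun i j => hcomm _ _, e⟩
  obtain ⟨G', hG'⟩ : ∃ G' : Fin 22 → H × ℤˣ, ∀ i, G' i = (g i, -1) :=
    ⟨fun i => (g i, -1), fun _ => rfl⟩
  have hH : Hexads G' k := by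
    refine ⟨fun i => ?_, fun i j => ?_, fun s hs => ?_, ?_⟩
    · rw [hG', Prod.mk_mul_mk, Int.units_mul_self]
      exact Prod.ext (hC.sq (hC.D_sq (hC.mem_D haD (hg i)))) rfl
    · rw [hG', hG']
      exact (hcomm i j).prod (Commute.refl _)
    · have hv := List.all_eq_true.1 six_cert.1 s hs
      rw [decide_eq_true_eq] at hv
      have h := six _ hv (by
        simp only [Matrix.cons_val_zero, Matrix.cons_val_one, Matrix.cons_val, P.b_cast, P.b_last]
        calc _ = P.m s.2.1 * P.m s.2.2.1 * P.m s.2.2.2.1 * P.m s.2.2.2.2 * P.m s.1 * P.a := by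
              simp only [mul_assoc]
          _ = 1 := by rw [P.line_rel hctx hs, H17.sq_one hG.1 P.ha])
      simp only [hG', Prod.mk_mul_mk]
      refine Prod.ext ?_ (show _ = (1 : ℤˣ) by simp)
      simpa [mul_assoc] using h
    · have h := six _ (six_cert.2 k) (by
        simp only [Matrix.cons_val_zero, Matrix.cons_val_one, Matrix.cons_val, P.b_cast]
        show P.J (rowI k) * P.J (rowJ k) = 1
        rw [hk, P.J_sq hctx])
      simp only [hG', Prod.mk_mul_mk]
      refine Prod.ext ?_ (show _ = (1 : ℤˣ) by simp)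
      simpa [mul_assoc] using h
  obtain ⟨L, hL⟩ : ∃ L, L = Subgroup.closure (Set.range G') := ⟨_, rfl⟩
  obtain ⟨S, hS⟩ : ∃ S, S = Subgroup.closure (Set.range g) := ⟨_, rfl⟩
  have hfst : L.map (MonoidHom.fst H ℤˣ) = S := by
    rw [hL, hS, MonoidHom.map_closure, ← Set.range_comp]
    congr 2
    funext i
    simp [hG']
  have hπS : S.map π = Subgroup.closure (Set.range P.b) := by
    rw [hS, MonoidHom.map_closure, ← Set.range_comp]
    congr 2
    exact funext hgb
  have hSc : 2048 ≤ Nat.card ↥S := by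
    have hdvd : 1024 ∣ Nat.card ↥S := by
      rw [← (P.base hctx).card, ← hπS]
      exact Subgroup.card_map_dvd S π
    have hlt : 1024 < Nat.card ↥S := by
      rw [← (P.base hctx).card, ← hπS]
      refine lt_of_le_of_ne (Nat.le_of_dvd Nat.card_pos (Subgroup.card_map_dvd S π)) fun e => ?_
      have hb := (Nat.bijective_iff_surjective_and_card (π.subgroupMap S)).2
        ⟨π.subgroupMap_surjective S, e.symm⟩
      exact hC.z1 (congrArg Subtype.val (@hb.1 ⟨z, hS ▸ hzg⟩ 1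
        (Subtype.ext (hC.piz.trans (map_one π).symm))))
    obtain ⟨c, hc⟩ := hdvd
    omega
  intro l hl hlp
  by_contra hev
  have hmem : ∀ m : List H, (∀ u ∈ m, u ∈ Set.range g) → (m.prod, (-1 : ℤˣ) ^ m.length) ∈ L := by
    intro m
    induction m with
    | nil => intro _; exact one_mem L
    | cons u m ih =>
      intro h
      obtain ⟨i, rfl⟩ := h u (List.mem_cons_self ..)
      have := mul_mem (hL ▸ Subgroup.subset_closure ⟨i, hG' i⟩ : (g i, (-1 : ℤˣ)) ∈ L)
        (ih fun w hw => h w (List.mem_cons_of_mem _ hw))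
      rw [List.prod_cons, List.length_cons, pow_succ']
      exact this
  have hneg : ((1 : H), (-1 : ℤˣ)) ∈ L := by
    have := hmem l hl
    rwa [hlp, (Nat.not_even_iff_odd.1 hev).neg_one_pow] at this
  have hle : S.prod (⊤ : Subgroup ℤˣ) ≤ L := by
    rintro ⟨x, s⟩ hx
    obtain ⟨⟨x', t⟩, ht, rfl⟩ := (hfst ▸ (Subgroup.mem_prod.1 hx).1 :
      x ∈ L.map (MonoidHom.fst H ℤˣ))
    show (x', s) ∈ L
    rcases Int.units_eq_one_or s with rfl | rfl <;> rcases Int.units_eq_one_or t with rfl | rfl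
    · exact ht
    · simpa using mul_mem ht hneg
    · simpa using mul_mem ht hneg
    · exact ht
  have h1 := Subgroup.card_le_of_le hle
  have h2 : Nat.card ↥(S.prod (⊤ : Subgroup ℤˣ)) = Nat.card ↥S * 2 := by
    rw [Nat.card_congr (Subgroup.prodEquiv S (⊤ : Subgroup ℤˣ)).toEquiv, Nat.card_prod,
      Subgroup.card_top, Nat.card_eq_fintype_card (α := ℤˣ), Fintype.card_units_int]
  have h3 : Nat.card ↥L ≤ 2048 := hL ▸ hH.card_le
  omega

/-- Some six commuting members of a class have product `z`. -/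
theorem exists_hexad : ∃ a, Hexad π D z a := by
  classical
  obtain ⟨F, _, _, hctx⟩ := hC.exists_ctx'
  obtain ⟨P⟩ := exists_plane hctx
  have hF := hctx.card
  obtain ⟨k, hk, hkodd⟩ := P.exists_pattern hctx
  obtain ⟨a, g, haD, hg, hgb, hgz⟩ := hC.exists_odd P hctx hkodd
  refine ⟨a, by_contra fun hne => ?_⟩
  obtain ⟨D2, hD2⟩ : ∃ D2, D2 = conjugatesOf a := ⟨_, rfl⟩
  have hcls : Cfsg.IsThreeTranspositionClass D2 := hD2 ▸ hC.cls_lift haD
  have hG := H17.class_group hcls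
  have hgD : ∀ i, g i ∈ D2 := fun i => hD2 ▸ hg i
  have hD2D : ∀ {p}, p ∈ D2 → π p ∈ D := fun {p} hp => hC.mem_D haD (hD2 ▸ hp)
  have hinj : ∀ {p q}, p ∈ D2 → q ∈ D2 → π p = π q → p = q := fun {p q} hp hq h =>
    hC.inj haD (hD2 ▸ hp) (hD2 ▸ hq) h
  have hcomm : ∀ {p q}, p ∈ D2 → q ∈ D2 → (Commute p q ↔ Commute (π p) (π q)) :=
    fun {p q} hp hq => ⟨fun h => h.map π, hC.comm_D (hD2D hp) (hD2D hq)⟩
  have gcomm : ∀ i j, Commute (g i) (g j) := fun i j =>
    (hcomm (hgD i) (hgD j)).2 (by rw [hgb, hgb]; exact P.b_commute i j)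
  obtain ⟨d, hd⟩ : ∃ d, d = g 21 := ⟨_, rfl⟩
  have hdD : d ∈ D2 := hd ▸ hgD 21
  have hdπ : π d = P.a := by rw [hd, hgb, P.b_last]
  have hzg : z ∈ Subgroup.closure (Set.range g) := hgz ▸
    (have m := fun i => Subgroup.subset_closure (Set.mem_range_self (f := g) i)
     mul_mem (mul_mem (mul_mem (m _) (m _)) (m _))
      (mul_mem (m _) (mul_mem (mul_mem (m _) (m _)) (m _))))
  have hno := hC.no_odd_list P hctx hk haD hne hg hgb hzg
  -- the picture around `d`
  obtain ⟨K, hK⟩ : ∃ K, K = (⊤ : Subgroup H) ⊓ Subgroup.centralizer ({d} : Set H) := ⟨_, rfl⟩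
  have mK : ∀ {h : H}, h ∈ K ↔ Commute d h := fun {h} => by rw [hK, M24.mem_cen]; simp
  have hcod : ∀ h : ↥K, π.comp K.subtype h ∈ Subgroup.closure (Sset D P.a) := fun h => by
    rw [← H43.M22.centralizer_partners hC.cls hC.prim hC.h22 P.ha,
      Subgroup.mem_centralizer_singleton_iff, ← hdπ]
    exact ((mK.1 h.2).map π).eq.symm
  obtain ⟨T, hT⟩ : ∃ T, T = Sset D2 d := ⟨_, rfl⟩
  have mT : ∀ {x}, x ∈ T ↔ x ∈ D2 ∧ x ≠ d ∧ Commute d x := fun {x} => by rw [hT]; rfl
  have hTS : ∀ {x}, x ∈ T → π x ∈ Sset D P.a := fun {x} hx => by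
    obtain ⟨h1, h2, h3⟩ := mT.1 hx
    exact ⟨hD2D h1, fun e => h2 (hinj h1 hdD (e.trans hdπ.symm)), hdπ ▸ h3.map π⟩
  let Pc : M24.Pic D2 K T {d, z} hF :=
    { π := P.M.f.comp ((π.comp K.subtype).codRestrict _ hcod)
      mem := fun x hx => mK.2 (mT.1 hx).2.2
      inD := fun x hx => (mT.1 hx).1
      ker := fun h hh => by
        have hc := (P.M.ker _).1 hh
        have hz' : z ∈ Subgroup.closure ({d, z} : Set H) := Subgroup.subset_closure (by simp)
        have hd' : d ∈ Subgroup.closure ({d, z} : Set H) := Subgroup.subset_closure (by simp)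
        rcases centralizer_sset hctx P.ha (u := π h) (fun e he => (congrArg Subtype.val
          (Subgroup.mem_center_iff.1 hc ⟨e, Subgroup.subset_closure he⟩)).symm) with e | e
        · rcases (hC.ker _).1 e with e' | e' <;> rw [e']
          exacts [one_mem _, hz']
        · rcases hC.eq_or (hdπ.trans e.symm) with e' | e' <;> rw [e']
          exacts [hd', mul_mem hz' hd']
      pt := P.M.pt ∘ π
      pt_iso := fun x hx => P.M.pt_iso _ (hTS hx)
      f_eq := fun x hx => P.M.f_eq _ (hTS hx)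
      inj := fun x hx y hy h => hinj (mT.1 hx).1 (mT.1 hy).1
        (P.M.inj _ (hTS hx) _ (hTS hy) h)
      commute_iff := fun x hx y hy => (hcomm (mT.1 hx).1 (mT.1 hy).1).trans
        (P.M.commute_iff _ (hTS hx) _ (hTS hy))
      onto := fun v hv => by
        obtain ⟨q, hq, c, hc, e⟩ := P.M.onto v hv
        obtain ⟨p, hp, rfl⟩ := hC.onto haD hq.1
        have hp2 : p ∈ D2 := hD2 ▸ hp
        exact ⟨p, mT.2 ⟨hp2, fun e' => hq.2.1 (e' ▸ hdπ), (hcomm hdD hp2).2 (hdπ ▸ hq.2.2)⟩,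
          c, hc, e⟩ }
  have hJ : ∀ j ∈ ({d, z} : Set H), ∀ h ∈ K, Commute j h := by
    rintro j (rfl | rfl) h hh
    exacts [mK.1 hh, hC.zc h]
  have hmem : ∀ x ∈ D2, x ∈ K → x ∈ T ∨ x ∈ ({d, z} : Set H) := fun x hx hxK => by
    by_cases e : x = d
    · exact Or.inr (Or.inl e)
    · exact Or.inl (mT.2 ⟨hx, e, mK.1 hxK⟩)
  have gT : ∀ i : Fin 21, g i.castSucc ∈ T := fun i => mT.2 ⟨hgD _,
    fun e => (P.mem i).2.1 (by rw [← P.b_cast, ← hgb, e, hdπ]), hd ▸ gcomm _ _⟩
  obtain ⟨x, hxe⟩ : ∃ x, x = g (0 : Fin 21).castSucc := ⟨_, rfl⟩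
  obtain ⟨y, hye⟩ : ∃ y, y = g (16 : Fin 21).castSucc := ⟨_, rfl⟩
  obtain ⟨w, hwe⟩ : ∃ w, w = g (20 : Fin 21).castSucc := ⟨_, rfl⟩
  have hx : x ∈ T := hxe ▸ gT 0
  have hy : y ∈ T := hye ▸ gT 16
  have hw : w ∈ T := hwe ▸ gT 20
  have hfr : M24.Frame (Pc.pt x) (Pc.pt y) (Pc.pt w) := by
    show M24.Frame (P.M.pt (π x)) (P.M.pt (π y)) (P.M.pt (π w))
    rw [hxe, hye, hwe, hgb, hgb, hgb, P.b_cast, P.b_cast, P.b_cast]
    obtain ⟨c₁, n₁, e₁⟩ := P.at_pt 0
    obtain ⟨c₂, n₂, e₂⟩ := P.at_pt 16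
    obtain ⟨c₃, n₃, e₃⟩ := P.at_pt 20
    refine ⟨P.M.pt_iso _ (P.mem 0), P.M.pt_iso _ (P.mem 16), P.M.pt_iso _ (P.mem 20),
      (P.M.commute_iff _ (P.mem 0) _ (P.mem 16)).1 (P.m_commute _ _),
      (P.M.commute_iff _ (P.mem 0) _ (P.mem 20)).1 (P.m_commute _ _),
      (P.M.commute_iff _ (P.mem 16) _ (P.mem 20)).1 (P.m_commute _ _), fun h => ?_, fun h => ?_⟩
    · rw [e₁, e₂] at h
      obtain ⟨r, hr⟩ := Submodule.mem_span_singleton.1 h
      have := congrFun hr 2
      simp [plv, pl, pts, val4] at this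
      exact n₂ (by simpa using this.symm)
    · rw [e₁, e₂, e₃] at h
      obtain ⟨r, s, hr⟩ := Submodule.mem_span_pair.1 h
      have := congrFun hr 4
      simp [plv, pl, pts, val4] at this
      exact n₃ (by simpa using this.symm)
  have hxy : Commute x y := hxe ▸ hye ▸ gcomm _ _
  have hxw : Commute x w := hxe ▸ hwe ▸ gcomm _ _
  have hyw : Commute y w := hye ▸ hwe ▸ gcomm _ _
  obtain ⟨hl3, ha3⟩ := M24.pic_level Pc hJ hmem le_rfl ⊥ fun e he =>
    ⟨fun _ q hq => by rw [(Submodule.mem_bot F).1 hq]; simp [herm, hermForm],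
      fun _ => Pc.mem e he⟩
  obtain ⟨hl4, ha4⟩ := M24.pic_level Pc hJ hmem
    (inf_le_left : K ⊓ Subgroup.centralizer ({x} : Set H) ≤ _)
    (Submodule.span F {Pc.pt x}) fun e he => by
      rw [M24.mem_cen]
      refine ⟨fun hh => M24.perp_span hF fun s hs => ?_, fun hh => ⟨Pc.mem e he, ?_⟩⟩
      · rw [Set.mem_singleton_iff.1 hs]; exact (Pc.commute_iff e he x hx).1 hh.2.symm
      · exact ((Pc.commute_iff e he x hx).2 (hh _ (Submodule.subset_span rfl))).symm
  obtain ⟨hl5, ha5⟩ := M24.pic_level Pc hJ hmem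
    (inf_le_left.trans inf_le_left :
      K ⊓ Subgroup.centralizer ({x} : Set H) ⊓ Subgroup.centralizer ({y} : Set H) ≤ _)
    (Submodule.span F {Pc.pt x, Pc.pt y}) fun e he => by
      rw [M24.mem_cen, M24.mem_cen]
      refine ⟨fun hh => M24.perp_span hF fun s hs => ?_, fun hh => ⟨⟨Pc.mem e he, ?_⟩, ?_⟩⟩
      · rcases hs with rfl | rfl
        · exact (Pc.commute_iff e he x hx).1 hh.1.2.symm
        · exact (Pc.commute_iff e he y hy).1 hh.2.symm
      · exact ((Pc.commute_iff e he x hx).2 (hh _ (Submodule.subset_span (by simp)))).symm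
      · exact ((Pc.commute_iff e he y hy).2 (hh _ (Submodule.subset_span (by simp)))).symm
  obtain ⟨K', hK'⟩ : ∃ K', K' = K ⊓ Subgroup.centralizer ({x} : Set H) ⊓
      Subgroup.centralizer ({y} : Set H) ⊓ Subgroup.centralizer ({w} : Set H) := ⟨_, rfl⟩
  have mK' : ∀ {h}, h ∈ K' ↔ h ∈ K ∧ Commute x h ∧ Commute y h ∧ Commute w h := fun {h} => by
    rw [hK', M24.mem_cen, M24.mem_cen, M24.mem_cen]; tauto
  have gK' : ∀ i, g i ∈ M24.mem' D2 K' := fun i => ⟨hgD i, mK'.2 ⟨mK.2 (hd ▸ gcomm _ _),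
    hxe ▸ gcomm _ _, hye ▸ gcomm _ _, hwe ▸ gcomm _ _⟩⟩
  have hrange : ∀ u ∈ M24.mem' D2 K', u ∈ Set.range g := by
    rintro u ⟨huD, huK⟩
    obtain ⟨h1, h2, h3, h4⟩ := mK'.1 huK
    by_cases e : u = d
    · exact ⟨21, hd ▸ e.symm⟩
    have huT : u ∈ T := mT.2 ⟨huD, e, mK.1 h1⟩
    obtain ⟨i, hi⟩ := P.exists_index (hTS huT)
      (by rw [← P.b_cast, ← hgb, ← hxe]; exact (h2.map π).symm)
      (by rw [← P.b_cast, ← hgb, ← hye]; exact (h3.map π).symm)
      (by rw [← P.b_cast, ← hgb, ← hwe]; exact (h4.map π).symm)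
    exact ⟨i.castSucc, hinj (hgD _) huD (by rw [hgb, P.b_cast, hi])⟩
  have h6 : M24.Claim D2 K' := by
    refine M24.bottom Pc hG hJ hmem hx hy hw hfr (fun h => mK')
      (fun l hl _ hp => hno l (fun u hu => hrange u (hl u hu)) hp) ?_
    rintro j (rfl | rfl)
    · exact Subgroup.subset_closure (hd ▸ gK' 21)
    · exact (Subgroup.closure_le _).2 (by
        rintro _ ⟨i, rfl⟩
        exact Subgroup.subset_closure (gK' i)) hzg
  rw [hK'] at h6
  have h5 := M24.step hG (ha5 w hw (M24.mem_cen.2 ⟨M24.mem_cen.2 ⟨Pc.mem w hw, hxw⟩, hyw⟩) hfr.iz)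
    hl5 h6
  have h4 := M24.step hG (ha4 y hy (M24.mem_cen.2 ⟨Pc.mem y hy, hxy⟩) hfr.iy) hl4 h5
  have h3 := M24.step hG (ha3 x hx (Pc.mem x hx) fun hb =>
    hfr.hx.1 ((Submodule.mem_bot F).1 hb)) hl3 h4
  rw [hK] at h3
  obtain ⟨q, hq, hdq⟩ : ∃ q ∈ D2, ¬ Commute d q := by
    obtain ⟨-, e, he, c, hc, hec, -⟩ := id hC.h22
    obtain ⟨t, ht⟩ := H17.class_transitive hC.cls he P.ha
    obtain ⟨q, hq, hqe⟩ := hC.onto haD (H17.class_conj hC.cls t c hc)
    refine ⟨q, hD2 ▸ hq, fun h => hec ((H17.commute_conj t).1 ?_)⟩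
    rw [ht, ← hqe, ← hdπ]
    exact h.map π
  have h0 : M24.Claim D2 (⊤ : Subgroup H) := M24.step hG
    ⟨⟨hdD, Subgroup.mem_top _⟩, q, ⟨hq, Subgroup.mem_top _⟩, hdq⟩
    (fun p hp r hr hne' hc => by
      obtain ⟨t, ht, t1, t2⟩ :=
        H43.CoverGenerate.exists_neighbour hcls hp.1.1 hr.1.1 (Ne.symm hne') hc
      exact ⟨t, ⟨ht, Subgroup.mem_top _⟩, t1, t2⟩) h3
  obtain ⟨ε, hε⟩ := M24.parity_of_claim hG.2.1 h0
  obtain ⟨ε', hε'⟩ : ∃ ε' : H →* ℤˣ, ε' = ε.comp (Subgroup.topEquiv (G := H)).symm.toMonoidHom :=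
    ⟨_, rfl⟩
  have h1 : ε' d = -1 := hε' ▸ hε ⟨d, Subgroup.mem_top _⟩ hdD
  have h2 : d ∈ ε'.ker := Abelianization.commutator_subset_ker ε' (hC.perfect ▸ Subgroup.mem_top d)
  rw [MonoidHom.mem_ker, h1] at h2
  exact absurd h2 (by decide)

end Cover

end Cfsg.Agent.H87.Fi23A
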