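import Cfsg.Agent.H87.Fi23A.Bits
import Cfsg.Agent.H89.M22.Quasi
import Cfsg.Agent.H43.CoverLift

/-!
The plane of 21 partners of a member of a class of type M(22) in coordinates: hexad relations on its
lines and on two of three marked triples, and the coordinates of the group it generates.
-/

set_option autoImplicit false
set_option linter.unusedSectionVars false
set_option linter.unreachableTactic false
set_option linter.unusedTactic false

namespace Cfsg.Agent.H87.Fi23A

open Cfsg Cfsg.Agent.H17.UPoints Cfsg.Agent.H43.FischerTwins Cfsg.Agent.H89.M22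

/-- A line condition: `t` is on the line of `x` and `y`. -/
def onLine4 (x y t : Fin 21) : Bool :=
  decide (∃ c l : Fin 4, pts t = vsmul4 c (vadd4 (pts x) (vsmul4 l (pts y))))

theorem line_cert : steps.all (fun s => onLine4 s.2.1 s.2.2.1 s.2.2.2.1 &&
    onLine4 s.2.1 s.2.2.1 s.2.2.2.2 && onLine4 s.2.1 s.2.2.1 s.1 &&
    decide ([s.2.1, s.2.2.1, s.2.2.2.1, s.2.2.2.2, s.1].Nodup)) = true := by decide +kernel

theorem pts_cert : (∀ i j, ∀ c : Fin 4, pts i = vsmul4 c (pts j) → i = j) ∧
    (∀ i, pts i ≠ fun _ => 0) ∧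
    (∀ v : Fin 3 → Fin 4, v ≠ (fun _ => 0) → ∃ i, ∃ c : Fin 4, c ≠ 0 ∧ v = vsmul4 c (pts i)) ∧
    (∀ r r' : Fin 3, ∀ i j : Fin 3, rows r i = rows r' j → r = r' ∧ i = j) := by
  refine ⟨?_, ?_, ?_, ?_⟩ <;> decide +kernel

/-- The matrix of one transvection on the plane. -/
def phi1 : Option (Fin 3 → Fin 4) → Fin 3 → Fin 3 → Fin 4
  | none => fun _ _ => 0
  | some v => fun k l => mul4 (conj4 (v l)) (v k)

/-- The matrix of a product of transvections. -/
def phiEv : List (Option (Fin 3 → Fin 4)) → ℕ → Fin 3 → Fin 3 → Fin 4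
  | [], _ => fun _ _ => 0
  | x :: xs, n => fun k l =>
      add4 (if n.testBit 0 then phi1 x k l else 0) (phiEv xs (n / 2) k l)

/-- The vector of a member. -/
def vecOf (i : Fin 22) : Option (Fin 3 → Fin 4) :=
  if h : i.val < 21 then some (pts ⟨i, h⟩) else none

/-- The vectors of the generators of the quotient. -/
def qvecs (k : Fin 3) : List (Option (Fin 3 → Fin 4)) := ((gens k).take 10).map vecOf

theorem phi_cert : (∀ k : Fin 3, (List.range 1024).all (fun n =>
      decide (phiEv (qvecs k) n = fun _ _ => 0) == decide (n ≤ 1)) = true) ∧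
    ∀ r : Fin 3, phiEv [some (pts (rows r 0)), some (pts (rows r 1)), some (pts (rows r 2))] 7 =
      phiEv [some (pts (rows 0 0)), some (pts (rows 0 1)), some (pts (rows 0 2))] 7 := by
  refine ⟨?_, ?_⟩ <;> decide +kernel

section field

variable {F : Type} [Field F] [Fintype F] [DecidableEq F]

/-- The field elements named by `Fin 4`. -/
def val4 (w : F) : Fin 4 → F := ![0, 1, w, w ^ 2]

variable (hF : Fintype.card F = 4) {w : F} (hw : w + w ^ 2 = 1)
include hF hw

theorem w_facts : w ≠ 0 ∧ w ≠ 1 ∧ w * w * w = 1 ∧ (1 : F) + 1 = 0 := by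
  have h0 : w ≠ 0 := fun h => by rw [h] at hw; norm_num at hw
  refine ⟨h0, fun h => ?_, cube hF h0, add_self hF 1⟩
  rw [h, one_pow, add_self hF] at hw
  exact zero_ne_one hw

theorem val_add (a b : Fin 4) : val4 w (add4 a b) = val4 w a + val4 w b := by
  obtain ⟨-, -, h3, h2⟩ := w_facts hF hw
  fin_cases a <;> fin_cases b <;>
    simp only [val4, add4, Fin.zero_eta, Fin.mk_one, Fin.reduceFinMk, Fin.isValue,
      Matrix.cons_val_zero, Matrix.cons_val_one, Matrix.cons_val] <;>
    first
    | ring1
    | linear_combination hw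
    | linear_combination -hw
    | linear_combination h2
    | linear_combination -h2
    | linear_combination w * h2
    | linear_combination -w * h2
    | linear_combination w ^ 2 * h2
    | linear_combination -(w ^ 2) * h2
    | linear_combination hw - w * h2
    | linear_combination -hw + w * h2
    | linear_combination hw - w ^ 2 * h2
    | linear_combination -hw + w ^ 2 * h2
    | linear_combination hw - h2
    | linear_combination -hw + h2

theorem val_mul (a b : Fin 4) : val4 w (mul4 a b) = val4 w a * val4 w b := by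
  obtain ⟨-, -, h3, -⟩ := w_facts hF hw
  fin_cases a <;> fin_cases b <;>
    simp only [val4, mul4, Fin.zero_eta, Fin.mk_one, Fin.reduceFinMk, Fin.isValue,
      Matrix.cons_val_zero, Matrix.cons_val_one, Matrix.cons_val] <;>
    first
    | ring1
    | linear_combination -h3
    | linear_combination -w * h3

theorem val_conj (a : Fin 4) : val4 w (conj4 a) = val4 w a ^ 2 := by
  obtain ⟨-, -, h3, -⟩ := w_facts hF hw
  fin_cases a <;>
    simp only [val4, conj4, Fin.zero_eta, Fin.mk_one, Fin.reduceFinMk, Fin.isValue,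
      Matrix.cons_val_zero, Matrix.cons_val_one, Matrix.cons_val] <;>
    first
    | ring1
    | linear_combination -w * h3

theorem val_injective : Function.Injective (val4 w) := by
  obtain ⟨h0, h1, h3, h2⟩ := w_facts hF hw
  have hsq : w ^ 2 ≠ 0 := pow_ne_zero _ h0
  have hsq1 : w ^ 2 ≠ 1 := fun h => h0 (by linear_combination hw - h)
  have hsqw : w ^ 2 ≠ w := fun h => h1 (mul_left_cancel₀ h0 (by rw [← pow_two, h, mul_one]))
  intro a b h
  fin_cases a <;> fin_cases b <;>
    simp only [val4, Fin.zero_eta, Fin.mk_one, Fin.reduceFinMk, Fin.isValue,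
      Matrix.cons_val_zero, Matrix.cons_val_one, Matrix.cons_val] at h <;>
    first
    | rfl
    | exact absurd h zero_ne_one
    | exact absurd h.symm zero_ne_one
    | exact absurd h h0 | exact absurd h.symm h0
    | exact absurd h h1 | exact absurd h.symm h1
    | exact absurd h hsq | exact absurd h.symm hsq
    | exact absurd h hsq1 | exact absurd h.symm hsq1
    | exact absurd h hsqw | exact absurd h.symm hsqw

theorem val_surjective : Function.Surjective (val4 w) :=
  ((Fintype.bijective_iff_injective_and_card _).2 ⟨val_injective hF hw, by simp [hF]⟩).2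

omit hF hw in
/-- A vector of the plane. -/
def plv (w : F) (v : Fin 3 → Fin 4) : Fin 6 → F :=
  pl (val4 w (v 0)) (val4 w (v 1)) (val4 w (v 2))

theorem plv_add (u v : Fin 3 → Fin 4) : plv w (vadd4 u v) = plv w u + plv w v := by
  funext j
  fin_cases j <;> simp [plv, pl, vadd4, val_add hF hw]

theorem plv_smul (c : Fin 4) (v : Fin 3 → Fin 4) : plv w (vsmul4 c v) = val4 w c • plv w v := by
  funext j
  fin_cases j <;> simp [plv, pl, vsmul4, val_mul hF hw]

theorem plv_injective : Function.Injective (plv w) := by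
  intro u v h
  funext k
  apply val_injective hF hw
  fin_cases k
  · simpa [plv, pl] using congrFun h 0
  · simpa [plv, pl] using congrFun h 2
  · simpa [plv, pl] using congrFun h 4

theorem plv_zero : plv w (fun _ => 0) = 0 := by
  funext j
  fin_cases j <;> simp [plv, pl, val4]

theorem plv_iso (u v : Fin 3 → Fin 4) : herm (plv w u) (plv w v) = 0 := herm_pl_pl hF ..

theorem isP_plv {v : Fin 3 → Fin 4} (hv : v ≠ fun _ => 0) : IsP (plv w v) :=
  ⟨fun h => hv (plv_injective hF hw (h.trans (plv_zero hF hw).symm)), plv_iso hF hw v v⟩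

omit hF hw in
/-- The translation of a matrix. -/
def shift (w : F) (f : Fin 3 → Fin 3 → Fin 4) (z : Fin 6 → F) : Fin 6 → F :=
  pl ((z 0 + z 1) * val4 w (f 0 0) + (z 2 + z 3) * val4 w (f 0 1) + (z 4 + z 5) * val4 w (f 0 2))
    ((z 0 + z 1) * val4 w (f 1 0) + (z 2 + z 3) * val4 w (f 1 1) + (z 4 + z 5) * val4 w (f 1 2))
    ((z 0 + z 1) * val4 w (f 2 0) + (z 2 + z 3) * val4 w (f 2 1) + (z 4 + z 5) * val4 w (f 2 2))

omit hF hw in
/-- The transvection of a vector, or the identity. -/
def tv (hF : Fintype.card F = 4) (w : F) : Option (Fin 3 → Fin 4) → ↥(Cfsg.SU 6 F 2)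
  | none => 1
  | some v => trv hF (plv w v)

theorem act_tv (x : Option (Fin 3 → Fin 4)) (z : Fin 6 → F) :
    act (tv hF w x) z = z + shift w (phi1 x) z := by
  cases x with
  | none =>
    show act 1 z = _
    rw [act_one]
    funext j
    fin_cases j <;> simp [shift, pl, phi1, val4]
  | some v =>
    show act (trv hF (plv w v)) z = _
    rw [trv_act hF (plv_iso hF hw v v)]
    congr 1
    rw [show herm z (plv w v) = herm z (pl _ _ _) from rfl, herm_pl]
    funext j
    fin_cases j <;> simp [plv, shift, pl, phi1, val_mul hF hw, val_conj hF hw] <;> ring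

theorem act_ev : ∀ (l : List (Option (Fin 3 → Fin 4))) (n : ℕ) (z : Fin 6 → F),
    act (ev (l.map (tv hF w)) n) z = z + shift w (phiEv l n) z
  | [], n, z => by
    show act 1 z = _
    rw [act_one]
    funext j
    fin_cases j <;> simp [shift, pl, phiEv, val4]
  | x :: xs, n, z => by
    show act (_ * _) z = _
    rw [act_mul, act_ev xs]
    by_cases hb : n.testBit 0
    · rw [if_pos hb, act_tv hF hw, add_assoc]
      congr 1
      have hs : shift w (phi1 x) (z + shift w (phiEv xs (n / 2)) z) = shift w (phi1 x) z := by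
        funext j
        have h2 : ∀ a b c : F, a + c + (b + c) = a + b := fun a b c => by
          linear_combination add_self hF c
        fin_cases j <;> simp [shift, pl, h2]
      rw [hs]
      funext j
      fin_cases j <;> simp [shift, pl, phiEv, hb, val_add hF hw] <;> ring
    · rw [if_neg hb, act_one]
      congr 1
      have hv0 : val4 w 0 = 0 := rfl
      funext j
      fin_cases j <;> simp [shift, pl, phiEv, hb, val_add hF hw, hv0]

omit hw in
theorem tv_sq {w : F} (hw : w + w ^ 2 = 1) (x : Option (Fin 3 → Fin 4)) :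
    tv hF w x * tv hF w x = 1 := by
  cases x with
  | none => exact one_mul 1
  | some v => exact trv_sq hF (plv_iso hF hw v v)

theorem tv_commute (x y : Option (Fin 3 → Fin 4)) : Commute (tv hF w x) (tv hF w y) := by
  cases x with
  | none => exact Commute.one_left _
  | some u =>
    cases y with
    | none => exact Commute.one_right _
    | some v =>
      by_cases hu : u = fun _ => 0
      · rw [show tv hF w (some u) = 1 from ext_act fun z => by
          show act (trv hF (plv w u)) z = _
          rw [trv_act hF (plv_iso hF hw u u), act_one, hu, plv_zero hF hw, smul_zero, add_zero]]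
        exact Commute.one_left _
      by_cases hv : v = fun _ => 0
      · rw [show tv hF w (some v) = 1 from ext_act fun z => by
          show act (trv hF (plv w v)) z = _
          rw [trv_act hF (plv_iso hF hw v v), act_one, hv, plv_zero hF hw, smul_zero, add_zero]]
        exact Commute.one_right _
      exact (trv_commute_iff hF (plv_iso hF hw u u) (plv_iso hF hw v v) (isP_plv hF hw hu).1
        (isP_plv hF hw hv).1).2 (plv_iso hF hw u v)

/-- A product of plane transvections is trivial when it is central. -/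
theorem ev_eq_one_of_central {l : List (Option (Fin 3 → Fin 4))} {n : ℕ}
    (h : ev (l.map (tv hF w)) n ∈ Subgroup.center ↥(Cfsg.SU 6 F 2)) :
    phiEv l n = fun _ _ => 0 := by
  have hsq : ev (l.map (tv hF w)) n * ev (l.map (tv hF w)) n = 1 := by
    rw [← ev_xor, Nat.xor_self, ev_zero]
    · intro x hx
      obtain ⟨y, -, rfl⟩ := List.mem_map.1 hx
      exact tv_sq hF hw y
    · intro x hx x' hx'
      obtain ⟨y, -, rfl⟩ := List.mem_map.1 hx
      obtain ⟨y', -, rfl⟩ := List.mem_map.1 hx'
      exact tv_commute hF hw y y'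
  have h3 : ∀ c ∈ Subgroup.center ↥(Cfsg.SU 6 F 2), c ^ 3 = 1 := fun c hc => by
    have h1 : (⟨c, hc⟩ : ↥(Subgroup.center ↥(Cfsg.SU 6 F 2))) ^
        Nat.card ↥(Subgroup.center ↥(Cfsg.SU 6 F 2)) = 1 := pow_card_eq_one'
    rw [H3.card_center_SU (cardSq hF) (by norm_num)] at h1
    exact congrArg Subtype.val h1
  have he := eq_of_congr h3 hsq (one_mul 1) (by rw [mul_one]; exact inv_mem h)
  have hz : ∀ z, shift w (phiEv l n) z = 0 := fun z => by
    have := act_ev hF hw l n z
    rw [he, act_one] at this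
    exact left_eq_add.1 this
  funext k l'
  apply val_injective hF hw
  rw [show val4 w 0 = 0 from rfl]
  fin_cases l'
  · have := hz ![1, 0, 0, 0, 0, 0]
    fin_cases k
    · simpa [shift, pl] using congrFun this 0
    · simpa [shift, pl] using congrFun this 2
    · simpa [shift, pl] using congrFun this 4
  · have := hz ![0, 0, 1, 0, 0, 0]
    fin_cases k
    · simpa [shift, pl] using congrFun this 0
    · simpa [shift, pl] using congrFun this 2
    · simpa [shift, pl] using congrFun this 4
  · have := hz ![0, 0, 0, 0, 1, 0]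
    fin_cases k
    · simpa [shift, pl] using congrFun this 0
    · simpa [shift, pl] using congrFun this 2
    · simpa [shift, pl] using congrFun this 4

end field

/-- A member with a model and the 21 members at the points of the plane. -/
structure Plane {G : Type*} [Group G] (D : Set G) {F : Type} [Field F] [Fintype F] [DecidableEq F]
    (hF : Fintype.card F = 4) where
  /-- The member. -/
  a : G
  ha : a ∈ D
  /-- The model around it. -/
  M : Mdl D a hF
  /-- An element outside the prime field. -/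
  w : F
  hw : w + w ^ 2 = 1
  /-- The members at the points. -/
  m : Fin 21 → G
  mem : ∀ i, m i ∈ Sset D a
  at_pt : ∀ i, ∃ c : F, c ≠ 0 ∧ M.pt (m i) = c • plv w (pts i)

theorem exists_plane {G : Type*} [Group G] [Finite G] {D : Set G} {F : Type} [Field F] [Fintype F]
    [DecidableEq F] (hC : Ctx D F) : Nonempty (Plane D hC.card) := by
  obtain ⟨a, ha, -⟩ := hC.cls.2.1
  obtain ⟨M⟩ := exists_mdl hC ha
  obtain ⟨w, -, -, hw⟩ := H43.exists_omega hC.card
  choose m hm c hc he using fun i => M.onto _ (isP_plv hC.card hw (pts_cert.2.1 i))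
  exact ⟨⟨a, ha, M, w, hw, m, hm, fun i => ⟨c i, hc i, he i⟩⟩⟩

namespace Plane

variable {G : Type*} [Group G] {D : Set G} {F : Type} [Field F] [Fintype F] [DecidableEq F]
  {hF : Fintype.card F = 4} (P : Plane D hF)

/-- The 22 members. -/
def b (i : Fin 22) : G := if h : i.val < 21 then P.m ⟨i, h⟩ else P.a

theorem b_cast (i : Fin 21) : P.b i.castSucc = P.m i := dif_pos i.isLt

theorem b_last : P.b 21 = P.a := dif_neg (by decide)

theorem m_injective : Function.Injective P.m := by
  intro i j h
  obtain ⟨c, hc, e⟩ := P.at_pt i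
  obtain ⟨c', hc', e'⟩ := P.at_pt j
  rw [h, e'] at e
  obtain ⟨x, hx⟩ := val_surjective hF P.hw (c⁻¹ * c')
  refine pts_cert.1 i j x (plv_injective hF P.hw ?_)
  rw [plv_smul hF P.hw, hx, ← smul_smul, e, smul_smul, inv_mul_cancel₀ hc, one_smul]

theorem b_injective : Function.Injective P.b := by
  intro i j h
  unfold b at h
  by_cases hi : i.val < 21 <;> by_cases hj : j.val < 21
  · rw [dif_pos hi, dif_pos hj] at h
    exact Fin.ext (show i.val = j.val from congrArg (Fin.val (n := 21)) (P.m_injective h))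
  · rw [dif_pos hi, dif_neg hj] at h
    exact absurd h (P.mem _).2.1
  · rw [dif_neg hi, dif_pos hj] at h
    exact absurd h.symm (P.mem _).2.1
  · exact Fin.ext (by omega)

theorem m_commute (i j : Fin 21) : Commute (P.m i) (P.m j) := by
  obtain ⟨c, hc, e⟩ := P.at_pt i
  obtain ⟨c', hc', e'⟩ := P.at_pt j
  refine (P.M.commute_iff _ (P.mem i) _ (P.mem j)).2 ?_
  rw [e, e', herm_smul_left hF, herm_smul_right hF, plv_iso hF P.hw, mul_zero, mul_zero]

theorem b_mem (i : Fin 22) : P.b i ∈ D := by
  unfold b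
  split
  exacts [(P.mem _).1, P.ha]

theorem b_commute (i j : Fin 22) : Commute (P.b i) (P.b j) := by
  unfold b
  split <;> split
  · exact P.m_commute _ _
  · exact (P.mem _).2.2.symm
  · exact (P.mem _).2.2
  · exact Commute.refl _

/-- The members commuting with three corners of the plane are its points. -/
theorem exists_index {x : G} (hx : x ∈ Sset D P.a) (h0 : Commute x (P.m 0))
    (h1 : Commute x (P.m 16)) (h2 : Commute x (P.m 20)) : ∃ i, x = P.m i := by
  have hp : ∀ i, Commute x (P.m i) → herm (P.M.pt x) (plv P.w (pts i)) = 0 := fun i hi => by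
    obtain ⟨c, hc, e⟩ := P.at_pt i
    have := (P.M.commute_iff x hx _ (P.mem i)).1 hi
    rw [e, herm_smul_right hF] at this
    exact (mul_eq_zero.1 this).resolve_left (pow_ne_zero _ hc)
  obtain ⟨v, hv⟩ : ∃ v, v = P.M.pt x := ⟨_, rfl⟩
  rw [← hv] at hp
  have e0 := hp 0 h0
  have e1 := hp 16 h1
  have e2 := hp 20 h2
  rw [plv, herm_pl] at e0 e1 e2
  simp only [pts, val4, Fin.isValue, Matrix.cons_val, Matrix.cons_val_zero, Matrix.cons_val_one,
    one_pow, one_mul, zero_pow (two_ne_zero), zero_mul, add_zero, zero_add] at e0 e1 e2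
  obtain ⟨p, hp0⟩ := val_surjective hF P.hw (v 0)
  obtain ⟨q, hq0⟩ := val_surjective hF P.hw (v 2)
  obtain ⟨r, hr0⟩ := val_surjective hF P.hw (v 4)
  have heq : v = plv P.w ![p, q, r] := by
    funext j
    fin_cases j
    · simp [plv, pl, hp0]
    · simp only [plv, pl, Fin.mk_one, Fin.isValue, Matrix.cons_val_one, Matrix.cons_val_zero,
        Matrix.cons_val, hp0]
      linear_combination e0 - add_self hF (v 0)
    · simp [plv, pl, hq0]
    · simp only [plv, pl, Fin.reduceFinMk, Fin.isValue, Matrix.cons_val_one, Matrix.cons_val_zero,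
        Matrix.cons_val, hq0]
      linear_combination e1 - add_self hF (v 2)
    · simp [plv, pl, hr0]
    · simp only [plv, pl, Fin.reduceFinMk, Fin.isValue, Matrix.cons_val_one, Matrix.cons_val_zero,
        Matrix.cons_val, hr0]
      linear_combination e2 - add_self hF (v 4)
  have hne : (![p, q, r] : Fin 3 → Fin 4) ≠ fun _ => 0 := fun e =>
    (P.M.pt_iso x hx).1 (by rw [← hv, heq, e, plv_zero hF P.hw])
  obtain ⟨i, c, hc, hic⟩ := pts_cert.2.2.1 _ hne
  obtain ⟨d, hd, e⟩ := P.at_pt i
  refine ⟨i, P.M.inj x hx _ (P.mem i) (Submodule.mem_span_singleton.2 ⟨val4 P.w c * d⁻¹, ?_⟩)⟩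
  rw [← hv, heq, hic, plv_smul hF P.hw, e, smul_smul, inv_mul_cancel_right₀ hd]

theorem f_m (i : Fin 21) : P.M.f ⟨P.m i, Subgroup.subset_closure (P.mem i)⟩ =
    QuotientGroup.mk' (Subgroup.center ↥(Cfsg.SU 6 F 2)) (tv hF P.w (some (pts i))) := by
  obtain ⟨c, hc, e⟩ := P.at_pt i
  rw [P.M.f_eq _ (P.mem i), e, trv_smul hF hc (plv_iso hF P.hw _ _)]
  rfl

variable [Finite G]

theorem line_rel (hC : Ctx D F) {s : Fin 21 × (Fin 21 × Fin 21 × Fin 21 × Fin 21)}
    (hs : s ∈ steps) :
    P.m s.2.1 * P.m s.2.2.1 * P.m s.2.2.2.1 * P.m s.2.2.2.2 * P.m s.1 = P.a := by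
  have h := List.all_eq_true.1 line_cert s hs
  simp only [Bool.and_eq_true, decide_eq_true_eq] at h
  obtain ⟨⟨⟨o1, o2⟩, o3⟩, hn⟩ := h
  obtain ⟨q, x, y, t1, t2⟩ := s
  simp only [List.nodup_cons, List.mem_cons, List.not_mem_nil, or_false, not_or,
    List.nodup_nil, not_false_eq_true, and_true] at hn
  obtain ⟨⟨xy, xt1, xt2, xq⟩, ⟨yt1, yt2, yq⟩, ⟨t12, t1q⟩, t2q⟩ := hn
  have on : ∀ t, t ≠ x → t ≠ y → onLine4 x y t = true → OnLine D P.a (P.m x) (P.m y) (P.m t) := by
    intro t htx hty ht
    obtain ⟨c, l, e⟩ := of_decide_eq_true ht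
    refine ⟨P.mem t, fun e' => htx (P.m_injective e'), fun e' => hty (P.m_injective e'),
      P.m_commute t x, P.m_commute t y, fun u hu hux huy => ?_⟩
    have hz : ∀ i, Commute u (P.m i) → herm (P.M.pt u) (plv P.w (pts i)) = 0 := fun i hi => by
      obtain ⟨d, hd, e⟩ := P.at_pt i
      have := (P.M.commute_iff u hu _ (P.mem i)).1 hi
      rw [e, herm_smul_right hF] at this
      exact (mul_eq_zero.1 this).resolve_left (pow_ne_zero _ hd)
    obtain ⟨d, -, e'⟩ := P.at_pt t
    refine (P.M.commute_iff u hu _ (P.mem t)).2 ?_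
    rw [e', e, plv_smul hF P.hw, plv_add hF P.hw, plv_smul hF P.hw, herm_smul_right hF,
      herm_smul_right hF, herm_add_right hF, herm_smul_right hF, hz x hux, hz y huy]
    ring
  exact five hC P.ha (P.mem x) (P.mem y) (P.m_commute x y) (fun e => xy (P.m_injective e))
    (on t1 (Ne.symm xt1) (Ne.symm yt1) o1) (on t2 (Ne.symm xt2) (Ne.symm yt2) o2)
    (on q (Ne.symm xq) (Ne.symm yq) o3) (fun e => t12 (P.m_injective e))
    (fun e => t1q (P.m_injective e)) (fun e => t2q (P.m_injective e))

/-- The product of a marked triple. -/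
def J (r : Fin 3) : G := P.m (rows r 0) * P.m (rows r 1) * P.m (rows r 2)

theorem J_commute (r : Fin 3) (i : Fin 22) : Commute (P.J r) (P.b i) := by
  simp only [J, ← P.b_cast]
  exact ((P.b_commute _ i).mul_left (P.b_commute _ i)).mul_left (P.b_commute _ i)

/-- Two of the marked triples have equal products, the third differs by the member. -/
theorem exists_pattern (hC : Ctx D F) :
    ∃ k : Fin 3, P.J (rowI k) = P.J (rowJ k) ∧ P.J k = P.a * P.J (rowI k) := by
  have hG := H17.class_group hC.cls
  let J' : Fin 3 → ↥(Subgroup.closure (Sset D P.a)) := fun r =>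
    ⟨_, Subgroup.subset_closure (P.mem (rows r 0))⟩ *
      ⟨_, Subgroup.subset_closure (P.mem (rows r 1))⟩ *
      ⟨_, Subgroup.subset_closure (P.mem (rows r 2))⟩
  obtain ⟨v, hv⟩ : ∃ v : Fin 3 → List (Option (Fin 3 → Fin 4)),
      v = fun r => [some (pts (rows r 0)), some (pts (rows r 1)), some (pts (rows r 2))] := ⟨_, rfl⟩
  have hev : ∀ r, P.M.f (J' r) = QuotientGroup.mk' (Subgroup.center ↥(Cfsg.SU 6 F 2))
      (ev ((v r).map (tv hF P.w)) 7) := fun r => by
    show P.M.f (⟨_, Subgroup.subset_closure (P.mem (rows r 0))⟩ *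
      ⟨_, Subgroup.subset_closure (P.mem (rows r 1))⟩ *
      ⟨_, Subgroup.subset_closure (P.mem (rows r 2))⟩) = _
    rw [map_mul, map_mul, P.f_m, P.f_m, P.f_m, ← map_mul, ← map_mul]
    congr 1
    simp [hv, ev, mul_assoc]
  have heq : ∀ r, P.M.f (J' r) = P.M.f (J' 0) := fun r => by
    rw [hev, hev]
    congr 1
    refine ext_act fun z => ?_
    rw [act_ev hF P.hw, act_ev hF P.hw, hv, phi_cert.2 r]
  have hbit : ∀ r, P.J r = P.J 0 ∨ P.J r = P.a * P.J 0 := by
    intro r
    have hcen : ∀ e ∈ Sset D P.a, Commute ((P.J 0)⁻¹ * P.J r) e := fun e he => by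
      have h := congrArg Subtype.val (Subgroup.mem_center_iff.1
        ((P.M.ker ((J' 0)⁻¹ * J' r)).1 (by rw [map_mul, map_inv, heq r, inv_mul_cancel]))
        ⟨e, Subgroup.subset_closure he⟩)
      simp only [J', Subgroup.coe_mul, Subgroup.coe_inv] at h
      exact h.symm
    rcases centralizer_sset hC P.ha hcen with h | h
    · exact Or.inl (inv_mul_eq_one.1 h).symm
    · refine Or.inr ((inv_mul_eq_iff_eq_mul.1 h).trans ?_)
      rw [← P.b_last]
      exact P.J_commute 0 21
  have hnot : ¬ (P.J 1 = P.J 0 ∧ P.J 2 = P.J 0) := by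
    rintro ⟨h1, h2⟩
    have hall : ∀ i, P.J i = P.J 0 := fun i => by fin_cases i; exacts [rfl, h1, h2]
    exact not_three hF hC (p := fun i => P.m (rows i 0)) (q := fun i => P.m (rows i 1))
      (r := fun i => P.m (rows i 2))
      (fun i => ⟨(P.mem _).1, (P.mem _).1, (P.mem _).1⟩)
      (fun i => ⟨P.m_commute _ _, P.m_commute _ _, P.m_commute _ _⟩)
      (fun i => ⟨fun e => absurd (pts_cert.2.2.2 i i _ _ (P.m_injective e)).2 (by decide),
        fun e => absurd (pts_cert.2.2.2 i i _ _ (P.m_injective e)).2 (by decide),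
        fun e => absurd (pts_cert.2.2.2 i i _ _ (P.m_injective e)).2 (by decide)⟩)
      hall
      (fun i j hij => ⟨fun e => hij (pts_cert.2.2.2 i j _ _ (P.m_injective e)).1,
        fun e => hij (pts_cert.2.2.2 i j _ _ (P.m_injective e)).1,
        fun e => hij (pts_cert.2.2.2 i j _ _ (P.m_injective e)).1⟩)
  have haa := H17.sq_one hG.1 P.ha
  rcases hbit 1 with h1 | h1 <;> rcases hbit 2 with h2 | h2
  · exact absurd ⟨h1, h2⟩ hnot
  · exact ⟨2, h1.symm, h2⟩
  · exact ⟨1, h2.symm, h1⟩
  · refine ⟨0, h1.trans h2.symm, ?_⟩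
    show P.J 0 = P.a * P.J 1
    rw [h1, ← mul_assoc, haa, one_mul]

end Plane

end Cfsg.Agent.H87.Fi23A
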