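import Cfsg.Agent.H87.Fi23A.Plane

/-!
The group generated by 22 pairwise commuting members of a class of type M(22): it has order `2 ^ 10`
and consists of the products of at most three of them.
-/

set_option autoImplicit false
set_option linter.unusedSectionVars false

namespace Cfsg.Agent.H87.Fi23A

open Cfsg Cfsg.Agent.H17.UPoints Cfsg.Agent.H43.FischerTwins Cfsg.Agent.H89.M22

section family

variable {K : Type*} [Group K]

theorem ev_two_pow : ∀ (g : List K) (b : ℕ) (hb : b < g.length), ev g (2 ^ b) = g[b]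
  | x :: xs, 0, _ => by simp [ev, ev_zero]
  | x :: xs, b + 1, hb => by
    show _ * ev xs (2 ^ (b + 1) / 2) = xs[b]'(by simpa using hb)
    rw [pow_succ, Nat.mul_div_cancel _ two_pos, ev_two_pow xs b (by simpa using hb)]
    simp [Nat.testBit_zero]

/-- A family with the hexad relations of a pattern. -/
structure Hexads (g : Fin 22 → K) (k : Fin 3) : Prop where
  sq : ∀ i, g i * g i = 1
  comm : ∀ i j, Commute (g i) (g j)
  line : ∀ s ∈ steps, g s.2.1.castSucc * g s.2.2.1.castSucc * g s.2.2.2.1.castSucc *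
    g s.2.2.2.2.castSucc * g s.1.castSucc * g 21 = 1
  pair : g (rows (rowI k) 0).castSucc * g (rows (rowI k) 1).castSucc *
    g (rows (rowI k) 2).castSucc * (g (rows (rowJ k) 0).castSucc * g (rows (rowJ k) 1).castSucc *
      g (rows (rowJ k) 2).castSucc) = 1

theorem base_cert : ∀ k : Fin 3,
    gens k = (gens k).take 10 ++ [(rows k 0).castSucc] ∧
    ((0 : Fin 22) ∈ gens k ∧ (1 : Fin 22) ∈ gens k) ∧
    (∀ r j : Fin 3, (rows r j).castSucc ∈ gens k ∨ (r = rowJ k ∧ j = 0)) ∧
    extra k < 1024 := by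
  decide +kernel

namespace Hexads

variable {g : Fin 22 → K} {k : Fin 3} (h : Hexads g k)
include h

lemma gl_sq : ∀ x ∈ (gens k).map g, x * x = 1 := fun x hx => by
  obtain ⟨i, -, rfl⟩ := List.mem_map.1 hx
  exact h.sq i

lemma gl_comm : ∀ x ∈ (gens k).map g, ∀ y ∈ (gens k).map g, Commute x y := fun x hx y hy => by
  obtain ⟨i, -, rfl⟩ := List.mem_map.1 hx
  obtain ⟨j, -, rfl⟩ := List.mem_map.1 hy
  exact h.comm i j

lemma ev_gen {b : ℕ} (hb : b < 11) :
    ev ((gens k).map g) (2 ^ b) = g ((gens k).getD b 0) := by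
  have hlen := (coord_cert k).2.2.2.2.2.2.1
  rw [ev_two_pow _ b (by simpa [hlen] using hb), List.getElem_map, List.getD_eq_getElem _ _ (by omega)]

/-- Members at the generators. -/
lemma good_gen {i : Fin 22} (hi : i ∈ gens k) : g i = ev ((gens k).map g) (coord k i) := by
  obtain ⟨b, hb, rfl⟩ := List.getElem_of_mem hi
  have hlen := (coord_cert k).2.2.2.2.2.2.1
  have hc := (coord_cert k).1 ⟨b, by omega⟩
  simp only [List.getD_eq_getElem _ _ hb] at hc
  rw [hc, h.ev_gen (by omega), List.getD_eq_getElem _ _ hb]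

lemma ev_x (n m : ℕ) : ev ((gens k).map g) (n ^^^ m) =
    ev ((gens k).map g) n * ev ((gens k).map g) m :=
  ev_xor h.gl_sq h.gl_comm n m

lemma ev_one : ev ((gens k).map g) 1 = g 21 := by
  have := h.ev_gen (b := 0) (by norm_num)
  rwa [pow_zero, (coord_cert k).2.2.2.2.2.1] at this

lemma inv_self (i : Fin 22) : (g i)⁻¹ = g i := inv_eq_of_mul_eq_one_right (h.sq i)

/-- A member at the first point of the second row. -/
lemma good_row : g (rows (rowJ k) 0).castSucc =
    ev ((gens k).map g) (coord k (rows (rowJ k) 0).castSucc) := by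
  have hg : ∀ r j : Fin 3, (r, j) ≠ (rowJ k, 0) →
      g (rows r j).castSucc = ev ((gens k).map g) (coord k (rows r j).castSucc) := fun r j hne =>
    h.good_gen (((base_cert k).2.2.1 r j).resolve_right fun e => hne (Prod.ext e.1 e.2))
  have hIJ : rowI k ≠ rowJ k := by fin_cases k <;> decide
  rw [(coord_cert k).2.1, h.ev_x, h.ev_x, h.ev_x, h.ev_x,
    ← hg (rowI k) 0 (fun e => hIJ (congrArg Prod.fst e)),
    ← hg (rowI k) 1 (fun e => hIJ (congrArg Prod.fst e)),
    ← hg (rowI k) 2 (fun e => hIJ (congrArg Prod.fst e)),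
    ← hg (rowJ k) 1 (fun e => absurd (congrArg Prod.snd e) (by decide : (1 : Fin 3) ≠ 0)),
    ← hg (rowJ k) 2 (fun e => absurd (congrArg Prod.snd e) (by decide : (2 : Fin 3) ≠ 0))]
  have hp := h.pair
  rw [mul_assoc (g (rows (rowJ k) 0).castSucc), ((h.comm _ _).mul_right (h.comm _ _)).eq,
    ← mul_assoc] at hp
  rw [← h.inv_self (rows (rowJ k) 0).castSucc]
  refine (eq_inv_of_mul_eq_one_left hp).symm.trans ?_
  simp only [mul_assoc]

lemma good_step {s : Fin 21 × (Fin 21 × Fin 21 × Fin 21 × Fin 21)} (hs : s ∈ steps)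
    (h1 : g s.2.1.castSucc = ev ((gens k).map g) (coord k s.2.1.castSucc))
    (h2 : g s.2.2.1.castSucc = ev ((gens k).map g) (coord k s.2.2.1.castSucc))
    (h3 : g s.2.2.2.1.castSucc = ev ((gens k).map g) (coord k s.2.2.2.1.castSucc))
    (h4 : g s.2.2.2.2.castSucc = ev ((gens k).map g) (coord k s.2.2.2.2.castSucc)) :
    g s.1.castSucc = ev ((gens k).map g) (coord k s.1.castSucc) := by
  have hc := List.all_eq_true.1 (coord_cert k).2.2.1 s hs
  rw [beq_iff_eq] at hc
  rw [hc, h.ev_x, h.ev_x, h.ev_x, h.ev_x, h.ev_one, ← h1, ← h2, ← h3, ← h4]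
  have hp := h.line s hs
  rw [mul_assoc _ (g s.1.castSucc), (h.comm s.1.castSucc 21).eq, ← mul_assoc] at hp
  rw [← h.inv_self s.1.castSucc]
  refine (eq_inv_of_mul_eq_one_left hp).symm.trans ?_
  rw [((((h.comm _ 21).mul_left (h.comm _ 21)).mul_left (h.comm _ 21)).mul_left (h.comm _ 21)).eq]
  simp only [mul_assoc]

/-- Every member has its coordinates. -/
theorem coord_eq (i : Fin 22) : g i = ev ((gens k).map g) (coord k i) := by
  have G : ∀ r j, g (rows r j).castSucc = ev ((gens k).map g) (coord k (rows r j).castSucc) :=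
    fun r j => ((base_cert k).2.2.1 r j).elim h.good_gen fun ⟨e, e'⟩ => e ▸ e' ▸ h.good_row
  have g21 : g 21 = ev ((gens k).map g) (coord k 21) := h.good_gen (by fin_cases k <;> decide)
  have g0 : g 0 = ev ((gens k).map g) (coord k 0) := h.good_gen (base_cert k).2.1.1
  have g1 : g 1 = ev ((gens k).map g) (coord k 1) := h.good_gen (base_cert k).2.1.2
  have g5 := G 0 0
  have g11 := G 0 1
  have g14 := G 0 2
  have g6 := G 1 0
  have g9 := G 1 1
  have g15 := G 1 2
  have g7 := G 2 0
  have g13 := G 2 1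
  have g10 := G 2 2
  have g17 := h.good_step (s := (17, 0, 5, 10, 15)) (by simp [steps]) g0 g5 g10 g15
  have g18 := h.good_step (s := (18, 0, 6, 11, 13)) (by simp [steps]) g0 g6 g11 g13
  have g19 := h.good_step (s := (19, 0, 7, 9, 14)) (by simp [steps]) g0 g7 g9 g14
  have g4 := h.good_step (s := (4, 1, 11, 14, 17)) (by simp [steps]) g1 g11 g14 g17
  have g16 := h.good_step (s := (16, 1, 5, 9, 13)) (by simp [steps]) g1 g5 g9 g13
  have g8 := h.good_step (s := (8, 1, 6, 15, 19)) (by simp [steps]) g1 g6 g15 g19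
  have g12 := h.good_step (s := (12, 1, 7, 10, 18)) (by simp [steps]) g1 g7 g10 g18
  have g2 := h.good_step (s := (2, 4, 9, 15, 18)) (by simp [steps]) g4 g9 g15 g18
  have g3 := h.good_step (s := (3, 4, 10, 13, 19)) (by simp [steps]) g4 g10 g13 g19
  have g20 := h.good_step (s := (20, 4, 5, 6, 7)) (by simp [steps]) g4 g5 g6 g7
  fin_cases i <;> assumption

/-- The members generate at most 2048 elements. -/
theorem closure_le : ∀ x ∈ Subgroup.closure (Set.range g),
    ∃ n < 2048, ev ((gens k).map g) n = x := by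
  intro x hx
  induction hx using Subgroup.closure_induction with
  | mem y hy =>
    obtain ⟨i, rfl⟩ := hy
    exact ⟨coord k i, (coord_cert k).2.2.2.2.2.2.2 i, (h.coord_eq i).symm⟩
  | one => exact ⟨0, by norm_num, ev_zero _⟩
  | mul a b _ _ iha ihb =>
    obtain ⟨n, hn, rfl⟩ := iha
    obtain ⟨m, hm, rfl⟩ := ihb
    exact ⟨n ^^^ m, Nat.xor_lt_two_pow (n := 11) hn hm, h.ev_x n m⟩
  | inv a _ iha =>
    obtain ⟨n, hn, rfl⟩ := iha
    refine ⟨n, hn, (inv_eq_of_mul_eq_one_right ?_).symm⟩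
    rw [← h.ev_x, Nat.xor_self, ev_zero]

theorem card_le [Finite K] : Nat.card ↥(Subgroup.closure (Set.range g)) ≤ 2048 := by
  choose n hn he using h.closure_le
  calc Nat.card ↥(Subgroup.closure (Set.range g))
      ≤ Nat.card (Fin 2048) := Nat.card_le_card_of_injective (fun x => ⟨n x.1 x.2, hn x.1 x.2⟩)
          fun x y e => Subtype.ext (by
            rw [← he x.1 x.2, ← he y.1 y.2]
            exact congrArg (ev _) (congrArg Fin.val e))
    _ = 2048 := Nat.card_fin 2048

/-- With the odd relation the coordinates live in ten bits. -/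
theorem qcoord_eq (hodd : g (rows k 0).castSucc * g (rows k 1).castSucc * g (rows k 2).castSucc =
      g 21 * (g (rows (rowI k) 0).castSucc * g (rows (rowI k) 1).castSucc *
        g (rows (rowI k) 2).castSucc)) (i : Fin 22) :
    g i = ev (((gens k).take 10).map g) (qcoord k i) := by
  obtain ⟨hsplit, -, -, hext⟩ := base_cert k
  have hlen : (((gens k).take 10).map g).length = 10 := by
    simp [(coord_cert k).2.2.2.2.2.2.1]
  have happ : ∀ n, ev ((gens k).map g) n = ev (((gens k).take 10).map g) n *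
      (if n.testBit 10 then g (rows k 0).castSucc else 1) := by
    intro n
    conv_lhs => rw [hsplit, List.map_append, List.map_singleton]
    rw [ev_append_singleton, hlen]
  have hk : g (rows k 0).castSucc = ev (((gens k).take 10).map g) (extra k) := by
    have e := happ (extra k)
    rw [Nat.testBit_lt_two_pow hext, if_neg Bool.false_ne_true, mul_one] at e
    rw [← e, (coord_cert k).2.2.2.1, h.ev_x, h.ev_x, h.ev_x, h.ev_x, h.ev_x, h.ev_one,
      ← h.coord_eq, ← h.coord_eq, ← h.coord_eq, ← h.coord_eq, ← h.coord_eq]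
    rw [mul_assoc (g (rows k 0).castSucc)] at hodd
    have e2 := eq_mul_inv_of_mul_eq hodd
    rw [mul_inv_rev, h.inv_self, h.inv_self] at e2
    rw [e2, (h.comm (rows k 2).castSucc (rows k 1).castSucc).eq]
    have c : Commute (g (rows (rowI k) 0).castSucc * g (rows (rowI k) 1).castSucc *
        g (rows (rowI k) 2).castSucc) (g (rows k 1).castSucc * g (rows k 2).castSucc) :=
      ((((h.comm _ _).mul_left (h.comm _ _)).mul_left (h.comm _ _)).mul_right
        (((h.comm _ _).mul_left (h.comm _ _)).mul_left (h.comm _ _)))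
    rw [mul_assoc, c.eq]
    simp only [mul_assoc]
  have hsub : ∀ {x}, x ∈ ((gens k).take 10).map g → x ∈ (gens k).map g := fun hx => by
    obtain ⟨j, hj, rfl⟩ := List.mem_map.1 hx
    exact List.mem_map_of_mem (List.mem_of_mem_take hj)
  have hxor := ev_xor (g := ((gens k).take 10).map g) (fun x hx => h.gl_sq x (hsub hx))
    (fun x hx y hy => h.gl_comm x (hsub hx) y (hsub hy))
  have hmod : ∀ n, ev (((gens k).take 10).map g) (n % 1024) =
      ev (((gens k).take 10).map g) n := fun n => by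
    have := ev_mod (((gens k).take 10).map g) n
    rwa [hlen] at this
  rw [h.coord_eq i, happ, qcoord]
  split
  · rw [hmod, hxor, ← hk]
  · rw [mul_one, hmod]

end Hexads

end family

/-- Twenty-two commuting members and the group they generate. -/
structure Base {G : Type*} [Group G] (D B : Set G) : Prop where
  sub : B ⊆ D
  comm : ∀ x ∈ B, ∀ y ∈ B, Commute x y
  ncard : B.ncard = 22
  card : Nat.card ↥(Subgroup.closure B) = 1024
  cover : ∀ x ∈ Subgroup.closure B, x = 1 ∨ x ∈ B ∨ (∃ p ∈ B, ∃ q ∈ B, p ≠ q ∧ x = p * q) ∨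
    ∃ p ∈ B, ∃ q ∈ B, ∃ r ∈ B, p ≠ q ∧ p ≠ r ∧ q ≠ r ∧ x = p * q * r
  pair_out : ∀ p ∈ B, ∀ q ∈ B, p ≠ q → p * q ∉ B ∧ p * q ≠ 1
  triple_out : ∀ p ∈ B, ∀ q ∈ B, ∀ r ∈ B, p ≠ q → p ≠ r → q ≠ r → p * q * r ∉ B ∧ p * q * r ≠ 1 ∧
    ∀ u ∈ B, ∀ v ∈ B, u ≠ v → p * q * r ≠ u * v

theorem testBit_top (m n : ℕ) : (2 ^ m - 2).testBit n = decide (n < m ∧ n ≠ 0) := by
  cases m with
  | zero => simp
  | succ m =>
    cases n with
    | zero =>
      have : 2 ^ (m + 1) - 2 = 2 * (2 ^ m - 1) := by rw [pow_succ']; omega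
      rw [this, Nat.testBit_zero]
      simp
    | succ n =>
      have : 2 ^ (m + 1) - 2 = 2 * (2 ^ m - 1) := by rw [pow_succ']; omega
      rw [this, Nat.testBit_succ, Nat.mul_div_cancel_left _ two_pos, Nat.testBit_two_pow_sub_one]
      simp

theorem mem_triplesC {k : Fin 3} {i j l : Fin 22} (hij : i < j) (hjl : j < l) :
    qcoord k i ^^^ qcoord k j ^^^ qcoord k l ∈ triplesC k i := by
  refine List.mem_map.2 ⟨(j, l), List.mem_filter.2 ⟨?_, by simpa using hij⟩, rfl⟩
  exact List.mem_flatMap.2 ⟨j, List.mem_finRange _, List.mem_map.2 ⟨l,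
    List.mem_filter.2 ⟨List.mem_finRange _, by simpa using hjl⟩, rfl⟩⟩

theorem mem_doubles {k : Fin 3} {i j : Fin 22} (hij : i ≠ j) :
    qcoord k i ^^^ qcoord k j ∈ doubles k := by
  have key : ∀ {i j : Fin 22}, i < j → qcoord k i ^^^ qcoord k j ∈ doubles k := fun {i j} hij =>
    List.mem_map.2 ⟨(i, j), List.mem_flatMap.2 ⟨i, List.mem_finRange _, List.mem_map.2 ⟨j,
      List.mem_filter.2 ⟨List.mem_finRange _, by simpa using hij⟩, rfl⟩⟩, rfl⟩
  rcases lt_or_gt_of_ne hij with h | h
  · exact key h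
  · rw [Nat.xor_comm]; exact key h

theorem mem_triples {k : Fin 3} {i j l : Fin 22} (hij : i ≠ j) (hil : i ≠ l) (hjl : j ≠ l) :
    ∃ a, qcoord k i ^^^ qcoord k j ^^^ qcoord k l ∈ triplesC k a := by
  rcases lt_or_gt_of_ne hij with h1 | h1 <;> rcases lt_or_gt_of_ne hil with h2 | h2 <;>
    rcases lt_or_gt_of_ne hjl with h3 | h3 <;>
    first
    | omega
    | exact ⟨_, mem_triplesC h1 h3⟩
    | (refine ⟨i, ?_⟩
       rw [Nat.xor_assoc, Nat.xor_comm (qcoord k j), ← Nat.xor_assoc]
       exact mem_triplesC h2 h3)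
    | (refine ⟨j, ?_⟩
       rw [Nat.xor_comm (qcoord k i)]
       exact mem_triplesC h1 h2)
    | (refine ⟨j, ?_⟩
       rw [Nat.xor_comm (qcoord k i), Nat.xor_assoc, Nat.xor_comm (qcoord k i), ← Nat.xor_assoc]
       exact mem_triplesC h3 h2)
    | (refine ⟨l, ?_⟩
       rw [Nat.xor_comm (qcoord k i ^^^ qcoord k j), ← Nat.xor_assoc]
       exact mem_triplesC h2 h1)
    | (refine ⟨l, ?_⟩
       rw [Nat.xor_comm (qcoord k i ^^^ qcoord k j), Nat.xor_comm (qcoord k i), ← Nat.xor_assoc]
       exact mem_triplesC h3 h1)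

theorem qcoord_lt (k : Fin 3) (i : Fin 22) : qcoord k i < 1024 := by
  unfold qcoord
  split <;> exact Nat.mod_lt _ (by norm_num)

namespace Plane

variable {G : Type*} [Group G] [Finite G] {D : Set G} {F : Type} [Field F] [Fintype F] [DecidableEq F]
  {hF : Fintype.card F = 4} (P : Plane D hF)

theorem J_sq (hC : Ctx D F) (r : Fin 3) : P.J r * P.J r = 1 := by
  have hG := H17.class_group hC.cls
  unfold J
  rw [((P.m_commute _ _).mul_left (P.m_commute _ _)).symm.mul_mul_mul_comm,
    (P.m_commute _ _).symm.mul_mul_mul_comm, H17.sq_one hG.1 (P.mem _).1,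
    H17.sq_one hG.1 (P.mem _).1, H17.sq_one hG.1 (P.mem _).1, one_mul, one_mul]

theorem hexads (hC : Ctx D F) {k : Fin 3} (hk : P.J (rowI k) = P.J (rowJ k)) : Hexads P.b k where
  sq i := H17.sq_one (H17.class_group hC.cls).1 (P.b_mem i)
  comm := P.b_commute
  line s hs := by
    rw [P.b_cast, P.b_cast, P.b_cast, P.b_cast, P.b_cast, P.b_last, P.line_rel hC hs]
    exact H17.sq_one (H17.class_group hC.cls).1 P.ha
  pair := by
    simp only [P.b_cast]
    show P.J (rowI k) * P.J (rowJ k) = 1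
    rw [hk, P.J_sq hC]

theorem f_a (hC : Ctx D F) : P.M.f ⟨P.a, mem_closure_sset hC P.ha⟩ = 1 := by
  refine (P.M.ker _).2 (Subgroup.mem_center_iff.2 fun u => Subtype.ext ?_)
  have hle : Subgroup.closure (Sset D P.a) ≤ Subgroup.centralizer {P.a} :=
    (Subgroup.closure_le _).2 fun z hz =>
      Subgroup.mem_centralizer_singleton_iff.2 hz.2.2.symm.eq
  exact Subgroup.mem_centralizer_singleton_iff.1 (hle u.2)

theorem qgens_cert : ∀ k : Fin 3, ((gens k).take 10).getD 0 0 = 21 ∧
    ((gens k).take 10).length = 10 := by decide +kernel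

/-- The coordinates are faithful. -/
theorem ev_injective (hC : Ctx D F) (k : Fin 3) {n : ℕ} (hn : n < 1024)
    (h : ev (((gens k).take 10).map P.b) n = 1) : n = 0 := by
  obtain ⟨bs, hbs⟩ : ∃ bs : Fin 22 → ↥(Subgroup.closure (Sset D P.a)), ∀ i, (bs i : G) = P.b i :=
    ⟨fun i => ⟨P.b i, by
      unfold b
      split
      exacts [Subgroup.subset_closure (P.mem _), mem_closure_sset hC P.ha]⟩, fun i => rfl⟩
  have hf : ∀ i, P.M.f (bs i) = QuotientGroup.mk' (Subgroup.center ↥(Cfsg.SU 6 F 2))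
      (tv hF P.w (vecOf i)) := by
    intro i
    by_cases hi : i.val < 21
    · rw [vecOf, dif_pos hi, ← P.f_m]
      congr 1
      exact Subtype.ext ((hbs i).trans (dif_pos hi))
    · rw [vecOf, dif_neg hi]
      show _ = QuotientGroup.mk' _ 1
      rw [map_one, ← P.f_a hC]
      congr 1
      exact Subtype.ext ((hbs i).trans (dif_neg hi))
  have e1 : ev (((gens k).take 10).map bs) n = 1 := by
    refine Subtype.ext ?_
    have := ev_map (Subgroup.closure (Sset D P.a)).subtype (((gens k).take 10).map bs) n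
    rw [List.map_map] at this
    rw [show (Subgroup.closure (Sset D P.a)).subtype ∘ bs = P.b from funext hbs, h] at this
    exact this
  have e2 := congrArg P.M.f e1
  rw [map_one, ev_map, List.map_map, show ⇑P.M.f ∘ bs = (QuotientGroup.mk' (Subgroup.center
    ↥(Cfsg.SU 6 F 2))) ∘ (tv hF P.w ∘ vecOf) from funext hf, ← List.map_map, ← ev_map,
    QuotientGroup.mk'_apply, QuotientGroup.eq_one_iff, ← List.map_map] at e2
  have e3 := ev_eq_one_of_central hF P.hw (l := qvecs k) (n := n) e2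
  have hc := List.all_eq_true.1 (phi_cert.1 k) n (List.mem_range.2 hn)
  rw [beq_iff_eq, decide_eq_decide] at hc
  have h1 : n ≤ 1 := hc.1 e3
  by_contra hn0
  have hn1 : n = 2 ^ 0 := by rw [pow_zero]; omega
  have hlen : 0 < (((gens k).take 10).map P.b).length := by
    rw [List.length_map, (qgens_cert k).2]; norm_num
  rw [hn1, ev_two_pow _ 0 hlen, List.getElem_map,
    ← List.getD_eq_getElem _ (0 : Fin 22) (by simpa using hlen), (qgens_cert k).1, P.b_last] at h
  exact H17.ne_one_of_orderOf ((H17.class_group hC.cls).1.1 _ P.ha) h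

/-- The 22 members of the plane form a base. -/
theorem base (hC : Ctx D F) : Base D (Set.range P.b) := by
  obtain ⟨k, hk, hkodd⟩ := P.exists_pattern hC
  have hH := P.hexads hC hk
  have hq : ∀ i, P.b i = ev (((gens k).take 10).map P.b) (qcoord k i) := hH.qcoord_eq (by
    rw [P.b_last]
    simp only [P.b_cast]
    exact hkodd)
  obtain ⟨E, hE⟩ : ∃ E, E = ev (((gens k).take 10).map P.b) := ⟨_, rfl⟩
  rw [← hE] at hq
  have hx : ∀ n m, E (n ^^^ m) = E n * E m := by
    subst hE
    exact ev_xor (fun x hx => by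
        obtain ⟨i, -, rfl⟩ := List.mem_map.1 hx
        exact hH.sq i)
      (fun x hx y hy => by
        obtain ⟨i, -, rfl⟩ := List.mem_map.1 hx
        obtain ⟨j, -, rfl⟩ := List.mem_map.1 hy
        exact P.b_commute i j)
  have hinj : ∀ n < 1024, ∀ m < 1024, E n = E m → n = m := by
    intro n hn m hm e
    have h0 : E (n ^^^ m) = 1 := by
      rw [hx, ← e, ← hx, Nat.xor_self, hE, ev_zero]
    exact Nat.xor_eq_zero_iff.1
      (P.ev_injective hC k (Nat.xor_lt_two_pow (n := 10) hn hm) (hE ▸ h0))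
  have himg : ∀ x, x ∈ Subgroup.closure (Set.range P.b) ↔ ∃ n < 1024, E n = x := by
    intro x
    constructor
    · intro hx'
      induction hx' using Subgroup.closure_induction with
      | mem y hy =>
        obtain ⟨i, rfl⟩ := hy
        exact ⟨qcoord k i, qcoord_lt k i, (hq i).symm⟩
      | one => exact ⟨0, by norm_num, hE ▸ ev_zero _⟩
      | mul a b _ _ iha ihb =>
        obtain ⟨n, hn, rfl⟩ := iha
        obtain ⟨m, hm, rfl⟩ := ihb
        exact ⟨n ^^^ m, Nat.xor_lt_two_pow (n := 10) hn hm, hx n m⟩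
      | inv a _ iha =>
        obtain ⟨n, hn, rfl⟩ := iha
        refine ⟨n, hn, (inv_eq_of_mul_eq_one_right ?_).symm⟩
        rw [← hx, Nat.xor_self, hE, ev_zero]
    · rintro ⟨n, -, rfl⟩
      subst hE
      exact ev_mem (fun y hy => by
        obtain ⟨i, -, rfl⟩ := List.mem_map.1 hy
        exact Subgroup.subset_closure ⟨i, rfl⟩) n
  have hcard : Nat.card ↥(Subgroup.closure (Set.range P.b)) = 1024 := by
    have e : (Subgroup.closure (Set.range P.b) : Set G) = E '' Set.Iio 1024 := by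
      ext x
      rw [SetLike.mem_coe, himg]
      rfl
    rw [show Nat.card ↥(Subgroup.closure (Set.range P.b)) =
        Nat.card ↥(Subgroup.closure (Set.range P.b) : Set G) from rfl,
      Nat.card_coe_set_eq, e, Set.InjOn.ncard_image (s := Set.Iio 1024) fun n hn m hm =>
        hinj n hn m hm, ← Finset.coe_Iio, Set.ncard_coe_finset, Nat.card_Iio]
  obtain ⟨hcov, d12, d13, d23⟩ := cover_cert k
  have hsing : ∀ n, n ∈ singles k ↔ ∃ i, qcoord k i = n := by simp [singles]
  have bit : ∀ {M N : ℕ}, M &&& N = 0 → ∀ {x}, M.testBit x = true → N.testBit x = true → False := by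
    intro M N h x hM hN
    have := congrArg (fun t => Nat.testBit t x) h
    simp [hM, hN] at this
  have sing_bit : ∀ i, (mask (singles k)).testBit (qcoord k i) = true := fun i => by
    rw [testBit_mask, decide_eq_true_eq]; exact (hsing _).2 ⟨i, rfl⟩
  have nz : ∀ n, ((mask (singles k)).testBit n = true ∨ (mask (doubles k)).testBit n = true ∨
      (tripleMask k).testBit n = true) → n ≠ 0 := by
    intro n hn h0
    subst h0
    have := congrArg (fun t => Nat.testBit t 0) hcov
    simp only [Nat.testBit_or] at this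
    rw [testBit_top] at this
    simp only [ne_eq, not_true_eq_false, and_false, decide_false, Bool.or_eq_false_iff] at this
    rcases hn with h | h | h <;> simp [h] at this
  refine ⟨?_, ?_, ?_, hcard, ?_, ?_, ?_⟩
  · rintro _ ⟨i, rfl⟩; exact P.b_mem i
  · rintro _ ⟨i, rfl⟩ _ ⟨j, rfl⟩; exact P.b_commute i j
  · rw [Set.ncard_range_of_injective P.b_injective, Nat.card_fin]
  · intro x hxB
    obtain ⟨n, hn, rfl⟩ := (himg x).1 hxB
    by_cases h0 : n = 0
    · exact Or.inl (by rw [h0, hE, ev_zero])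
    have hb := congrArg (fun t => Nat.testBit t n) hcov
    simp only [testBit_top, hn, ne_eq, h0, not_false_eq_true, and_self, decide_true] at hb
    rw [Nat.testBit_or, Nat.testBit_or, Bool.or_eq_true, Bool.or_eq_true, testBit_mask,
      testBit_mask, testBit_tripleMask, decide_eq_true_eq, decide_eq_true_eq] at hb
    rcases hb with (h | h) | ⟨i, h⟩
    · obtain ⟨i, rfl⟩ := (hsing n).1 h
      exact Or.inr (Or.inl ⟨i, hq i⟩)
    · obtain ⟨⟨i, j⟩, hij, rfl⟩ := List.mem_map.1 h
      obtain ⟨i', -, hj⟩ := List.mem_flatMap.1 hij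
      obtain ⟨j', hj', e⟩ := List.mem_map.1 hj
      obtain ⟨rfl, rfl⟩ := Prod.mk.injEq .. ▸ e
      have hlt : i' < j' := of_decide_eq_true (List.mem_filter.1 hj').2
      exact Or.inr (Or.inr (Or.inl ⟨_, ⟨i', rfl⟩, _, ⟨j', rfl⟩,
        fun e => hlt.ne (P.b_injective e), by rw [hx, ← hq, ← hq]⟩))
    · obtain ⟨⟨j, l⟩, hjl, rfl⟩ := List.mem_map.1 h
      obtain ⟨hp, hij⟩ := List.mem_filter.1 hjl
      obtain ⟨j', -, hl⟩ := List.mem_flatMap.1 hp
      obtain ⟨l', hl', e⟩ := List.mem_map.1 hl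
      obtain ⟨rfl, rfl⟩ := Prod.mk.injEq .. ▸ e
      have h1 : i < j' := of_decide_eq_true hij
      have h2 : j' < l' := of_decide_eq_true (List.mem_filter.1 hl').2
      exact Or.inr (Or.inr (Or.inr ⟨_, ⟨i, rfl⟩, _, ⟨j', rfl⟩, _, ⟨l', rfl⟩,
        fun e => h1.ne (P.b_injective e), fun e => (h1.trans h2).ne (P.b_injective e),
        fun e => h2.ne (P.b_injective e), by rw [hx, hx, ← hq, ← hq, ← hq]⟩))
  · rintro _ ⟨i, rfl⟩ _ ⟨j, rfl⟩ hne
    have hd : (mask (doubles k)).testBit (qcoord k i ^^^ qcoord k j) = true := by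
      rw [testBit_mask, decide_eq_true_eq]
      exact mem_doubles fun e => hne (congrArg P.b e)
    have hlt : qcoord k i ^^^ qcoord k j < 1024 :=
      Nat.xor_lt_two_pow (n := 10) (qcoord_lt k i) (qcoord_lt k j)
    have e : P.b i * P.b j = E (qcoord k i ^^^ qcoord k j) := by rw [hx, ← hq, ← hq]
    refine ⟨?_, fun h1 => ?_⟩
    · rintro ⟨l, hl⟩
      have := hinj _ hlt _ (qcoord_lt k l) (by rw [← e, ← hq]; exact hl.symm)
      exact bit d12 (sing_bit l) (this ▸ hd)
    · exact nz _ (Or.inr (Or.inl hd))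
        (hinj _ hlt 0 (by norm_num) (by rw [← e, h1, hE, ev_zero]))
  · rintro _ ⟨i, rfl⟩ _ ⟨j, rfl⟩ _ ⟨l, rfl⟩ h1 h2 h3
    have ht : (tripleMask k).testBit (qcoord k i ^^^ qcoord k j ^^^ qcoord k l) = true :=
      (testBit_tripleMask k _).2 (mem_triples (fun e => h1 (congrArg P.b e))
        (fun e => h2 (congrArg P.b e)) (fun e => h3 (congrArg P.b e)))
    have hlt : qcoord k i ^^^ qcoord k j ^^^ qcoord k l < 1024 :=
      Nat.xor_lt_two_pow (n := 10) (Nat.xor_lt_two_pow (n := 10) (qcoord_lt k i) (qcoord_lt k j))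
        (qcoord_lt k l)
    have e : P.b i * P.b j * P.b l = E (qcoord k i ^^^ qcoord k j ^^^ qcoord k l) := by
      rw [hx, hx, ← hq, ← hq, ← hq]
    refine ⟨?_, fun h => ?_, ?_⟩
    · rintro ⟨m, hm⟩
      have := hinj _ hlt _ (qcoord_lt k m) (by rw [← e, ← hq]; exact hm.symm)
      exact bit d13 (sing_bit m) (this ▸ ht)
    · exact nz _ (Or.inr (Or.inr ht))
        (hinj _ hlt 0 (by norm_num) (by rw [← e, h, hE, ev_zero]))
    · rintro _ ⟨u, rfl⟩ _ ⟨v, rfl⟩ huv h
      have := hinj _ hlt _ (Nat.xor_lt_two_pow (n := 10) (qcoord_lt k u) (qcoord_lt k v))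
        (by rw [← e, h, hx, ← hq, ← hq])
      refine bit d23 (x := qcoord k u ^^^ qcoord k v) ?_ (this ▸ ht)
      rw [testBit_mask, decide_eq_true_eq]
      exact mem_doubles fun e => huv (congrArg P.b e)

end Plane

end Cfsg.Agent.H87.Fi23A
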